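import Cfsg.Agent.Ov.A

set_option autoImplicit false

namespace Cfsg.Agent.Ov

open Finset Configuration

section abstract
variable {α β : Type*} [Fintype α] [Fintype β] (r : α → β → Prop)

theorem ncard_sub (A : α → Prop) [DecidablePred A] :
    Nat.card {p : α // A p} = (univ.filter A).card := by
  rw [Nat.card_eq_fintype_card, Fintype.card_subtype]

/-- counting the points of a closed subconfiguration from one of its points -/
theorem total (ex : ∀ p q : α, ∃ l, r p l ∧ r q l)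
    (un : ∀ p q l m, r p l → r q l → r p m → r q m → p = q ∨ l = m)
    (A : α → Prop) (B : β → Prop)
    (cl : ∀ p q l, A p → A q → p ≠ q → r p l → r q l → B l) {k : ℕ} {a : α} (ha : A a)
    (h1 : ∀ l, B l → Nat.card {p : α // r p l ∧ A p} = k + 1)
    (h2 : Nat.card {l : β // r a l ∧ B l} = k + 1) :
    Nat.card {p : α // A p} = k ^ 2 + k + 1 := by
  classical
  choose ln hl1 hl2 using ex
  rw [ncard_sub] at h2 ⊢
  have hmap : ∀ p ∈ (univ.filter A).erase a, ln a p ∈ univ.filter fun l => r a l ∧ B l := by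
    intro p hp
    simp only [mem_erase, mem_filter, mem_univ, true_and] at hp ⊢
    exact ⟨hl1 _ _, cl a p _ ha hp.2 (Ne.symm hp.1) (hl1 _ _) (hl2 _ _)⟩
  have hs := card_eq_sum_card_fiberwise hmap
  have hf : ∀ l ∈ univ.filter (fun l => r a l ∧ B l),
      (((univ.filter A).erase a).filter fun p => ln a p = l).card = k := by
    intro l hl
    simp only [mem_filter, mem_univ, true_and] at hl
    have h3 := h1 l hl.2
    rw [ncard_sub] at h3
    have : (((univ.filter A).erase a).filter fun p => ln a p = l) =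
        (univ.filter fun p => r p l ∧ A p).erase a := by
      ext p
      simp only [mem_filter, mem_erase, mem_univ, true_and]
      constructor
      · rintro ⟨⟨h4, h5⟩, rfl⟩
        exact ⟨h4, hl2 _ _, h5⟩
      · rintro ⟨h4, h5, h6⟩
        refine ⟨⟨h4, h6⟩, ?_⟩
        rcases un a p _ _ (hl1 a p) (hl2 a p) hl.1 h5 with h | h
        · exact absurd h.symm h4
        · exact h
    rw [this, card_erase_of_mem (by simp [hl.1, ha]), h3]
    rfl
  rw [sum_congr rfl hf, sum_const, h2, card_erase_of_mem (by simp [ha]), smul_eq_mul] at hs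
  have hpos : 0 < (univ.filter A).card := card_pos.2 ⟨a, by simp [ha]⟩
  have : (univ.filter A).card = (k + 1) * k + 1 := by omega
  rw [this]; ring

end abstract

section plane
variable {P L : Type*} [Membership P L] [Fintype P] [Fintype L] [ProjectivePlane P L]

theorem un (p q : P) (l m : L) (h1 : p ∈ l) (h2 : q ∈ l) (h3 : p ∈ m) (h4 : q ∈ m) :
    p = q ∨ l = m := Nondegenerate.eq_or_eq h1 h2 h3 h4

theorem lc (L : Type*) [Membership P L] [Fintype L] [ProjectivePlane P L] (p : P) :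
    Nat.card {l : L // p ∈ l} = ProjectivePlane.order P L + 1 :=
  ProjectivePlane.lineCount_eq L p

theorem pc (P : Type*) [Membership P L] [Fintype P] [ProjectivePlane P L] (l : L) :
    Nat.card {p : P // p ∈ l} = ProjectivePlane.order P L + 1 :=
  ProjectivePlane.pointCount_eq P l

/-- two points (equal or not) lie on a line -/
theorem exL (L : Type*) [Membership P L] [Fintype L] [ProjectivePlane P L] (p q : P) :
    ∃ l : L, p ∈ l ∧ q ∈ l := by
  by_cases h : p = q
  · subst h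
    have : Nonempty {l : L // p ∈ l} := (Nat.card_pos_iff.1 (by rw [lc]; omega)).1
    obtain ⟨l, hl⟩ := this
    exact ⟨l, hl, hl⟩
  · exact ⟨_, HasLines.mkLine_ax (L := L) h⟩

/-- two lines (equal or not) meet -/
theorem exP (P : Type*) [Membership P L] [Fintype P] [ProjectivePlane P L] (l m : L) :
    ∃ p : P, p ∈ l ∧ p ∈ m := by
  by_cases h : l = m
  · subst h
    have : Nonempty {p : P // p ∈ l} := (Nat.card_pos_iff.1 (by rw [pc]; omega)).1
    obtain ⟨p, hp⟩ := this
    exact ⟨p, hp, hp⟩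
  · exact ⟨_, HasPoints.mkPoint_ax (P := P) h⟩

/-- perspectivity inside a closed subconfiguration -/
theorem persp (A : P → Prop) (B : L → Prop)
    (cl : ∀ p q l, A p → A q → p ≠ q → p ∈ l → q ∈ l → B l)
    (cp : ∀ l m p, B l → B m → l ≠ m → p ∈ l → p ∈ m → A p)
    {X : P} {l : L} (hX : A X) (hl : B l) (hXl : X ∉ l) :
    Nat.card {m : L // X ∈ m ∧ B m} = Nat.card {p : P // p ∈ l ∧ A p} := by
  classical
  choose ln hl1 hl2 using exL (P := P) L
  rw [ncard_sub, ncard_sub]
  symm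
  refine card_bij (fun p _ => ln X p) ?_ ?_ ?_
  · intro p hp
    simp only [mem_filter, mem_univ, true_and] at hp ⊢
    exact ⟨hl1 _ _, cl X p _ hX hp.2 (fun e => hXl (e ▸ hp.1)) (hl1 _ _) (hl2 _ _)⟩
  · intro p hp q hq e
    simp only [mem_filter, mem_univ, true_and] at hp hq
    rcases un p q l (ln X p) hp.1 hq.1 (hl2 _ _) (e ▸ hl2 X q) with h | h
    · exact h
    · exact absurd (h ▸ hl1 X p) hXl
  · intro m hm
    simp only [mem_filter, mem_univ, true_and] at hm
    obtain ⟨p, hp1, hp2⟩ := exP P l m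
    have hne : l ≠ m := fun e => hXl (e ▸ hm.1)
    refine ⟨p, by simp only [mem_filter, mem_univ, true_and]; exact ⟨hp1, cp l m p hl hm.2 hne hp1 hp2⟩, ?_⟩
    rcases un X p (ln X p) m (hl1 _ _) (hl2 _ _) hm.1 hp2 with h | h
    · exact absurd (h ▸ hp1) hXl
    · exact h

end plane

variable {G L P : Type*} [Membership P L] [Fintype P] [Fintype L] [ProjectivePlane P L]
  [Group G] [MulAction G P] [MulAction G L] {O : Finset P}

theorem OV.fixL (h : OV G L O) {g : G} {p q : P} {l : L} (hp : g • p = p) (hq : g • q = q)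
    (hne : p ≠ q) (h1 : p ∈ l) (h2 : q ∈ l) : g • l = l := by
  rcases un p q (g • l) l (hp ▸ (h.coll g p l).2 h1) (hq ▸ (h.coll g q l).2 h2) h1 h2 with e | e
  · exact absurd e hne
  · exact e

theorem OV.fixP (h : OV G L O) {g : G} {l m : L} {p : P} (hl : g • l = l) (hm : g • m = m)
    (hne : l ≠ m) (h1 : p ∈ l) (h2 : p ∈ m) : g • p = p := by
  rcases un (g • p) p l m (hl ▸ (h.coll g p l).2 h1) h1 (hm ▸ (h.coll g p m).2 h2) h2 with e | e
  · exact e
  · exact absurd e hne

theorem OV.three_le (h : OV G L O) : 3 ≤ ProjectivePlane.order P L := by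
  have := ProjectivePlane.one_lt_order P L
  obtain ⟨c, hc⟩ := h.odd
  omega

theorem OV.tan (h : OV G L O) {a : P} (ha : a ∈ O) :
    ∃! l : L, a ∈ l ∧ ∀ b ∈ O, b ∈ l → b = a := by
  classical
  choose ln hl1 hl2 using exL (P := P) L
  have h1 := lc L a
  rw [ncard_sub] at h1
  have h2 := card_filter_add_card_filter_not (s := univ.filter fun l : L => a ∈ l)
    (fun l : L => ∀ b ∈ O, b ∈ l → b = a)
  have h3 : (O.erase a).card =
      ((univ.filter fun l : L => a ∈ l).filter fun l => ¬ ∀ b ∈ O, b ∈ l → b = a).card := by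
    refine card_bij (fun b _ => ln a b) ?_ ?_ ?_
    · intro b hb
      simp only [mem_filter, mem_univ, true_and, mem_erase] at hb ⊢
      exact ⟨hl1 _ _, fun e => hb.1 (e b hb.2 (hl2 _ _))⟩
    · intro b hb c hc e
      simp only [mem_erase] at hb hc
      rcases h.arc (ln a b) a ha b hb.2 c hc.2 (hl1 _ _) (hl2 _ _) (e ▸ hl2 a c) with e | e | e
      · exact absurd e.symm hb.1
      · exact absurd e.symm hc.1
      · exact e
    · intro l hl
      simp only [mem_filter, mem_univ, true_and] at hl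
      obtain ⟨hl3, hl4⟩ := hl
      push Not at hl4
      obtain ⟨b, hb, hbl, hba⟩ := hl4
      refine ⟨b, mem_erase.2 ⟨hba, hb⟩, ?_⟩
      rcases un a b _ l (hl1 a b) (hl2 a b) hl3 hbl with e | e
      · exact absurd e.symm hba
      · exact e
  rw [card_erase_of_mem ha, h.card] at h3
  have h4 : ((univ.filter fun l : L => a ∈ l).filter fun l => ∀ b ∈ O, b ∈ l → b = a).card = 1 := by
    omega
  obtain ⟨l, hl⟩ := card_eq_one.1 h4
  have key : ∀ m : L, (a ∈ m ∧ ∀ b ∈ O, b ∈ m → b = a) ↔ m = l := by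
    intro m
    rw [← mem_singleton, ← hl]
    simp only [mem_filter, mem_univ, true_and]
  exact ⟨l, (key l).2 rfl, fun m hm => (key m).1 hm⟩

/-- the image of a tangent is the tangent at the image -/
theorem OV.tan_smul (h : OV G L O) (g : G) {a : P} {l : L} (h1 : a ∈ l)
    (h2 : ∀ b ∈ O, b ∈ l → b = a) : g • a ∈ g • l ∧ ∀ b ∈ O, b ∈ g • l → b = g • a := by
  refine ⟨(h.coll g a l).2 h1, fun b hb hbl => ?_⟩
  have : g⁻¹ • b ∈ l := by
    rw [← h.coll g, smul_inv_smul]; exact hbl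
  rw [← h2 _ (h.inv _ _ hb) this, smul_inv_smul]

theorem OV.fixT (h : OV G L O) {g : G} {a : P} {l : L} (ha : a ∈ O) (hg : g • a = a) (h1 : a ∈ l)
    (h2 : ∀ b ∈ O, b ∈ l → b = a) : g • l = l := by
  have := h.tan_smul g h1 h2
  rw [hg] at this
  exact (h.tan ha).unique this ⟨h1, h2⟩

/-- the second point of `O` on a fixed line through a fixed point of `O` is fixed -/
theorem OV.fixO (h : OV G L O) {g : G} {a b : P} {l : L} (ha : a ∈ O) (hb : b ∈ O)
    (hg : g • a = a) (hl : g • l = l) (h1 : a ∈ l) (h2 : b ∈ l) : g • b = b := by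
  by_cases e : b = a
  · rw [e, hg]
  rcases h.arc l a ha b hb (g • b) (h.inv _ _ hb) h1 h2 (hl ▸ (h.coll g b l).2 h2) with e' | e' | e'
  · exact absurd e'.symm e
  · exact absurd (smul_left_cancel g (e'.symm.trans hg.symm)) e
  · exact e'.symm

theorem OV.faithO (h : OV G L O) {g : G} (hg : ∀ p ∈ O, g • p = p) : g = 1 := by
  have hl : ∀ a ∈ O, ∀ l : L, a ∈ l → g • l = l := by
    intro a ha l hal
    by_cases e : ∀ b ∈ O, b ∈ l → b = a
    · exact h.fixT ha (hg a ha) hal e
    · push Not at e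
      obtain ⟨b, hb, hbl, hba⟩ := e
      exact h.fixL (hg b hb) (hg a ha) hba hbl hal
  refine h.faith g fun X => ?_
  obtain ⟨a, ha, b, hb, c, hc, hab, hac, hbc⟩ : ∃ a ∈ O, ∃ b ∈ O, ∃ c ∈ O, a ≠ b ∧ a ≠ c ∧ b ≠ c :=
    two_lt_card.1 (by rw [h.card]; have := h.three_le; omega)
  obtain ⟨l1, h1, h1'⟩ := exL L X a
  obtain ⟨l2, h2, h2'⟩ := exL L X b
  obtain ⟨l3, h3, h3'⟩ := exL L X c
  by_cases e : l1 = l2
  · by_cases e' : l1 = l3
    · subst e e'
      rcases h.arc l1 a ha b hb c hc h1' h2' h3' with e | e | e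
      · exact absurd e hab
      · exact absurd e hac
      · exact absurd e hbc
    · exact h.fixP (hl a ha l1 h1') (hl c hc l3 h3') e' h1 h3
  · exact h.fixP (hl a ha l1 h1') (hl b hb l2 h2') e h1 h2

/-- a fixed point off a fixed line: as many fixed lines through it as fixed points on the line -/
theorem OV.persp (h : OV G L O) (s : Set G) {X : P} {l : L} (hX : ∀ g ∈ s, g • X = X)
    (hl : ∀ g ∈ s, g • l = l) (hXl : X ∉ l) :
    Nat.card {m : L // X ∈ m ∧ ∀ g ∈ s, g • m = m} =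
      Nat.card {p : P // p ∈ l ∧ ∀ g ∈ s, g • p = p} :=
  Ov.persp (fun p : P => ∀ g ∈ s, g • p = p) (fun l : L => ∀ g ∈ s, g • l = l)
    (fun _ _ _ hp hq hne h1 h2 g hg => h.fixL (hp g hg) (hq g hg) hne h1 h2)
    (fun _ _ _ hp hq hne h1 h2 g hg => h.fixP (hp g hg) (hq g hg) hne h1 h2) hX hl hXl

/-- fixed lines through a fixed point of `O` correspond to the fixed points of `O` -/
theorem OV.lines_at (h : OV G L O) (s : Set G) [DecidablePred fun p : P => ∀ g ∈ s, g • p = p]
    {a : P} (ha : a ∈ O) (hf : ∀ g ∈ s, g • a = a) :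
    Nat.card {m : L // a ∈ m ∧ ∀ g ∈ s, g • m = m} =
      (O.filter fun p => ∀ g ∈ s, g • p = p).card := by
  classical
  choose ln hl1 hl2 using exL (P := P) L
  obtain ⟨T, ⟨hT1, hT2⟩, hT3⟩ := h.tan ha
  rw [ncard_sub]
  symm
  refine card_bij (fun b _ => if b = a then T else ln a b) ?_ ?_ ?_
  · intro b hb
    simp only [mem_filter, mem_univ, true_and] at hb ⊢
    split_ifs with e
    · exact ⟨hT1, fun g hg => h.fixT ha (hf g hg) hT1 hT2⟩
    · exact ⟨hl1 _ _, fun g hg => h.fixL (hb.2 g hg) (hf g hg) e (hl2 _ _) (hl1 _ _)⟩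
  · intro b hb c hc e
    simp only [mem_filter] at hb hc
    by_cases e1 : b = a <;> by_cases e2 : c = a <;> simp only [e1, e2, if_true, if_false] at e
    · rw [e1, e2]
    · exact absurd (hT2 c hc.1 (e ▸ hl2 a c)) e2
    · exact absurd (hT2 b hb.1 (e ▸ hl2 a b)) e1
    · rcases h.arc (ln a b) a ha b hb.1 c hc.1 (hl1 _ _) (hl2 _ _) (e ▸ hl2 a c) with e | e | e
      · exact absurd e.symm e1
      · exact absurd e.symm e2
      · exact e
  · intro m hm
    simp only [mem_filter, mem_univ, true_and] at hm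
    by_cases e : ∀ b ∈ O, b ∈ m → b = a
    · exact ⟨a, mem_filter.2 ⟨ha, hf⟩, by simp only [if_true]; exact (hT3 m ⟨hm.1, e⟩).symm⟩
    · push Not at e
      obtain ⟨b, hb, hbm, hba⟩ := e
      refine ⟨b, mem_filter.2 ⟨hb, fun g hg => h.fixO ha hb (hf g hg) (hm.2 g hg) hm.1 hbm⟩, ?_⟩
      simp only [hba, if_false]
      rcases un a b _ m (hl1 a b) (hl2 a b) hm.1 hbm with e | e
      · exact absurd e.symm hba
      · exact e

theorem OV.sub (h : OV G L O) (s : Set G) [DecidablePred fun p : P => ∀ g ∈ s, g • p = p] {k : ℕ}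
    (hk : (O.filter fun p => ∀ g ∈ s, g • p = p).card = k + 1) (h2 : 2 ≤ k) :
    (∀ l : L, (∀ g ∈ s, g • l = l) → Nat.card {p : P // p ∈ l ∧ ∀ g ∈ s, g • p = p} = k + 1) ∧
    (∀ p : P, (∀ g ∈ s, g • p = p) → Nat.card {l : L // p ∈ l ∧ ∀ g ∈ s, g • l = l} = k + 1) ∧
    Nat.card {p : P // ∀ g ∈ s, g • p = p} = k ^ 2 + k + 1 ∧
    Nat.card {l : L // ∀ g ∈ s, g • l = l} = k ^ 2 + k + 1 := by
  obtain ⟨a, ha, b, hb, c, hc, hab, hac, hbc⟩ :=
    (two_lt_card (s := O.filter fun p => ∀ g ∈ s, g • p = p)).1 (by omega)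
  rw [mem_filter] at ha hb hc
  have hL : ∀ l : L, (∀ g ∈ s, g • l = l) →
      Nat.card {p : P // p ∈ l ∧ ∀ g ∈ s, g • p = p} = k + 1 := by
    intro l hl
    have : ∃ x, (x ∈ O ∧ ∀ g ∈ s, g • x = x) ∧ x ∉ l := by
      by_contra hcon
      push Not at hcon
      rcases h.arc l a ha.1 b hb.1 c hc.1 (hcon a ha) (hcon b hb) (hcon c hc)
        with e | e | e
      · exact hab e
      · exact hac e
      · exact hbc e
    obtain ⟨x, hx, hxl⟩ := this
    rw [← h.persp s hx.2 hl hxl, h.lines_at s hx.1 hx.2, hk]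
  obtain ⟨l1, h1a, h1b⟩ := exL L a b
  obtain ⟨l2, h2a, h2c⟩ := exL L a c
  obtain ⟨l3, h3b, h3c⟩ := exL L b c
  have f1 : ∀ g ∈ s, g • l1 = l1 := fun g hg => h.fixL (ha.2 g hg) (hb.2 g hg) hab h1a h1b
  have f2 : ∀ g ∈ s, g • l2 = l2 := fun g hg => h.fixL (ha.2 g hg) (hc.2 g hg) hac h2a h2c
  have f3 : ∀ g ∈ s, g • l3 = l3 := fun g hg => h.fixL (hb.2 g hg) (hc.2 g hg) hbc h3b h3c
  have nc : ∀ l : L, a ∈ l → b ∈ l → c ∈ l → False := by
    intro l x y z
    rcases h.arc l a ha.1 b hb.1 c hc.1 x y z with e | e | e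
    · exact hab e
    · exact hac e
    · exact hbc e
  have hP : ∀ p : P, (∀ g ∈ s, g • p = p) →
      Nat.card {l : L // p ∈ l ∧ ∀ g ∈ s, g • l = l} = k + 1 := by
    intro p hp
    have : ∃ l : L, (∀ g ∈ s, g • l = l) ∧ p ∉ l := by
      by_contra hcon
      push Not at hcon
      rcases un p a l1 l2 (hcon l1 f1) h1a (hcon l2 f2) h2a with e | e
      · exact nc l3 (e ▸ hcon l3 f3) h3b h3c
      · exact nc l1 h1a h1b (e ▸ h2c)
    obtain ⟨l, hl, hpl⟩ := this
    rw [h.persp s hp hl hpl, hL l hl]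
  refine ⟨hL, hP, ?_, ?_⟩
  · exact total (fun (p : P) (l : L) => p ∈ l) (exL L) un (fun p => ∀ g ∈ s, g • p = p)
      (fun l => ∀ g ∈ s, g • l = l)
      (fun _ _ _ hp hq hne h1 h2 g hg => h.fixL (hp g hg) (hq g hg) hne h1 h2) ha.2 hL (hP a ha.2)
  · exact total (fun (l : L) (p : P) => p ∈ l) (exP P)
      (fun l m p q x y z w => (un p q l m x z y w).symm) (fun l => ∀ g ∈ s, g • l = l)
      (fun p => ∀ g ∈ s, g • p = p)
      (fun _ _ _ hp hq hne h1 h2 g hg => h.fixP (hp g hg) (hq g hg) hne h1 h2) f1 hP (hL l1 f1)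

/-- `OV.sub` for one element -/
theorem OV.sub1 (h : OV G L O) (g : G) {k : ℕ} (hk : (F O g).card = k + 1) (h2 : 2 ≤ k) :
    (∀ l : L, g • l = l → Nat.card {p : P // p ∈ l ∧ g • p = p} = k + 1) ∧
    (∀ p : P, g • p = p → Nat.card {l : L // p ∈ l ∧ g • l = l} = k + 1) ∧
    Nat.card {p : P // g • p = p} = k ^ 2 + k + 1 ∧
    Nat.card {l : L // g • l = l} = k ^ 2 + k + 1 := by
  classical
  have e : (O.filter fun p => ∀ x ∈ ({g} : Set G), x • p = p) = F O g := by
    ext p; simp [mem_F]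
  have := h.sub {g} (k := k) (by rw [e, hk]) h2
  simpa only [Set.mem_singleton_iff, forall_eq] using this

theorem OV.baer (h : OV G L O) (a : G) {k0 k1 : ℕ} (h0 : (F O (a * a)).card = k0 + 1)
    (h1 : (F O a).card = k1 + 1) (h2 : 2 ≤ k1) (hne : k0 ≠ k1) : k0 = k1 ^ 2 := by
  classical
  have sq : ∀ p : P, a • p = p → (a * a) • p = p := fun p hp => by rw [mul_smul, hp, hp]
  have hsub : F O a ⊆ F O (a * a) := fun p hp => by
    rw [mem_F] at hp ⊢; exact ⟨hp.1, sq p hp.2⟩
  have hle := card_le_card hsub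
  obtain ⟨X, hX0, hX1⟩ := exists_mem_notMem_of_card_lt_card (s := F O a) (t := F O (a * a))
    (by omega)
  rw [mem_F] at hX0 hX1
  have hX : a • X ≠ X := fun e => hX1 ⟨hX0.1, e⟩
  obtain ⟨-, A0, -, -⟩ := h.sub1 (a * a) h0 (by omega)
  obtain ⟨B1, -, B2, -⟩ := h.sub1 a h1 h2
  choose ln hl1 hl2 using exL (P := P) L
  obtain ⟨c, hc1, hc2⟩ := exL L X (a • X)
  have hc : a • c = c := by
    have x1 : X ∈ a • c := by
      have := (h.coll a _ c).2 hc2
      rwa [← mul_smul, hX0.2] at this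
    rcases un X (a • X) (a • c) c x1 ((h.coll a _ c).2 hc1) hc1 hc2 with e | e
    · exact absurd e.symm hX
    · exact e
  have hcu : ∀ m : L, X ∈ m → a • m = m → m = c := by
    intro m hm hm'
    rcases un X (a • X) m c hm (hm' ▸ (h.coll a _ m).2 hm) hc1 hc2 with e | e
    · exact absurd e.symm hX
    · exact e
  have E0 := A0 X hX0.2
  have E1 := B1 c hc
  rw [ncard_sub] at E0 E1 B2
  have E2 := card_filter_add_card_filter_not (s := univ.filter fun p : P => a • p = p)
    (fun p : P => p ∈ c)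
  have E3 : ((univ.filter fun p : P => a • p = p).filter fun p => p ∈ c) =
      univ.filter fun p : P => p ∈ c ∧ a • p = p := by
    ext p; simp [and_comm]
  have E4 : ((univ.filter fun p : P => a • p = p).filter fun p => ¬ p ∈ c).card =
      ((univ.filter fun l : L => X ∈ l ∧ (a * a) • l = l).erase c).card := by
    refine card_bij (fun p _ => ln X p) ?_ ?_ ?_
    · intro p hp
      simp only [mem_filter, mem_univ, true_and, mem_erase] at hp ⊢
      refine ⟨fun e => hp.2 (e ▸ hl2 X p), hl1 _ _, ?_⟩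
      exact h.fixL hX0.2 (sq p hp.1) (fun e => hp.2 (e ▸ hc1)) (hl1 _ _) (hl2 _ _)
    · intro p hp q hq e
      simp only [mem_filter, mem_univ, true_and] at hp hq
      by_contra hpq
      have := h.fixL hp.1 hq.1 hpq (hl2 X p) (e ▸ hl2 X q)
      exact hp.2 (hcu _ (hl1 X p) this ▸ hl2 X p)
    · intro m hm
      simp only [mem_filter, mem_univ, true_and, mem_erase] at hm
      obtain ⟨hmc, hXm, hm2⟩ := hm
      have hm1 : m ≠ a • m := fun e => hmc (hcu m hXm e.symm)
      obtain ⟨Z, hZ1, hZ2⟩ := exP P m (a • m)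
      have hZ : a • Z = Z := by
        have x1 : a • Z ∈ m := by
          have := (h.coll a _ _).2 hZ2
          rwa [← mul_smul, hm2] at this
        rcases un (a • Z) Z m (a • m) x1 hZ1 ((h.coll a _ _).2 hZ1) hZ2 with e | e
        · exact e
        · exact absurd e hm1
      have hZX : X ≠ Z := fun e => hX (e ▸ hZ)
      have hZc : Z ∉ c := by
        intro hZc
        rcases un X Z m c hXm hZ1 hc1 hZc with e | e
        · exact hZX e
        · exact hmc e
      refine ⟨Z, by simp only [mem_filter, mem_univ, true_and]; exact ⟨hZ, hZc⟩, ?_⟩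
      rcases un X Z _ m (hl1 X Z) (hl2 X Z) hXm hZ1 with e | e
      · exact absurd e hZX
      · exact e
  have hcc : (a * a) • c = c := by rw [mul_smul, hc, hc]
  rw [card_erase_of_mem (by simp [hc1, hcc]), E0] at E4
  rw [E3, E1, B2, E4] at E2
  omega

end Cfsg.Agent.Ov
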