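import Cfsg.Agent.Ov.B

set_option autoImplicit false

namespace Cfsg.Agent.Ov

open Configuration Finset

section geo
variable {P L : Type*} [Membership P L] [Fintype P] [Fintype L] [ProjectivePlane P L]

theorem Cx.pt {l m : L} (h : l ≠ m) : ∃ p : P, p ∈ l ∧ p ∈ m :=
  ⟨HasPoints.mkPoint h, HasPoints.mkPoint_ax h⟩

theorem Cx.ln {p q : P} (h : p ≠ q) : ∃ l : L, p ∈ l ∧ q ∈ l :=
  ⟨HasLines.mkLine h, HasLines.mkLine_ax h⟩

theorem Cx.leq {p q : P} {l m : L} (h : p ≠ q) (h1 : p ∈ l) (h2 : q ∈ l) (h3 : p ∈ m)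
    (h4 : q ∈ m) : l = m :=
  (Nondegenerate.eq_or_eq h1 h2 h3 h4).resolve_left h

theorem Cx.peq {p q : P} {l m : L} (h : l ≠ m) (h1 : p ∈ l) (h2 : q ∈ l) (h3 : p ∈ m)
    (h4 : q ∈ m) : p = q :=
  (Nondegenerate.eq_or_eq h1 h2 h3 h4).resolve_right h

open Classical in
theorem Cx.geo (P0 P1 : Finset P) (L0 L1 : Finset L) (κ : ℕ) (sP : P0 ⊆ P1) (sL : L0 ⊆ L1)
    (hP0 : ∀ l ∈ L0, ∀ m ∈ L0, l ≠ m → ∀ p : P, p ∈ l → p ∈ m → p ∈ P0)
    (hL0 : ∀ p ∈ P0, ∀ q ∈ P0, p ≠ q → ∀ l : L, p ∈ l → q ∈ l → l ∈ L0)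
    (hP1 : ∀ l ∈ L1, ∀ m ∈ L1, l ≠ m → ∀ p : P, p ∈ l → p ∈ m → p ∈ P1)
    (c1 : ∀ l ∈ L1, (P1.filter (fun p => p ∈ l)).card = κ + 1)
    (c2 : ∀ p ∈ P1, (L1.filter (fun l => p ∈ l)).card = κ + 1)
    {c : L} (hc : c ∈ L0) {X : P} (hX1 : X ∈ P1) (hX0 : X ∉ P0) (hXc : X ∈ c)
    {ρ : ℕ} (hN : L0.card = κ + ρ + 1) (hρ : 1 ≤ ρ) : ρ ^ 2 ≤ κ := by
  -- number of fixed lines through a point
  have rle : ∀ Y ∈ P0, (L0.filter (fun l => Y ∈ l)).card ≤ κ + 1 := fun Y hY => by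
    rw [← c2 Y (sP hY)]
    exact card_le_card (filter_subset_filter _ sL)
  have A : ∀ Y ∈ P0, (L0.filter (fun l => Y ∈ l)).card ≠ κ + 1 →
      ρ + 1 ≤ (L0.filter (fun l => Y ∈ l)).card := by
    intro Y hY hne
    have : ∃ t ∈ L1.filter (fun l => Y ∈ l), t ∉ L0.filter (fun l => Y ∈ l) := by
      by_contra hcon
      push Not at hcon
      have := card_le_card (show L1.filter (fun l => Y ∈ l) ⊆ L0.filter (fun l => Y ∈ l) from hcon)
      have h2 := rle Y hY
      rw [c2 Y (sP hY)] at this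
      omega
    obtain ⟨t, ht, ht0⟩ := this
    rw [mem_filter] at ht ht0
    have ht0' : t ∉ L0 := fun h => ht0 ⟨h, ht.2⟩
    have h1 : (L0.filter (fun l => ¬ Y ∈ l)).card ≤ ((P1.filter (fun p => p ∈ t)).erase Y).card := by
      apply card_le_card_of_forall_subsingleton (fun (l : L) (p : P) => p ∈ l)
      · intro l hl
        rw [mem_filter] at hl
        have hlt : l ≠ t := fun e => ht0' (e ▸ hl.1)
        obtain ⟨p, hp1, hp2⟩ := Cx.pt (P := P) hlt
        refine ⟨p, ?_, hp1⟩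
        rw [mem_erase, mem_filter]
        exact ⟨fun e => hl.2 (e ▸ hp1), hP1 l (sL hl.1) t ht.1 hlt p hp1 hp2, hp2⟩
      · intro p hp l hl m hm
        rw [mem_erase, mem_filter] at hp
        simp only [Set.mem_setOf_eq, mem_coe, mem_filter] at hl hm
        by_contra hne'
        have hp0 := hP0 l hl.1.1 m hm.1.1 hne' p hl.2 hm.2
        exact ht0' (hL0 p hp0 Y hY hp.1 t hp.2.2 ht.2)
    rw [card_erase_of_mem (mem_filter.2 ⟨sP hY, ht.2⟩), c1 t ht.1] at h1
    have h2 := card_filter_add_card_filter_not (s := L0) (fun l => Y ∈ l)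
    omega
  have C : (P0.filter (fun p => p ∈ c)).card ≤ κ := by
    have : P0.filter (fun p => p ∈ c) ⊆ (P1.filter (fun p => p ∈ c)).erase X := by
      intro p hp
      rw [mem_filter] at hp
      rw [mem_erase, mem_filter]
      exact ⟨fun e => hX0 (e ▸ hp.1), sP hp.1, hp.2⟩
    have h := card_le_card this
    rw [card_erase_of_mem (mem_filter.2 ⟨hX1, hXc⟩), c1 c (sL hc)] at h
    omega
  -- a fixed point off c
  obtain ⟨Y, hY, hYc⟩ : ∃ Y ∈ P0, Y ∉ c := by
    obtain ⟨l1, hl1, hl1c⟩ := exists_mem_ne (show 1 < L0.card by omega) c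
    obtain ⟨W, hW1, hW2⟩ := Cx.pt (P := P) hl1c
    have hW0 := hP0 l1 hl1 c hc hl1c W hW1 hW2
    obtain ⟨l2, hl2, hl2W⟩ : ∃ l2 ∈ L0, W ∉ l2 := by
      by_contra hcon
      push Not at hcon
      have := rle W hW0
      rw [filter_true_of_mem hcon] at this
      omega
    have h12 : l1 ≠ l2 := fun e => hl2W (e ▸ hW1)
    obtain ⟨Y, hY1, hY2⟩ := Cx.pt (P := P) h12
    refine ⟨Y, hP0 l1 hl1 l2 hl2 h12 Y hY1 hY2, fun hYc => hl2W ?_⟩
    rw [← Cx.peq hl1c hY1 hW1 hYc hW2]; exact hY2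
  have B : (L0.filter (fun l => Y ∈ l)).card ≤ (P0.filter (fun p => p ∈ c)).card := by
    apply card_le_card_of_forall_subsingleton (fun (l : L) (p : P) => p ∈ l)
    · intro l hl
      rw [mem_filter] at hl
      have hlc : l ≠ c := fun e => hYc (e ▸ hl.2)
      obtain ⟨p, hp1, hp2⟩ := Cx.pt (P := P) hlc
      exact ⟨p, mem_filter.2 ⟨hP0 l hl.1 c hc hlc p hp1 hp2, hp2⟩, hp1⟩
    · intro p hp l hl m hm
      rw [mem_filter] at hp
      simp only [Set.mem_setOf_eq, mem_coe, mem_filter] at hl hm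
      exact Cx.leq (p := p) (q := Y) (fun e => hYc (e ▸ hp.2)) hl.2 hl.1.2 hm.2 hm.1.2
  have hA := A Y hY (by omega)
  have D : (P0.filter (fun p => p ∈ c)).card * ρ ≤ (L0.erase c).card * 1 := by
    apply card_mul_le_card_mul (fun (p : P) (l : L) => p ∈ l)
    · intro W hW
      rw [mem_filter] at hW
      have h1 : ρ + 1 ≤ (L0.filter (fun l => W ∈ l)).card := by
        by_cases e : (L0.filter (fun l => W ∈ l)).card = κ + 1
        · omega
        · exact A W hW.1 e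
      have h2 : (L0.erase c).bipartiteAbove (fun (p : P) (l : L) => p ∈ l) W
          = (L0.filter (fun l => W ∈ l)).erase c := by
        ext l; simp only [mem_bipartiteAbove, mem_erase, mem_filter]; tauto
      rw [h2, card_erase_of_mem (mem_filter.2 ⟨hc, hW.2⟩)]
      omega
    · intro l hl
      rw [mem_erase] at hl
      rw [card_le_one]
      intro p hp q hq
      simp only [mem_bipartiteBelow, mem_filter] at hp hq
      exact Cx.peq hl.1 hp.2 hq.2 hp.1.2 hq.1.2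
  rw [card_erase_of_mem hc, hN] at D
  have : (ρ + 1) * ρ ≤ κ + ρ := by
    calc (ρ + 1) * ρ ≤ (P0.filter (fun p => p ∈ c)).card * ρ := Nat.mul_le_mul_right _ (by omega)
      _ ≤ _ := by simpa using D
  nlinarith

end geo

section main
variable {G L P : Type*} [Membership P L] [Fintype P] [Fintype L] [ProjectivePlane P L]
  [Group G] [MulAction G P] [MulAction G L] {O : Finset P}

theorem Cx.inh (h : OV G L O) {c d : G} {k : ℕ} (hk : (F O c).card = k + 1) (h2 : 2 ≤ k)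
    (hs : ∀ p ∈ O, c • p = p → d • p = p) {l : L} (hl : c • l = l) : d • l = l := by
  classical
  have e : (O.filter fun p => ∀ g ∈ ({c, d} : Set G), g • p = p) = F O c := by
    ext p
    simp only [mem_filter, mem_F, Set.mem_insert_iff, Set.mem_singleton_iff, forall_eq_or_imp,
      forall_eq]
    exact ⟨fun x => ⟨x.1, x.2.1⟩, fun x => ⟨x.1, x.2, hs p x.1 x.2⟩⟩
  have h3 := (h.sub {c, d} (e ▸ hk) h2).2.2.2
  have h4 := (h.sub1 c hk h2).2.2.2
  rw [ncard_sub] at h3 h4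
  have h5 : (univ.filter fun l : L => ∀ g ∈ ({c, d} : Set G), g • l = l)
      = univ.filter fun l : L => c • l = l := by
    apply eq_of_subset_of_card_le
    · intro m hm
      simp only [mem_filter, mem_univ, true_and] at hm ⊢
      exact hm c (by simp)
    · omega
  have h6 : l ∈ univ.filter fun l : L => ∀ g ∈ ({c, d} : Set G), g • l = l := by
    rw [h5]; simpa using hl
  simp only [mem_filter, mem_univ, true_and] at h6
  exact h6 d (by simp)

theorem Cx.swap (h : OV G L O) {g : G} {p q : P} {l : L} (hp : g • p = q) (hq : g • q = p)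
    (hne : p ≠ q) (h1 : p ∈ l) (h2 : q ∈ l) : g • l = l :=
  Cx.leq hne (hq ▸ (h.coll g q l).2 h2) (hp ▸ (h.coll g p l).2 h1) h1 h2

open Classical in
theorem Cx.main (h : OV G L O) {a1 a2 z : G} (e1 : a1 * a1 = z) (e2 : a2 * a2 = z)
    (e3 : a1 * a2 * (a1 * a2) = z) {κ : ℕ} (k1 : (F O a1).card = κ + 1)
    (k2 : (F O a2).card = κ + 1) (k3 : (F O (a1 * a2)).card = κ + 1) (hκ : 2 ≤ κ)
    (hz : ∃ X ∈ O, z • X = X ∧ a1 • X ≠ X)
    (hc : 5 ≤ κ ∨ 3 ≤ (F O a1 ∩ F O a2).card) : False := by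
  classical
  have r1 : a1 * a2 * a1 = a2 := by
    have : a1 * a2 * a1 * a2 = a2 * a2 := by rw [e2, ← e3]; group
    exact mul_right_cancel this
  have r2 : a2 * a1 * a2 = a1 := by
    have : a1 * (a2 * a1 * a2) = a1 * a1 := by rw [e1, ← e3]; group
    exact mul_left_cancel this
  set F0 := F O a1 ∩ F O a2 with hF0
  have mem0 : ∀ p, p ∈ F0 ↔ p ∈ O ∧ a1 • p = p ∧ a2 • p = p := fun p => by
    rw [hF0, mem_inter, mem_F, mem_F]; tauto
  have s1 : F0 ⊆ F O a1 := inter_subset_left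
  have s2 : F0 ⊆ F O a2 := inter_subset_right
  have s3 : F0 ⊆ F O (a1 * a2) := fun p hp => by
    rw [mem0] at hp; rw [mem_F, mul_smul, hp.2.2, hp.2.1]; exact ⟨hp.1, rfl⟩
  have d13 : ∀ p : P, a1 • p = p → (a1 * a2) • p = p → a2 • p = p := fun p x y => by
    rw [mul_smul] at y
    exact MulAction.injective a1 (y.trans x.symm)
  have d23 : ∀ p : P, a2 • p = p → (a1 * a2) • p = p → a1 • p = p := fun p x y => by
    rwa [mul_smul, x] at y
  -- F0 is proper in F a1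
  obtain ⟨X, hX1, hX0⟩ : ∃ X ∈ F O a1, X ∉ F0 := by
    by_contra hcon
    push Not at hcon
    have q1 : F0 = F O a1 := eq_of_subset_of_card_le s1 (card_le_card hcon)
    have q2 : F0 = F O a2 := eq_of_subset_of_card_le s2 (by rw [q1]; omega)
    have q3 : F0 = F O (a1 * a2) := eq_of_subset_of_card_le s3 (by rw [q1]; omega)
    obtain ⟨X, hXO, hXz, hX⟩ := hz
    obtain ⟨l, hl1, hl2⟩ := Cx.ln (L := L) hX.symm
    have f1 : a1 • l = l := Cx.swap h rfl (by rw [← mul_smul, e1, hXz]) hX.symm hl1 hl2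
    have f2 : a2 • l = l := Cx.inh h k1 hκ
      (fun p hp hp1 => ((mem0 p).1 (hcon p (mem_F.2 ⟨hp, hp1⟩))).2.2) f1
    have hl3 : a2 • X ∈ l := f2 ▸ (h.coll a2 X l).2 hl1
    rcases h.arc l X hXO (a1 • X) (h.inv _ _ hXO) (a2 • X) (h.inv _ _ hXO) hl1 hl2 hl3 with
      e | e | e
    · exact hX e.symm
    · have : X ∈ F0 := q2 ▸ mem_F.2 ⟨hXO, e.symm⟩
      exact hX ((mem0 X).1 this).2.1
    · have : X ∈ F0 := q3 ▸ mem_F.2 ⟨hXO, by rw [mul_smul, ← e, ← mul_smul, e1, hXz]⟩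
      exact hX ((mem0 X).1 this).2.1
  set L0 : Finset L := univ.filter fun l => a1 • l = l ∧ a2 • l = l with hL0
  have memL : ∀ l, l ∈ L0 ↔ a1 • l = l ∧ a2 • l = l := fun l => by simp [hL0]
  set V := (F O a1 \ F0) ∪ ((F O a2 \ F0) ∪ (F O (a1 * a2) \ F0)) with hV
  have cV : V.card + 3 * F0.card = 3 * (κ + 1) := by
    have c1 := card_sdiff_add_card_eq_card s1
    have c2 := card_sdiff_add_card_eq_card s2
    have c3 := card_sdiff_add_card_eq_card s3
    rw [hV, card_union_of_disjoint, card_union_of_disjoint]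
    · omega
    · rw [disjoint_left]
      intro p hp hq
      rw [mem_sdiff, mem_F] at hp hq
      exact hp.2 ((mem0 p).2 ⟨hp.1.1, d23 p hp.1.2 hq.1.2, hp.1.2⟩)
    · rw [disjoint_left]
      intro p hp hq
      rw [mem_union, mem_sdiff, mem_sdiff, mem_F, mem_F] at hq
      rw [mem_sdiff, mem_F] at hp
      rcases hq with hq | hq
      · exact hp.2 ((mem0 p).2 ⟨hp.1.1, hp.1.2, hq.1.2⟩)
      · exact hp.2 ((mem0 p).2 ⟨hp.1.1, hp.1.2, d13 p hp.1.2 hq.1.2⟩)
  have VO : ∀ p ∈ V, p ∈ O ∧ p ∉ F0 := fun p hp => by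
    simp only [hV, mem_union, mem_sdiff, mem_F] at hp
    tauto
  have chord : ∀ p ∈ V, ∃ l ∈ L0, p ∈ l := by
    intro p hp
    simp only [hV, mem_union, mem_sdiff, mem_F, mem0] at hp
    rcases hp with hp | hp | hp
    · have hne : p ≠ a2 • p := fun e => hp.2 ⟨hp.1.1, hp.1.2, e.symm⟩
      obtain ⟨l, hl1, hl2⟩ := Cx.ln (L := L) hne
      refine ⟨l, (memL l).2 ⟨h.fixL hp.1.2 ?_ hne hl1 hl2, Cx.swap h rfl ?_ hne hl1 hl2⟩, hl1⟩
      · conv_rhs => rw [← r1, mul_smul, mul_smul, hp.1.2]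
      · rw [← mul_smul, e2, ← e1, mul_smul, hp.1.2, hp.1.2]
    · have hne : p ≠ a1 • p := fun e => hp.2 ⟨hp.1.1, e.symm, hp.1.2⟩
      obtain ⟨l, hl1, hl2⟩ := Cx.ln (L := L) hne
      refine ⟨l, (memL l).2 ⟨Cx.swap h rfl ?_ hne hl1 hl2, h.fixL hp.1.2 ?_ hne hl1 hl2⟩, hl1⟩
      · rw [← mul_smul, e1, ← e2, mul_smul, hp.1.2, hp.1.2]
      · conv_rhs => rw [← r2, mul_smul, mul_smul, hp.1.2]
    · have hne : p ≠ a1 • p := fun e => hp.2 ⟨hp.1.1, e.symm, d13 p e.symm hp.1.2⟩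
      have hzp : z • p = p := by rw [← e3, mul_smul, hp.1.2, hp.1.2]
      have t1 : a1 • a1 • p = p := by rw [← mul_smul, e1, hzp]
      have t2 : a2 • p = a1 • p := by
        apply MulAction.injective a1
        simp only
        rw [t1, ← mul_smul, hp.1.2]
      obtain ⟨l, hl1, hl2⟩ := Cx.ln (L := L) hne
      refine ⟨l, (memL l).2 ⟨Cx.swap h rfl t1 hne hl1 hl2, Cx.swap h t2 ?_ hne hl1 hl2⟩, hl1⟩
      rw [← t2, ← mul_smul, e2, hzp]
  set M1 := L0.filter fun l => ∃ p ∈ V, p ∈ l with hM1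
  set M2 := L0.filter fun l => ∃ p ∈ F0, p ∈ l with hM2
  have n1 : V.card * 1 ≤ M1.card * 2 := by
    apply card_mul_le_card_mul (fun (p : P) (l : L) => p ∈ l)
    · intro p hp
      obtain ⟨l, hl, hpl⟩ := chord p hp
      exact card_pos.2 ⟨l, mem_bipartiteAbove _ |>.2 ⟨mem_filter.2 ⟨hl, p, hp, hpl⟩, hpl⟩⟩
    · intro l _
      by_contra hcon
      push Not at hcon
      obtain ⟨p, hp, q, hq, r, hr, x1, x2, x3⟩ := two_lt_card.1 hcon
      simp only [mem_bipartiteBelow] at hp hq hr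
      rcases h.arc l p (VO p hp.1).1 q (VO q hq.1).1 r (VO r hr.1).1 hp.2 hq.2 hr.2 with e | e | e
      exacts [x1 e, x2 e, x3 e]
  have n2 : M1.card + M2.card ≤ L0.card := by
    rw [← card_union_of_disjoint]
    · exact card_le_card (union_subset (filter_subset _ _) (filter_subset _ _))
    · rw [disjoint_left]
      intro l hl hl'
      obtain ⟨hl0, p, hp, hpl⟩ := mem_filter.1 hl
      obtain ⟨-, q, hq, hql⟩ := mem_filter.1 hl'
      rw [memL] at hl0
      rw [mem0] at hq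
      exact (VO p hp).2 ((mem0 p).2 ⟨(VO p hp).1, h.fixO hq.1 (VO p hp).1 hq.2.1 hl0.1 hql hpl,
        h.fixO hq.1 (VO p hp).1 hq.2.2 hl0.2 hql hpl⟩)
  have at1 : ∀ a ∈ F0, (L0.filter fun l => a ∈ l).card = F0.card := by
    intro a ha
    rw [mem0] at ha
    have := h.lines_at {a1, a2} ha.1 (by simpa using ha.2)
    rw [ncard_sub] at this
    convert this using 2
    · ext l; simp [hL0, and_comm]
    · ext p; simp [mem0]
  have sub2 : ∀ a ∈ F0, (L0.filter fun l => a ∈ l) ⊆ M2 := fun a ha l hl =>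
    mem_filter.2 ⟨(mem_filter.1 hl).1, a, ha, (mem_filter.1 hl).2⟩
  have n3 : F0.card ≤ M2.card := by
    rcases F0.eq_empty_or_nonempty with e | ⟨a, ha⟩
    · rw [e]; simp
    · rw [← at1 a ha]; exact card_le_card (sub2 a ha)
  have n4 : 2 ≤ F0.card → 2 * F0.card ≤ M2.card + 1 := by
    intro h2
    obtain ⟨a, ha, b, hb, hab⟩ := one_lt_card.1 (show 1 < F0.card from h2)
    have u1 := card_union_add_card_inter (L0.filter fun l => a ∈ l) (L0.filter fun l => b ∈ l)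
    have u2 := card_le_card (union_subset (sub2 a ha) (sub2 b hb))
    have u3 : ((L0.filter fun l => a ∈ l) ∩ (L0.filter fun l => b ∈ l)).card ≤ 1 := by
      rw [card_le_one]
      intro l hl m hm
      simp only [mem_inter, mem_filter] at hl hm
      exact Cx.leq hab hl.1.2 hl.2.2 hm.1.2 hm.2.2
    rw [at1 a ha, at1 b hb] at u1
    omega
  have n5 : 3 * κ + 2 ≤ 2 * L0.card ∧ (3 ≤ F0.card → 3 * κ + 4 ≤ 2 * L0.card) := by
    by_cases h2 : 2 ≤ F0.card
    · have := n4 h2; omega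
    · omega
  obtain ⟨c, hc0, hXc⟩ := chord X (by simp only [hV, mem_union, mem_sdiff]; exact Or.inl ⟨hX1, hX0⟩)
  obtain ⟨ρ, hρ⟩ : ∃ ρ, L0.card = κ + ρ + 1 := ⟨L0.card - κ - 1, by omega⟩
  have sb := h.sub1 a1 k1 hκ
  have key := Cx.geo (P := P) (L := L) (univ.filter fun p => a1 • p = p ∧ a2 • p = p)
    (univ.filter fun p => a1 • p = p) L0 (univ.filter fun l => a1 • l = l) κ
    (fun p hp => by simp only [mem_filter, mem_univ, true_and] at hp ⊢; exact hp.1)
    (fun l hl => by simp only [mem_filter, mem_univ, true_and]; exact ((memL l).1 hl).1)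
    (fun l hl m hm hne p x y => by
      rw [memL] at hl hm
      simp only [mem_filter, mem_univ, true_and]
      exact ⟨h.fixP hl.1 hm.1 hne x y, h.fixP hl.2 hm.2 hne x y⟩)
    (fun p hp q hq hne l x y => by
      simp only [mem_filter, mem_univ, true_and] at hp hq
      exact (memL l).2 ⟨h.fixL hp.1 hq.1 hne x y, h.fixL hp.2 hq.2 hne x y⟩)
    (fun l hl m hm hne p x y => by
      simp only [mem_filter, mem_univ, true_and] at hl hm ⊢
      exact h.fixP hl hm hne x y)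
    (fun l hl => by
      simp only [mem_filter, mem_univ, true_and] at hl
      have := sb.1 l hl
      rw [ncard_sub] at this
      convert this using 2
      ext p; simp [and_comm])
    (fun p hp => by
      simp only [mem_filter, mem_univ, true_and] at hp
      have := sb.2.1 p hp
      rw [ncard_sub] at this
      convert this using 2
      ext p; simp [and_comm])
    hc0 (X := X) (by simpa using (mem_F.1 hX1).2)
    (by
      simp only [mem_filter, mem_univ, true_and]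
      exact fun x => hX0 ((mem0 X).2 ⟨(mem_F.1 hX1).1, x⟩)) hXc hρ (by omega)
  rcases hc with hc | hc
  · have : ρ ≤ 2 := by nlinarith [n5.1]
    omega
  · have := n5.2 hc
    nlinarith

theorem OV.a3 (h : OV G L O) {b1 b2 : G} (i1 : Iv b1) (i2 : Iv b2) (_hne : b1 ≠ b2)
    (hc : b1 * b2 = b2 * b1) {m : ℕ} (k1 : (F O b1).card = m + 1) (k2 : (F O b2).card = m + 1)
    (k3 : (F O (b1 * b2)).card = m + 1) (hm : 5 ≤ m) : False := by
  refine Cx.main h i1.1 i2.1 ?_ k1 k2 k3 (by omega) ?_ (Or.inl hm)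
  · calc b1 * b2 * (b1 * b2) = b1 * (b2 * b1) * b2 := by group
      _ = (b1 * b1) * (b2 * b2) := by rw [← hc]; group
      _ = 1 := by rw [i1.1, i2.1, one_mul]
  · by_contra hcon
    push Not at hcon
    exact i1.2 (h.faithO fun p hp => hcon p hp (one_smul _ _))

theorem Cx.prop (h : OV G L O) {a b : G} (ib : b ≠ 1) (bb : b * b = 1) (e : a * a = b) {m : ℕ}
    (k : (F O b).card = m + 1) (hm : 2 ≤ m) : ∃ X ∈ O, b • X = X ∧ a • X ≠ X := by
  by_contra hcon
  push Not at hcon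
  apply ib
  apply h.faithO
  intro X hX
  by_contra hne
  obtain ⟨l, hl1, hl2⟩ := Cx.ln (L := L) (Ne.symm hne)
  have f1 : b • l = l := Cx.swap h rfl (by rw [← mul_smul, bb, one_smul]) (Ne.symm hne) hl1 hl2
  have f2 : a • l = l := Cx.inh h k hm hcon f1
  have hl3 : a • X ∈ l := f2 ▸ (h.coll a X l).2 hl1
  rcases h.arc l X hX (b • X) (h.inv _ _ hX) (a • X) (h.inv _ _ hX) hl1 hl2 hl3 with x | x | x
  · exact hne x.symm
  · exact hne (by rw [← e, mul_smul, ← x, ← x])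
  · have : a • X = X := by
      apply MulAction.injective a
      simp only
      rw [← mul_smul, e, x]
    exact hne (by rw [← e, mul_smul, this, this])

theorem Cx.sq (h : OV G L O) {a b : G} (ib : Iv b) (e : a * a = b) {m : ℕ}
    (k : (F O b).card = m + 1) (hm : 2 ≤ m) (h3 : 3 ≤ (F O a).card) :
    ∃ κ, (F O a).card = κ + 1 ∧ m = κ ^ 2 := by
  obtain ⟨κ, hκ⟩ : ∃ κ, (F O a).card = κ + 1 := ⟨(F O a).card - 1, by omega⟩
  refine ⟨κ, hκ, h.baer a (e ▸ k) hκ (by omega) ?_⟩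
  intro hmk
  obtain ⟨X, hX, x1, x2⟩ := Cx.prop h ib.2 ib.1 e k hm
  have : F O a = F O b := by
    apply eq_of_subset_of_card_le
    · intro p hp
      rw [mem_F] at hp ⊢
      exact ⟨hp.1, by rw [← e, mul_smul, hp.2, hp.2]⟩
    · omega
  exact x2 (mem_F.1 (this ▸ mem_F.2 ⟨hX, x1⟩ : X ∈ F O a)).2

open Classical in
theorem OV.a4 (h : OV G L O) {b a1 a2 : G} (ib : Iv b) (e1 : a1 * a1 = b) (e2 : a2 * a2 = b)
    (e3 : a1 * a2 * (a1 * a2) = b) {m : ℕ} (k : (F O b).card = m + 1) (hm : 5 ≤ m)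
    (h3 : 3 ≤ (F O a1 ∩ F O a2).card) : False := by
  have s3 : F O a1 ∩ F O a2 ⊆ F O (a1 * a2) := fun p hp => by
    rw [mem_inter, mem_F, mem_F] at hp
    rw [mem_F, mul_smul, hp.2.2, hp.1.2]; exact ⟨hp.1.1, rfl⟩
  obtain ⟨κ, k1, q1⟩ := Cx.sq h ib e1 k (by omega) (h3.trans (card_le_card inter_subset_left))
  obtain ⟨κ2, k2, q2⟩ := Cx.sq h ib e2 k (by omega) (h3.trans (card_le_card inter_subset_right))
  obtain ⟨κ3, k3, q3⟩ := Cx.sq h ib e3 k (by omega) (h3.trans (card_le_card s3))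
  have x2 : κ2 = κ := Nat.pow_left_injective two_ne_zero (q2.symm.trans q1)
  have x3 : κ3 = κ := Nat.pow_left_injective two_ne_zero (q3.symm.trans q1)
  subst x2 x3
  have : 2 ≤ κ3 := by nlinarith
  exact Cx.main h e1 e2 e3 k1 k2 k3 this (Cx.prop h ib.2 ib.1 e1 k (by omega)) (Or.inr h3)

end main

end Cfsg.Agent.Ov
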