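import Cfsg.Agent.Ov.B

set_option autoImplicit false

namespace Cfsg.Agent.Ov

open Configuration Finset

variable {G L P : Type*} [Membership P L] [Fintype P] [Fintype L]
  [Configuration.ProjectivePlane P L] [Group G] [MulAction G P] [MulAction G L] {O : Finset P}

/-- `C` is a centre of `t` with respect to the oval `O` -/
def IsC (L : Type*) {G P : Type*} [Membership P L] [Group G] [MulAction G P] (O : Finset P)
    (t : G) (C : P) : Prop :=
  C ∉ O ∧ ∀ a ∈ O, ∀ l : L, a ∈ l → C ∈ l → t • a ∈ l ∧ ∀ b ∈ O, b ∈ l → b = a ∨ b = t • a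

theorem dL (L : Type*) [Membership P L] [Fintype L] [Configuration.ProjectivePlane P L]
    (p q : P) : ∃ l : L, p ∈ l ∧ q ∈ l := by
  by_cases e : p = q
  · subst e
    have h := ProjectivePlane.two_lt_lineCount L p
    have : Nonempty {l : L // p ∈ l} := (Nat.card_pos_iff.1 (by unfold lineCount at h; omega)).1
    obtain ⟨l, hl⟩ := this
    exact ⟨l, hl, hl⟩
  · exact (HasLines.existsUnique_line P L p q e).exists

theorem dP (P : Type*) [Membership P L] [Fintype P] [Configuration.ProjectivePlane P L]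
    (l m : L) : ∃ p : P, p ∈ l ∧ p ∈ m := by
  by_cases e : l = m
  · subst e
    have h := ProjectivePlane.two_lt_pointCount P l
    have : Nonempty {p : P // p ∈ l} := (Nat.card_pos_iff.1 (by unfold pointCount at h; omega)).1
    obtain ⟨p, hp⟩ := this
    exact ⟨p, hp, hp⟩
  · exact (HasPoints.existsUnique_point P L l m e).exists

theorem dU {p q : P} {l m : L} (h1 : p ∈ l) (h2 : q ∈ l) (h3 : p ∈ m) (h4 : q ∈ m) :
    p = q ∨ l = m := Nondegenerate.eq_or_eq h1 h2 h3 h4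

theorem OV.dC (h : OV G L O) (g : G) {p : P} {l : L} (hp : p ∈ l) : g • p ∈ g • l :=
  (h.coll g p l).2 hp

theorem OV.dFl (h : OV G L O) {g : G} {p q : P} {l : L} (hp : p ∈ l) (hq : q ∈ l) (e : p ≠ q)
    (h1 : g • p ∈ l) (h2 : g • q ∈ l) : g • l = l :=
  (dU (h.dC g hp) (h.dC g hq) h1 h2).resolve_left fun e' => e (smul_left_cancel g e')

theorem OV.dFp (h : OV G L O) {g : G} {p : P} {l m : L} (hl : p ∈ l) (hm : p ∈ m) (e : l ≠ m)
    (h1 : g • l = l) (h2 : g • m = m) : g • p = p :=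
  (dU (h1 ▸ h.dC g hl) hl (h2 ▸ h.dC g hm) hm).resolve_right e

theorem OV.dLine (h : OV G L O) (l : L) {s : Finset P} (hs : s ⊆ O) (hl : ∀ p ∈ s, p ∈ l) :
    s.card ≤ 2 := by
  classical
  by_contra hc
  obtain ⟨a, b, c, ha, hb, hc, e1, e2, e3⟩ := Finset.two_lt_card_iff.1 (not_le.1 hc)
  rcases h.arc l a (hs ha) b (hs hb) c (hs hc) (hl a ha) (hl b hb) (hl c hc) with e | e | e
  exacts [e1 e, e2 e, e3 e]

theorem IsC.uniq_t (h : OV G L O) {t t' : G} {C : P} (hC : IsC L O t C) (hC' : IsC L O t' C) :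
    t = t' := by
  have : t'⁻¹ * t = 1 := by
    refine h.faithO fun a ha => ?_
    obtain ⟨l, h1, h2⟩ := dL L a C
    obtain ⟨a1, a2⟩ := hC.2 a ha l h1 h2
    obtain ⟨b1, b2⟩ := hC'.2 a ha l h1 h2
    rw [mul_smul, inv_smul_eq_iff]
    rcases b2 _ (h.inv t a ha) a1 with e | e
    · rcases a2 _ (h.inv t' a ha) b1 with e' | e'
      · rw [e, e']
      · exact e'.symm
    · exact e
  exact (inv_mul_eq_one.1 this).symm

theorem IsC.tan {t : G} {C a : P} {l : L} (hC : IsC L O t C) (ha : a ∈ O) (e : t • a = a)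
    (h1 : a ∈ l) (h2 : C ∈ l) : a ∈ l ∧ ∀ b ∈ O, b ∈ l → b = a :=
  ⟨h1, fun b hb hl => ((hC.2 a ha l h1 h2).2 b hb hl).elim id fun e' => e'.trans e⟩

theorem IsC.uniq_c (h : OV G L O) {t : G} {C C' : P} (hC : IsC L O t C) (hC' : IsC L O t C') :
    C = C' := by
  by_contra hne
  obtain ⟨m, m1, m2⟩ := dL L C C'
  have := h.dLine m (Finset.Subset.refl O) fun a ha => by
    obtain ⟨l, h1, h2⟩ := dL L a C
    obtain ⟨l', h3, h4⟩ := dL L a C'
    have e : l = l' := by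
      rcases dU h1 (hC.2 a ha l h1 h2).1 h3 (hC'.2 a ha l' h3 h4).1 with e | e
      · exact (h.tan ha).unique (hC.tan ha e.symm h1 h2) (hC'.tan ha e.symm h3 h4)
      · exact e
    subst e
    rcases dU h2 h4 m1 m2 with e | e
    · exact absurd e hne
    · exact e ▸ h1
  have h2 := ProjectivePlane.one_lt_order P L
  have := h.card
  omega

theorem IsC.uniq (h : OV G L O) :
    (∀ {t t' : G} {C : P}, IsC L O t C → IsC L O t' C → t = t') ∧
      ∀ {t : G} {C C' : P}, IsC L O t C → IsC L O t C' → C = C' :=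
  ⟨IsC.uniq_t h, IsC.uniq_c h⟩

theorem IsC.conj (h : OV G L O) {t : G} {C : P} (hC : IsC L O t C) (g : G) :
    IsC L O (g * t * g⁻¹) (g • C) := by
  refine ⟨fun hc => hC.1 (by simpa using h.inv g⁻¹ _ hc), fun a ha l h1 h2 => ?_⟩
  obtain ⟨a1, a2⟩ := hC.2 _ (h.inv g⁻¹ a ha) (g⁻¹ • l) (h.dC _ h1) (by simpa using h.dC g⁻¹ h2)
  refine ⟨by simpa [mul_smul] using h.dC g a1, fun b hb hl => ?_⟩
  rcases a2 _ (h.inv g⁻¹ b hb) (h.dC _ hl) with e | e
  · exact Or.inl (smul_left_cancel _ e)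
  · right
    rw [mul_smul, mul_smul, ← e, smul_inv_smul]

/-- every element commuting with `t` fixes the centre of `t` -/
theorem IsC.fix (h : OV G L O) {t g : G} {C : P} (hC : IsC L O t C) (hg : g * t = t * g) :
    g • C = C := by
  have := hC.conj h g
  rw [hg, mul_inv_cancel_right] at this
  exact this.uniq_c h hC

theorem OV.a2 (h : OV G L O) {t t' : G} {C C' : P} (hne : t ≠ t') (hC : IsC L O t C)
    (hC' : IsC L O t' C') : (F O (t * t')).card ≤ 2 := by
  have hcc : C ≠ C' := fun e => hne (hC.uniq_t h (e ▸ hC'))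
  obtain ⟨m, m1, m2⟩ := dL L C C'
  refine h.dLine m (fun a ha => (mem_F.1 ha).1) fun a ha => ?_
  obtain ⟨ha, e⟩ := mem_F.1 ha
  rw [mul_smul] at e
  obtain ⟨l', h3, h4⟩ := dL L a C'
  obtain ⟨l, h1, h2⟩ := dL L (t' • a) C
  have b1 := (hC'.2 a ha l' h3 h4).1
  have a1 := (hC.2 _ (h.inv t' a ha) l h1 h2).1
  rw [e] at a1
  have e' : l = l' := by
    rcases dU a1 h1 h3 b1 with e' | e'
    · rw [← e'] at e
      exact (h.tan ha).unique (hC.tan ha e a1 h2) (hC'.tan ha e'.symm h3 h4)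
    · exact e'
  subst e'
  rcases dU h2 h4 m1 m2 with e | e
  · exact absurd e hcc
  · exact e ▸ h3

theorem OV.a1 (h : OV G L O) (hp : ∀ φ : G →* ℤˣ, φ = 1) {t : G} (ht : Iv t) :
    ((F O t).card = 2 ∧ ProjectivePlane.order P L % 4 = 1) ∨
      ((F O t).card = 0 ∧ ProjectivePlane.order P L % 4 = 3) ∨
      ∃ m, ProjectivePlane.order P L = m ^ 2 ∧ m % 4 = 1 ∧ 5 ≤ m ∧ (F O t).card = m + 1 := by
  classical
  let S : SubMulAction G P := ⟨O, fun g {p} hp => h.inv g p hp⟩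
  let φ : G →* Equiv.Perm S := MulAction.toPermHom G S
  have h1 : Equiv.Perm.sign (φ t) = 1 := by
    have := DFunLike.congr_fun (hp (Equiv.Perm.sign.comp φ)) t
    simpa using this
  have h2 : φ t ^ 2 = 1 := by rw [← map_pow, pow_two, ht.1, map_one]
  rw [Equiv.Perm.sign_of_pow_two_eq_one h2, neg_one_pow_eq_one_iff_even (by decide)] at h1
  have h3 : Fintype.card S ≡ Fintype.card (Function.fixedPoints (φ t)) [MOD 2] := by
    haveI : Fact (Nat.Prime 2) := ⟨Nat.prime_two⟩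
    have := Equiv.Perm.card_fixedPoints_modEq (α := S) (f := (φ t : S → S)) (p := 2) (n := 1) (by
      funext x
      have := DFunLike.congr_fun h2 x
      rw [pow_two] at this
      exact this)
    convert this
  have c1 : Fintype.card S = O.card := by
    rw [← Fintype.card_coe O]
    exact Fintype.card_congr (Equiv.refl _)
  have c2 : Fintype.card (Function.fixedPoints (φ t)) = (F O t).card := by
    rw [← Fintype.card_coe (F O t)]
    refine Fintype.card_congr ⟨fun x => ⟨x.1.1, mem_F.2 ⟨x.1.2, congrArg Subtype.val x.2⟩⟩,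
      fun y => ⟨⟨y.1, (mem_F.1 y.2).1⟩, Subtype.ext (mem_F.1 y.2).2⟩, fun _ => rfl, fun _ => rfl⟩
  rw [c1, c2, h.card] at h1 h3
  have c3 : (F O t).card ≤ O.card := Finset.card_le_card fun a ha => (mem_F.1 ha).1
  rw [h.card] at c3
  obtain ⟨r, hr⟩ := h1
  obtain ⟨s, hs⟩ := h.odd
  unfold Nat.ModEq at h3
  by_cases hf : (F O t).card ≤ 2
  · omega
  right; right
  obtain ⟨m, hm⟩ : ∃ m, (F O t).card = m + 1 := ⟨(F O t).card - 1, by omega⟩
  have c4 : (F O (t * t)).card = ProjectivePlane.order P L + 1 := by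
    rw [ht.1, ← h.card]
    congr 1
    ext a
    simp [mem_F]
  have c5 : ProjectivePlane.order P L = m ^ 2 := by
    refine h.baer t c4 hm (by omega) fun e => ht.2 (h.faithO fun a ha => ?_)
    have : F O t = O := Finset.eq_of_subset_of_card_le (fun a ha => (mem_F.1 ha).1)
      (by rw [h.card]; omega)
    exact (mem_F.1 (this.symm ▸ ha)).2
  have c6 : m % 2 = 1 := by omega
  have c7 : m ^ 2 % 4 = 1 := by
    obtain ⟨k, rfl⟩ : ∃ k, m = 2 * k + 1 := ⟨m / 2, by omega⟩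
    have : (2 * k + 1) ^ 2 = 4 * (k * k + k) + 1 := by ring
    omega
  exact ⟨m, c5, by omega, by omega, hm⟩

theorem OV.cen2 (h : OV G L O) {t : G} (ht : Iv t) (hf : (F O t).card = 2) :
    ∃ C, IsC L O t C := by
  classical
  have tt : ∀ p : P, t • t • p = p := fun p => by rw [← mul_smul, ht.1, one_smul]
  obtain ⟨a1, a2, hne, hF⟩ := Finset.card_eq_two.1 hf
  have hF' : ∀ a, (a ∈ O ∧ t • a = a) ↔ a = a1 ∨ a = a2 := fun a => by
    rw [← mem_F, hF]; simp
  obtain ⟨o1, f1⟩ := (hF' a1).2 (Or.inl rfl)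
  obtain ⟨o2, f2⟩ := (hF' a2).2 (Or.inr rfl)
  have tf : ∀ {a : P} {T : L}, a ∈ O → t • a = a → (a ∈ T ∧ ∀ b ∈ O, b ∈ T → b = a) →
      t • T = T := by
    intro a T ha e hT
    refine (h.tan ha).unique ⟨e ▸ h.dC t hT.1, fun b hb hl => ?_⟩ hT
    have := hT.2 _ (h.inv t⁻¹ b hb) (by simpa using h.dC t⁻¹ hl)
    rw [inv_smul_eq_iff] at this
    rw [this, e]
  obtain ⟨T1, hT1⟩ := (h.tan o1).exists
  obtain ⟨T2, hT2⟩ := (h.tan o2).exists
  obtain ⟨C, C1, C2⟩ := dP P T1 T2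
  have hC : C ∉ O := fun hc => hne ((hT1.2 C hc C1).symm.trans (hT2.2 C hc C2))
  refine ⟨C, hC, fun a ha l h1 h2 => ?_⟩
  have aC : a ≠ C := fun e => hC (e ▸ ha)
  by_cases e : t • a = a
  · refine ⟨e.symm ▸ h1, fun b hb hl => Or.inl ?_⟩
    rcases (hF' a).1 ⟨ha, e⟩ with rfl | rfl
    · exact hT1.2 b hb ((dU h1 h2 hT1.1 C1).resolve_left aC ▸ hl)
    · exact hT2.2 b hb ((dU h1 h2 hT2.1 C2).resolve_left aC ▸ hl)
  obtain ⟨c, c1, c2⟩ := dL L a (t • a)
  have cf : t • c = c := h.dFl c1 c2 (Ne.symm e) c2 ((tt a).symm ▸ c1)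
  have hCc : C ∈ c := by
    obtain ⟨X, X1, X2⟩ := dP P c T2
    have n2 : a ≠ a2 := fun e' => e (e' ▸ f2)
    have cT : c ≠ T2 := fun e' => n2 (hT2.2 a ha (e' ▸ c1))
    have Xf : t • X = X := h.dFp X1 X2 cT cf (tf o2 f2 hT2)
    have X1' : a1 ≠ X := fun e' => hne (hT2.2 a1 o1 (e' ▸ X2))
    obtain ⟨m, m1, m2⟩ := dL L a1 X
    have mf : t • m = m := h.dFl m1 m2 X1' (f1.symm ▸ m1) (Xf.symm ▸ m2)
    have mT : m = T1 := by
      refine (h.tan o1).unique ⟨m1, fun b hb hl => ?_⟩ hT1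
      by_contra hb1
      have tb : t • b ∈ m := mf ▸ h.dC t hl
      have bf : t • b = b := by
        rcases h.arc m a1 o1 b hb _ (h.inv t b hb) m1 hl tb with e' | e' | e'
        · exact absurd e'.symm hb1
        · exact absurd (smul_left_cancel t (e'.symm.trans f1.symm)) hb1
        · exact e'.symm
      obtain rfl : b = a2 := ((hF' b).1 ⟨hb, bf⟩).resolve_left hb1
      rcases dU hl m2 hT2.1 X2 with e' | e'
      · subst e'
        rcases h.arc c a ha _ (h.inv t a ha) b hb c1 c2 X1 with e' | e' | e'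
        · exact e e'.symm
        · exact n2 e'
        · exact n2 (smul_left_cancel t (e'.trans f2.symm))
      · exact hne (hT2.2 a1 o1 (e' ▸ m1))
    subst mT
    rcases dU m2 C1 X2 C2 with e' | e'
    · exact e' ▸ X1
    · exact absurd (hT2.2 a1 o1 (e' ▸ m1)) hne
  obtain rfl : l = c := (dU h1 h2 c1 hCc).resolve_left aC
  refine ⟨c2, fun b hb hl => ?_⟩
  rcases h.arc l a ha _ (h.inv t a ha) b hb c1 c2 hl with e' | e' | e'
  · exact absurd e'.symm e
  · exact Or.inl e'.symm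
  · exact Or.inr e'.symm

theorem OV.a0 (h : OV G L O) {t t' : G} (ht : Iv t) (ht' : Iv t') (hf : (F O t).card = 2)
    (e : F O t = F O t') : t = t' := by
  classical
  obtain ⟨C, hC⟩ := h.cen2 ht hf
  obtain ⟨C', hC'⟩ := h.cen2 ht' (e ▸ hf)
  obtain ⟨a1, a2, hne, hF⟩ := Finset.card_eq_two.1 hf
  have k : ∀ a ∈ F O t, ∃ l : L, C ∈ l ∧ C' ∈ l ∧ a ∈ l ∧ ∀ b ∈ O, b ∈ l → b = a := by
    intro a ha
    obtain ⟨o, f⟩ := mem_F.1 ha
    obtain ⟨-, f'⟩ := mem_F.1 (e ▸ ha)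
    obtain ⟨l, h1, h2⟩ := dL L a C
    obtain ⟨l', h3, h4⟩ := dL L a C'
    obtain rfl := (h.tan o).unique (hC.tan o f h1 h2) (hC'.tan o f' h3 h4)
    exact ⟨l, h2, h4, hC.tan o f h1 h2⟩
  have o1 : a1 ∈ F O t := by rw [hF]; simp
  obtain ⟨l1, p1, q1, r1, -⟩ := k a1 o1
  obtain ⟨l2, p2, q2, -, s2⟩ := k a2 (by rw [hF]; simp)
  rcases dU p1 q1 p2 q2 with e' | e'
  · exact hC.uniq_t h (e' ▸ hC')
  · exact absurd (s2 a1 (mem_F.1 o1).1 (e' ▸ r1)) hne

open Classical in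
/-- Baer: an involution with a non-fixed point has a centre, or the order is a square -/
theorem OV.baerC (h : OV G L O) {t : G} (ht : Iv t) {a : P} (e : t • a ≠ a) :
    (∃ C : P, t • C = C ∧ ∀ l : L, C ∈ l → t • l = l) ∨
      ∃ k, ProjectivePlane.order P L = k ^ 2 := by
  have tt : ∀ p : P, t • t • p = p := fun p => by rw [← mul_smul, ht.1, one_smul]
  have tl : ∀ l : L, t • t • l = l := fun p => by rw [← mul_smul, ht.1, one_smul]
  by_contra hc
  rw [not_or] at hc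
  obtain ⟨hc1, hc2⟩ := hc
  push Not at hc1
  choose mt mt1 mt2 using dP (L := L) P
  let FL : Finset L := univ.filter fun l => t • l = l
  have mFL : ∀ l, l ∈ FL ↔ t • l = l := fun l => by simp [FL]
  -- (1)
  have k1 : ∀ X : P, t • X = X →
      (FL.filter fun l => X ∈ l).card + ProjectivePlane.order P L = FL.card := by
    intro X hX
    obtain ⟨m, m1, m2⟩ := hc1 X hX
    rw [← Finset.card_filter_add_card_filter_not (s := FL) (fun l => X ∈ l)]
    congr 1
    have c1 : (univ.filter fun p : P => p ∈ m).card = ProjectivePlane.order P L + 1 := by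
      rw [← ProjectivePlane.pointCount_eq P m, pointCount, Nat.card_eq_fintype_card,
        Fintype.card_subtype]
    have c2 : ((univ.filter fun p : P => p ∈ m).erase X).card = ProjectivePlane.order P L := by
      rw [Finset.card_erase_of_mem (by simpa using m1), c1]; rfl
    rw [← c2]
    symm
    refine Finset.card_bij (fun l _ => mt l m) (fun l hl => ?_) (fun l hl l' hl' e' => ?_)
      (fun Y hY => ?_)
    · simp only [mem_filter, mFL] at hl
      simp only [mem_erase, mem_filter, mem_univ, true_and]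
      exact ⟨fun e' => hl.2 (e' ▸ mt1 l m), mt2 l m⟩
    · simp only [mem_filter, mFL] at hl hl'
      by_contra hne
      have e' : mt l m = mt l' m := e'
      have Yf := h.dFp (mt1 l m) (e' ▸ mt1 l' m) hne hl.1 hl'.1
      exact m2 (h.dFl m1 (mt2 l m) (fun e' => hl.2 (e' ▸ mt1 l m)) (hX.symm ▸ m1)
        (Yf.symm ▸ mt2 l m))
    · simp only [mem_erase, mem_filter, mem_univ, true_and] at hY
      have Yf : t • Y ≠ Y := fun Yf =>
        m2 (h.dFl m1 hY.2 hY.1.symm (hX.symm ▸ m1) (Yf.symm ▸ hY.2))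
      obtain ⟨l, l1, l2⟩ := dL L Y (t • Y)
      have lf : t • l = l := h.dFl l1 l2 Yf.symm l2 ((tt Y).symm ▸ l1)
      have lm : l ≠ m := fun e' => m2 (e' ▸ lf)
      refine ⟨l, ?_, (dU (mt1 l m) l1 (mt2 l m) hY.2).resolve_right lm⟩
      simp only [mem_filter, mFL]
      exact ⟨lf, fun hX' => lm ((dU l1 hX' hY.2 m1).resolve_left hY.1)⟩
  obtain ⟨c, c1, c2⟩ := dL L a (t • a)
  have cf : t • c = c := h.dFl c1 c2 (Ne.symm e) c2 ((tt a).symm ▸ c1)
  -- a fixed point off `c`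
  obtain ⟨X, Xf, Xc⟩ : ∃ X : P, t • X = X ∧ X ∉ c := by
    obtain ⟨q, hq⟩ := Nondegenerate.exists_point (P := P) c
    obtain ⟨m, m1, m2⟩ := dL L a q
    have mc : m ≠ c := fun e' => hq (e' ▸ m2)
    have mf : m ≠ t • m := fun e' =>
      mc ((dU m1 (e' ▸ h.dC t m1) c1 c2).resolve_left (Ne.symm e))
    have Y0 := h.dC t (mt2 m (t • m))
    rw [tl m] at Y0
    have Yf : t • mt m (t • m) = mt m (t • m) :=
      (dU Y0 (mt1 m _) (h.dC t (mt1 m _)) (mt2 m _)).resolve_right mf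
    refine ⟨_, Yf, fun hc => e ?_⟩
    have := (dU m1 (mt1 m (t • m)) c1 hc).resolve_right mc
    rw [this]; exact Yf
  let FP : Finset P := univ.filter fun p => p ∈ c ∧ t • p = p
  have mFP : ∀ p, p ∈ FP ↔ p ∈ c ∧ t • p = p := fun l => by simp [FP]
  -- (2)
  have k2 : (FL.filter fun l => X ∈ l).card = FP.card := by
    refine Finset.card_bij (fun l _ => mt l c) (fun l hl => ?_) (fun l hl l' hl' e' => ?_)
      (fun Y hY => ?_)
    · simp only [mem_filter, mFL] at hl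
      exact (mFP _).2 ⟨mt2 l c, h.dFp (mt1 l c) (mt2 l c) (fun e' => Xc (e' ▸ hl.2)) hl.1 cf⟩
    · simp only [mem_filter, mFL] at hl hl'
      have e' : mt l c = mt l' c := e'
      exact (dU hl.2 (mt1 l c) hl'.2 (e' ▸ mt1 l' c)).resolve_left fun e' => Xc (e' ▸ mt2 l c)
    · obtain ⟨Y1, Y2⟩ := (mFP Y).1 hY
      obtain ⟨l, l1, l2⟩ := dL L X Y
      have lf : t • l = l :=
        h.dFl l1 l2 (fun e' => Xc (e' ▸ Y1)) (Xf.symm ▸ l1) (Y2.symm ▸ l2)
      refine ⟨l, ?_, (dU (mt1 l c) l2 (mt2 l c) Y1).resolve_right fun e' => Xc (e' ▸ l1)⟩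
      simp only [mem_filter, mFL]
      exact ⟨lf, l1⟩
  -- (3)
  have k3 : (FL.erase c).card = FP.card * (FP.card - 1) := by
    rw [Finset.card_eq_sum_card_fiberwise (f := fun l => mt l c) (t := FP) (fun l hl => by
      obtain ⟨l1, l2⟩ := Finset.mem_erase.1 (Finset.mem_coe.1 hl)
      exact Finset.mem_coe.2 ((mFP _).2
        ⟨mt2 l c, h.dFp (mt1 l c) (mt2 l c) l1 ((mFL l).1 l2) cf⟩))]
    rw [← smul_eq_mul, ← Finset.sum_const]
    refine Finset.sum_congr rfl fun Y hY => ?_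
    obtain ⟨Y1, Y2⟩ := (mFP Y).1 hY
    have j1 := k1 Y Y2
    have j2 := k1 X Xf
    have j3 : ((FL.filter fun l => Y ∈ l).erase c).card = FP.card - 1 := by
      rw [Finset.card_erase_of_mem (by simp only [mem_filter, mFL]; exact ⟨cf, Y1⟩)]; omega
    rw [← j3]
    congr 1
    ext l
    simp only [mem_filter, mem_erase]
    constructor
    · rintro ⟨⟨l1, l2⟩, l3⟩
      exact ⟨l1, l2, l3 ▸ mt1 l c⟩
    · rintro ⟨l1, l2, l3⟩
      exact ⟨⟨l1, l2⟩, (dU (mt1 l c) l3 (mt2 l c) Y1).resolve_right l1⟩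
  rw [Finset.card_erase_of_mem ((mFL c).2 cf)] at k3
  have j2 := k1 X Xf
  have j4 := ProjectivePlane.one_lt_order P L
  rw [k2] at j2
  refine hc2 ⟨FP.card - 1, ?_⟩
  obtain ⟨j, hj⟩ : ∃ j, FP.card = j := ⟨_, rfl⟩
  rw [hj] at j2 k3 ⊢
  rcases j with _ | j
  · omega
  · have : (j + 1) * (j + 1 - 1) = j ^ 2 + j := by rw [Nat.add_sub_cancel]; ring
    rw [Nat.add_sub_cancel]
    omega

/-- for `n % 4 = 3` and no fixed point on `O`, the centre fixes all lines through it -/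
theorem OV.cen0 (h : OV G L O) {t : G} (ht : Iv t) (hf : (F O t).card = 0)
    (hn : ProjectivePlane.order P L % 4 = 3) :
    ∃ C, IsC L O t C ∧ t • C = C ∧ ∀ l : L, C ∈ l → t • l = l := by
  have nf : ∀ a ∈ O, t • a ≠ a := fun a ha e => by
    have : a ∈ F O t := mem_F.2 ⟨ha, e⟩
    rw [Finset.card_eq_zero.1 hf] at this
    simp at this
  obtain ⟨a, ha⟩ : O.Nonempty := Finset.card_pos.1 (by rw [h.card]; omega)
  rcases h.baerC ht (nf a ha) with ⟨C, C1, C2⟩ | ⟨k, hk⟩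
  · refine ⟨C, ⟨fun hc => nf C hc C1, fun a ha l h1 h2 => ?_⟩, C1, C2⟩
    have h3 : t • a ∈ l := C2 l h2 ▸ h.dC t h1
    refine ⟨h3, fun b hb hl => ?_⟩
    rcases h.arc l a ha _ (h.inv t a ha) b hb h1 h3 hl with e' | e' | e'
    · exact absurd e'.symm (nf a ha)
    · exact Or.inl e'.symm
    · exact Or.inr e'.symm
  · exfalso
    rcases Nat.even_or_odd' k with ⟨j, rfl | rfl⟩
    · have : (2 * j) ^ 2 = 4 * (j * j) := by ring
      omega
    · have : (2 * j + 1) ^ 2 = 4 * (j * j + j) + 1 := by ring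
      omega

theorem OV.cen (h : OV G L O) {t : G} (ht : Iv t) (hf : (F O t).card = 2 ∨
    ((F O t).card = 0 ∧ ProjectivePlane.order P L % 4 = 3)) : ∃ C, IsC L O t C := by
  rcases hf with hf | ⟨hf, hn⟩
  · exact h.cen2 ht hf
  · obtain ⟨C, hC, -⟩ := h.cen0 ht hf hn
    exact ⟨C, hC⟩

end Cfsg.Agent.Ov
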