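import Cfsg.Agent.Ov.D
import Cfsg.Agent.Ov.E1

set_option autoImplicit false
set_option linter.unusedSectionVars false

namespace Cfsg.Agent.Ov

open Configuration Finset

variable {G L P : Type*} [Membership P L] [Fintype P] [Fintype L] [ProjectivePlane P L]
  [Group G] [MulAction G P] [MulAction G L] {O : Finset P}

namespace PE

theorem fin (h : OV G L O) : Finite G := by
  refine Finite.of_injective (MulAction.toPermHom G P) ?_
  rw [injective_iff_map_eq_one]
  intro g hg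
  exact h.faith g fun p => by simpa using congrArg (fun e : Equiv.Perm P => e p) hg

theorem free (h : OV G L O) (hp : ∀ φ : G →* ℤˣ, φ = 1) (hn : ProjectivePlane.order P L % 4 = 3)
    {t : G} (ht : Iv t) : (F O t).card = 0 := by
  rcases h.a1 hp ht with ⟨-, e⟩ | ⟨e, -⟩ | ⟨m, e, e1, -⟩
  · omega
  · exact e
  · exfalso
    rw [e, Nat.pow_mod, e1] at hn
    omega

theorem free' (h : OV G L O) (hp : ∀ φ : G →* ℤˣ, φ = 1) (hn : ProjectivePlane.order P L % 4 = 3)
    {t : G} (ht : Iv t) : ∀ p ∈ O, t • p ≠ p := fun p h1 h2 => by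
  have := card_eq_zero.1 (free h hp hn ht)
  exact notMem_empty p (this ▸ mem_F.2 ⟨h1, h2⟩)

theorem exH (h : OV G L O) (hp : ∀ φ : G →* ℤˣ, φ = 1) (hn : ProjectivePlane.order P L % 4 = 3)
    {t : G} (ht : Iv t) : ∃ (C : P) (a : L), IsC L O t C ∧ HM t C a := by
  obtain ⟨C, hC⟩ := h.cen ht (Or.inr ⟨free h hp hn ht, hn⟩)
  obtain ⟨a, ha⟩ := hom h ht.1 (free' h hp hn ht) hC.1 fun b hb l h1 h2 => (hC.2 b hb l h1 h2).1
  exact ⟨C, a, hC, ha⟩

theorem HM.comm (h : OV G L O) {t s : G} {C : P} {a : L} (m : HM t C a) (hs : s * t = t * s) :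
    s • C = C ∧ s • a = a := by
  have e1 : s • C = C := by
    by_contra hne
    obtain ⟨l0, h1, h2⟩ := exL L hne
    obtain ⟨l, h3, h4, h5⟩ := avL (s • C) l0 a
    have h6 : C ∈ s⁻¹ • l := by
      have := (h.coll s⁻¹ _ l).2 h3
      rwa [inv_smul_smul] at this
    have h7 : t • l = l := by
      have := m.ln _ h6
      calc t • l = t • s • s⁻¹ • l := by rw [smul_inv_smul]
        _ = s • t • s⁻¹ • l := by rw [← mul_smul, ← hs, mul_smul]
        _ = l := by rw [this, smul_inv_smul]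
    rcases m.fl l h7 with e | e
    · exact h4 (eqL hne h3 e h1 h2)
    · exact h5 e
  refine ⟨e1, ?_⟩
  rcases m.fl (s • a) (by rw [← mul_smul, ← hs, mul_smul, m.fa]) with e | e
  · rw [← e1] at e
    exact absurd ((h.coll s C a).1 e) m.ca
  · exact e

theorem l4 (h : OV G L O) (hn : ProjectivePlane.order P L % 4 = 3) {w s : G} {C : P} {a : L}
    (hw : Iv w) (m : HM w C a) (hs : s * s = w) {l : L} (hl : C ∈ l) (fl : s • l = l) : False := by
  classical
  haveI := fin h
  haveI : Fact (Nat.Prime 2) := ⟨Nat.prime_two⟩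
  obtain ⟨c1, c2⟩ := m.comm h (s := s) (by rw [← hs, mul_assoc])
  have la : l ≠ a := fun e => m.ca (e ▸ hl)
  obtain ⟨D, D1, D2⟩ := exP P la
  have fD := fixP h la D1 D2 fl c2
  have CD : D ≠ C := fun e => m.ca (e ▸ D2)
  have s4 : s ^ 4 = 1 := by
    rw [show s ^ 4 = s * s * (s * s) by simp only [pow_succ, pow_zero, one_mul, mul_assoc], hs, hw.1]
  have o4 : orderOf s = 2 ^ 2 :=
    orderOf_eq_prime_pow (n := 1) (by rw [pow_one, pow_two, hs]; exact hw.2) s4
  have hS : IsPGroup 2 (Subgroup.zpowers s) := IsPGroup.of_card (by rw [Nat.card_zpowers, o4])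
  have mem : ∀ g ∈ Subgroup.zpowers s, ∃ k < 4, s ^ k = g := by
    intro g hg
    rw [mem_zpowers_iff_mem_range_orderOf, o4] at hg
    obtain ⟨k, k1, k2⟩ := mem_image.1 hg
    exact ⟨k, by simpa using k1, k2⟩
  have hd := free2 hS (((pts P l).erase C).erase D) (fun g hg x hx => by
    obtain ⟨k, -, rfl⟩ := mem g hg
    simp only [mem_erase, mem_pts] at hx ⊢
    refine ⟨fun e => hx.1 ?_, fun e => hx.2.1 ?_, memL h (pow_fix fl k) hx.2.2⟩
    · exact smul_left_cancel (s ^ k) (e.trans (pow_fix fD k).symm)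
    · exact smul_left_cancel (s ^ k) (e.trans (pow_fix c1 k).symm)) (fun v hv iv x hx e => by
    obtain ⟨k, k4, rfl⟩ := mem v hv
    simp only [mem_erase, mem_pts] at hx
    have hk : s ^ k = w := by
      interval_cases k
      · exact absurd (pow_zero s) iv.2
      · have := iv.1; rw [pow_one, hs] at this; exact absurd this hw.2
      · rw [pow_two, hs]
      · have := iv.1
        rw [← pow_add, show 3 + 3 = 4 + 2 from rfl, pow_add, s4, one_mul, pow_two, hs] at this
        exact absurd this hw.2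
    rw [hk] at e
    rcases m.fp x e with e | e
    · exact hx.2.1 e
    · exact hx.1 (eqP la hx.2.2 D1 e D2))
  rw [Nat.card_zpowers, o4, card_erase_of_mem (mem_erase.2 ⟨CD, mem_pts.2 D1⟩),
    card_erase_of_mem (mem_pts.2 hl), card_pts] at hd
  omega

/-- centres of distinct commuting involutions -/
theorem cen_ax (h : OV G L O) {t v : G} {C D : P} {a b : L} (hC : IsC L O t C) (m : HM t C a)
    (hD : IsC L O v D) (m' : HM v D b) (hne : v ≠ t) (hc : v * t = t * v) : D ≠ C ∧ D ∈ a := by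
  have h1 : D ≠ C := fun e => hne (IsC.uniq_t h (e ▸ hD) hC)
  exact ⟨h1, (m.fp D (m'.comm h hc.symm).1).resolve_left h1⟩

theorem iv_mul {t v : G} (ht : Iv t) (hv : Iv v) (hne : v ≠ t) (hc : v * t = t * v) :
    Iv (t * v) := by
  refine ⟨?_, fun e => hne ?_⟩
  · rw [mul_assoc, ← mul_assoc v, hc, mul_assoc, hv.1, mul_one, ht.1]
  · rw [← one_mul v, ← ht.1, mul_assoc, e, mul_one]

/-- an element of `S` with nontrivial square fixes no point of the axis of `t` -/
theorem nofix (h : OV G L O) (hp : ∀ φ : G →* ℤˣ, φ = 1) (hn : ProjectivePlane.order P L % 4 = 3)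
    {S : Subgroup G} (hS : IsPGroup 2 S) {t : G} (hc : ∀ s ∈ S, s * t = t * s) {C : P} {a : L}
    (hC : IsC L O t C) (m : HM t C a) {s : G} (hs : s ∈ S) (h2 : s * s ≠ 1) {p : P} (hp1 : p ∈ a)
    (hp2 : s • p = p) : False := by
  obtain ⟨k, hk, hj⟩ := two_inv hS hs (fun e => h2 (by rw [e, one_mul]))
  obtain ⟨j, hj⟩ := hj h2
  obtain ⟨D, b, hD, m'⟩ := exH h hp hn hk
  have c1 := (m.comm h (hc _ (S.pow_mem hs j))).1
  have c2 := (m'.comm h (s := s ^ j) (by rw [← pow_add, ← pow_add, add_comm])).1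
  by_cases e : s ^ k = t
  · have pC : C ≠ p := fun e => m.ca (e ▸ hp1)
    obtain ⟨l, l1, l2⟩ := exL L pC
    exact l4 h hn (e ▸ hk) m (hj.trans e) l1
      (fixL h pC l1 l2 (by rw [c1]; exact l1) (by rw [pow_fix hp2 j]; exact l2))
  · have hne := (cen_ax h hC m hD m' e (hc _ (S.pow_mem hs k))).1
    obtain ⟨l, l1, l2⟩ := exL L hne
    exact l4 h hn hk m' hj l1 (fixL h hne l1 l2 (by rw [c2]; exact l1) (by rw [c1]; exact l2))

theorem fix2 (h : OV G L O) (hp : ∀ φ : G →* ℤˣ, φ = 1) (hn : ProjectivePlane.order P L % 4 = 3)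
    {t v : G} (ht : Iv t) (hv : Iv v) (hne : v ≠ t) (hc : v * t = t * v) {C : P} {a : L}
    (hC : IsC L O t C) (m : HM t C a) : ∃ D E : P, IsC L O v D ∧ IsC L O (t * v) E ∧ D ≠ E ∧
      ∀ p, p ∈ F (pts P a) v ↔ p = D ∨ p = E := by
  have tv := iv_mul ht hv hne hc
  obtain ⟨D, b, hD, mD⟩ := exH h hp hn hv
  obtain ⟨E, c, hE, mE⟩ := exH h hp hn tv
  have n1 : t * v ≠ t := fun e => hv.2 (mul_left_cancel (e.trans (mul_one t).symm))
  have n2 : t * v ≠ v := fun e => ht.2 (mul_right_cancel (e.trans (one_mul v).symm))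
  have d1 := cen_ax h hC m hD mD hne hc
  have d2 := cen_ax h hC m hE mE n1 (by rw [mul_assoc, hc])
  have d3 := cen_ax h hD mD hE mE n2 (by rw [← hc, mul_assoc, hc, ← mul_assoc, hc])
  have d4 := cen_ax h hD mD hC m hne.symm hc.symm
  have ab : a ≠ b := fun e => m.ca (e ▸ d4.2)
  refine ⟨D, E, hD, hE, d3.1.symm, fun p => ⟨fun hx => ?_, ?_⟩⟩
  · obtain ⟨x1, x2⟩ := mem_F.1 hx
    rcases mD.fp p x2 with e | e
    · exact Or.inl e
    · exact Or.inr (eqP ab (mem_pts.1 x1) d2.2 e d3.2)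
  · rintro (rfl | rfl)
    · exact mem_F.2 ⟨mem_pts.2 d1.2, mD.fc⟩
    · exact mem_F.2 ⟨mem_pts.2 d2.2, mD.pt _ d3.2⟩

end PE

open PE

theorem OV.e1 (h : OV G L O) (hp : ∀ φ : G →* ℤˣ, φ = 1) (hn : ProjectivePlane.order P L % 4 = 3)
    (S : Subgroup G) (hS : IsPGroup 2 S) {t u : G} (ht : Iv t) (htS : t ∈ S)
    (hc : ∀ s ∈ S, s * t = t * s) (hu : Iv u) (huS : u ∈ S) (hne : u ≠ t) :
    Nat.card ↥(S ⊓ Subgroup.centralizer {u}) = 4 ∧
      2 * Nat.card {v : G // v ∈ S ∧ Iv v ∧ v ≠ t} = Nat.card S := by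
  classical
  haveI := fin h
  letI : Fintype G := Fintype.ofFinite G
  obtain ⟨C, a, hC, m⟩ := exH h hp hn ht
  have n1 : t * u ≠ t := fun e => hu.2 (mul_left_cancel (e.trans (mul_one t).symm))
  have n2 : t * u ≠ u := fun e => ht.2 (mul_right_cancel (e.trans (one_mul u).symm))
  have tu := iv_mul ht hu hne (hc u huS)
  constructor
  · obtain ⟨D, b, hD, mD⟩ := exH h hp hn hu
    have d1 := cen_ax h hC m hD mD hne (hc u huS)
    have key : ∀ s, s ∈ S ⊓ Subgroup.centralizer {u} ↔ s ∈ ({1, t, u, t * u} : Finset G) := by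
      intro s
      simp only [Subgroup.mem_inf, Subgroup.mem_centralizer_iff, Set.mem_singleton_iff,
        forall_eq, mem_insert, mem_singleton]
      constructor
      · rintro ⟨s1, s2⟩
        have f := (mD.comm h s2.symm).1
        have sq : s * s = 1 := by
          by_contra e
          exact nofix h hp hn hS hc hC m s1 e d1.2 f
        by_cases e1 : s = 1
        · exact Or.inl e1
        by_cases e2 : s = t
        · exact Or.inr (Or.inl e2)
        obtain ⟨D', E', hD', hE', -, hx⟩ := fix2 h hp hn ht ⟨sq, e1⟩ e2 (hc s s1) hC m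
        rcases (hx D).1 (mem_F.2 ⟨mem_pts.2 d1.2, f⟩) with e | e
        · exact Or.inr (Or.inr (Or.inl (IsC.uniq_t h hD' (e ▸ hD))))
        · refine Or.inr (Or.inr (Or.inr ?_))
          have e3 : t * s = u := IsC.uniq_t h hE' (e ▸ hD)
          rw [← e3, ← mul_assoc, ht.1, one_mul]
      · rintro (rfl | rfl | rfl | rfl)
        · exact ⟨S.one_mem, by simp⟩
        · exact ⟨htS, hc u huS⟩
        · exact ⟨huS, rfl⟩
        · exact ⟨S.mul_mem htS huS, by rw [← mul_assoc, hc u huS]⟩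
    rw [Nat.card_congr (Equiv.subtypeEquivRight key), Nat.card_eq_fintype_card, Fintype.card_coe]
    rw [card_insert_of_notMem, card_insert_of_notMem, card_pair n2.symm]
    · simp [hne.symm, n1.symm]
    · simp [ht.2.symm, hu.2.symm, tu.2.symm]
  · set n := ProjectivePlane.order P L with hnn
    let I : Finset S := (univ : Finset S).filter fun v : S => Iv (v : G) ∧ (v : G) ≠ t
    have cI : Nat.card {v : G // v ∈ S ∧ Iv v ∧ v ≠ t} = I.card := by
      rw [← Fintype.card_coe, ← Nat.card_eq_fintype_card]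
      exact Nat.card_congr ⟨fun v => ⟨⟨v.1, v.2.1⟩, mem_filter.2 ⟨mem_univ _, v.2.2⟩⟩,
        fun v => ⟨v.1.1, v.1.2, (mem_filter.1 v.2).2⟩, fun _ => rfl, fun _ => rfl⟩
    have d1 : Nat.card S ∣ n + 1 := by
      rw [hnn, ← h.card]
      exact free2 hS O (fun s _ x hx => h.inv s x hx) fun v _ iv => free' h hp hn iv
    have d2 := burn S (pts P a) fun s hs x hx =>
      mem_pts.2 (memL h (m.comm h (hc s hs)).2 (mem_pts.1 hx))
    have hv : ∀ s : S, (F (pts P a) (s : G)).card = (if s = 1 then n + 1 else 0) +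
        (if s = ⟨t, htS⟩ then n + 1 else 0) + (if Iv (s : G) ∧ (s : G) ≠ t then 2 else 0) := by
      intro s
      have t1 : (1 : S) ≠ ⟨t, htS⟩ := fun e => ht.2 (congrArg Subtype.val e).symm
      by_cases e1 : s = 1
      · subst e1
        have : F (pts P a) ((1 : S) : G) = pts P a := by ext x; simp [mem_F]
        rw [this, card_pts, if_pos rfl, if_neg t1, if_neg (fun e => e.1.2 rfl)]
      by_cases e2 : s = ⟨t, htS⟩
      · subst e2
        have : F (pts P a) t = pts P a := by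
          ext x; simp only [mem_F, mem_pts]; exact ⟨fun e => e.1, fun e => ⟨e, m.pt x e⟩⟩
        rw [if_neg e1, if_pos rfl, if_neg (fun e => e.2 rfl)]
        simp only [this, card_pts]
        omega
      rw [if_neg e1, if_neg e2]
      have e1' : (s : G) ≠ 1 := fun e => e1 (Subtype.ext e)
      have e2' : (s : G) ≠ t := fun e => e2 (Subtype.ext e)
      by_cases sq : (s : G) * s = 1
      · rw [if_pos ⟨⟨sq, e1'⟩, e2'⟩]
        obtain ⟨D', E', -, -, hDE, hx⟩ := fix2 h hp hn ht ⟨sq, e1'⟩ e2' (hc s s.2) hC m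
        rw [← card_pair hDE]
        simp only [zero_add]
        congr 1
        ext x
        simp [hx]
      · rw [if_neg (fun e => sq e.1.1)]
        simp only [add_zero]
        rw [card_eq_zero, eq_empty_iff_forall_notMem]
        intro x hx
        exact nofix h hp hn hS hc hC m s.2 sq (mem_pts.1 (mem_F.1 hx).1) (mem_F.1 hx).2
    simp only [hv, sum_add_distrib, sum_ite_eq', mem_univ, if_true] at d2
    rw [← sum_filter, sum_const, smul_eq_mul] at d2
    have d3 : Nat.card S ∣ I.card * 2 := (Nat.dvd_add_right (dvd_add d1 d1)).1 d2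
    have p1 : 0 < I.card := card_pos.2 ⟨⟨u, huS⟩, mem_filter.2 ⟨mem_univ _, hu, hne⟩⟩
    have p2 : I.card < Nat.card S := by
      rw [Nat.card_eq_fintype_card]
      exact card_lt_univ_of_notMem (x := 1) fun e => (mem_filter.1 e).2.1.2 rfl
    rw [cI]
    obtain ⟨c, hc'⟩ := d3
    have : c = 1 := by
      rcases c with _ | _ | c
      · omega
      · rfl
      · nlinarith
    subst this
    omega

theorem OV.e2 (h : OV G L O) (hp : ∀ φ : G →* ℤˣ, φ = 1) (hn : ProjectivePlane.order P L % 4 = 3)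
    {x v t1 t2 : G} (x3 : x ^ 3 = 1) (x1 : x ≠ 1) (hv : Iv v) (hvx : v * x * v = x⁻¹)
    (h1 : Iv t1) (h2 : Iv t2) (hne : t1 ≠ t2) (c12 : t1 * t2 = t2 * t1) (c1 : t1 * x = x * t1)
    (c2 : t2 * x = x * t2) : False := by
  classical
  have vv : ∀ p : P, v • v • p = p := fun p => by rw [← mul_smul, hv.1, one_smul]
  have hw : Iv (v * x) := by
    refine ⟨by rw [← mul_assoc, hvx, inv_mul_cancel], fun e => x1 ?_⟩
    have e2 : x = v := by rw [← one_mul x, ← hv.1, mul_assoc, e, mul_one]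
    rw [pow_succ, pow_two, e2, hv.1, one_mul] at x3
    exact e2.trans x3
  have vw : v * x ≠ v := fun e => x1 (mul_left_cancel (e.trans (mul_one v).symm))
  obtain ⟨C, a, hC, m⟩ := exH h hp hn hv
  obtain ⟨D, b, hD, m'⟩ := exH h hp hn hw
  have CD : C ≠ D := fun e => vw (IsC.uniq_t h hD (e ▸ hC))
  obtain ⟨l, l1, l2⟩ := PE.exL L CD
  have fx : ∀ Q : P, x • Q = Q → Q ∉ l → Q ∈ a ∧ Q ∈ b := by
    intro Q q1 q2
    have QC : Q ≠ C := fun e => q2 (e ▸ l1)
    have QD : Q ≠ D := fun e => q2 (e ▸ l2)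
    have e : (v * x) • Q = v • Q := by rw [mul_smul, q1]
    have q3 : v • Q = Q := by
      by_contra hq
      obtain ⟨k, k1, k2⟩ := PE.exL L QC
      obtain ⟨k', k1', k2'⟩ := PE.exL L QD
      have r1 := memL h (m.ln k k2) k1
      have r2 := memL h (m'.ln k' k2') k1'
      rw [e] at r2
      have := eqL hq r1 k1 r2 k1'
      subst this
      exact q2 (eqL CD k2 k2' l1 l2 ▸ k1)
    exact ⟨(m.fp Q q3).resolve_left QC, (m'.fp Q (e.trans q3)).resolve_left QD⟩
  have fo : ∀ p ∈ O, x • p ≠ p := by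
    have on : ∀ p ∈ O, x • p = p → p ∈ l := fun p o e => by
      by_contra hl
      exact free' h hp hn hv p o (m.pt p (fx p e hl).1)
    intro p o e
    have e1 : x • t1 • p = t1 • p := by rw [← mul_smul, ← c1, mul_smul, e]
    have e2 : x • t2 • p = t2 • p := by rw [← mul_smul, ← c2, mul_smul, e]
    rcases h.arc l p o _ (h.inv t1 p o) _ (h.inv t2 p o) (on p o e) (on _ (h.inv t1 p o) e1)
      (on _ (h.inv t2 p o) e2) with r | r | r
    · exact free' h hp hn h1 p o r.symm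
    · exact free' h hp hn h2 p o r.symm
    · refine free' h hp hn (iv_mul h1 h2 hne.symm c12.symm) p o ?_
      rw [mul_smul, ← r, ← mul_smul, h1.1, one_smul]
  have n3 : (ProjectivePlane.order P L + 1) % 3 = 0 := by
    have := modp Nat.prime_three x3 O (h.inv x)
    rw [h.card] at this
    have e : F O x = ∅ := eq_empty_iff_forall_notMem.2 fun p hq =>
      fo p (mem_F.1 hq).1 (mem_F.1 hq).2
    rw [this, e]; rfl
  have two : ∀ k : L, x • k = k → (∃ p ∈ k, x • p = p) → k ≠ l → a = b := by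
    rintro k k1 ⟨p, p1, p2⟩ kl
    have r := modp Nat.prime_three x3 (pts P k) fun y hy => mem_pts.2 (memL h k1 (mem_pts.1 hy))
    rw [card_pts, n3] at r
    have r2 := card_pos.2 ⟨p, mem_F.2 ⟨mem_pts.2 p1, p2⟩⟩
    have r3 : 2 < (F (pts P k) x).card := by omega
    obtain ⟨y, y1, y2⟩ := PE.exP P kl
    obtain ⟨Q1, q1, q2, -⟩ := av r3 y y
    obtain ⟨Q2, q3, q4, q5⟩ := av r3 y Q1
    have f1 := fx Q1 (mem_F.1 q1).2 fun e => q2 (eqP kl (mem_pts.1 (mem_F.1 q1).1) y1 e y2)
    have f2 := fx Q2 (mem_F.1 q3).2 fun e => q4 (eqP kl (mem_pts.1 (mem_F.1 q3).1) y1 e y2)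
    exact eqL q5 f2.1 f1.1 f2.2 f1.2
  obtain ⟨C1, a1, hC1, m1⟩ := exH h hp hn h1
  obtain ⟨C2, a2, hC2, m2⟩ := exH h hp hn h2
  have d := cen_ax h hC1 m1 hC2 m2 hne.symm c12.symm
  have g1 := m1.comm h c1.symm
  have g2 := m2.comm h c2.symm
  have ab : a = b := by
    by_cases e : a1 = l
    · obtain ⟨k, k1, k2⟩ := PE.exL L d.1
      refine two k (PE.fixL h d.1 k1 k2 (by rw [g2.1]; exact k1) (by rw [g1.1]; exact k2))
        ⟨C2, k1, g2.1⟩ fun e' => m1.ca ?_
      rw [e, ← e']; exact k2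
    · exact two a1 g1.2 ⟨C2, d.2, g2.1⟩ e
  subst ab
  have xa : ∀ p ∈ a, x • p = p := fun p hq => by
    have := m'.pt p hq
    rw [mul_smul] at this
    rw [← vv (x • p), this, m.pt p hq]
  obtain ⟨p, o⟩ : O.Nonempty := card_pos.1 (by rw [h.card]; omega)
  have pa : p ∉ a := fun e => fo p o (xa p e)
  obtain ⟨k, k1, k2⟩ := PE.exL L (fo p o)
  obtain ⟨R, R1, R2⟩ := PE.exP P (show k ≠ a from fun e => pa (e ▸ k2))
  have fk : x • k = k := PE.fixL h (show p ≠ R from fun e => pa (e ▸ R2)) k2 R1 k1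
    (by rw [xa R R2]; exact R1)
  rcases h.arc k p o _ (h.inv x p o) _ (h.inv x _ (h.inv x p o)) k2 k1 (memL h fk k1) with r | r | r
  · exact fo p o r.symm
  · refine fo p o ?_
    have : x • x • x • p = p := by
      rw [← mul_smul, ← mul_smul, ← pow_two, ← pow_succ, x3, one_smul]
    rw [← r] at this
    exact this
  · exact fo _ (h.inv x p o) r.symm

end Cfsg.Agent.Ov
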