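import Cfsg.Agent.H12.DicksonSL
import Cfsg.Agent.H12.Torus
import Cfsg.Agent.H27.SL2d

/-! An involutory automorphism of `SL₂(q)` with small fixed subgroup forces `q = 3`. -/

set_option autoImplicit false
set_option linter.unusedSectionVars false

namespace Cfsg.Agent.Ov.PQ

open Subgroup Cfsg.Agent.H12 Cfsg.Agent.H27
open scoped MatrixGroups

variable {F : Type*} [Field F] [Fintype F]

theorem tau (φ : SL(2, F) ≃* SL(2, F)) : ∃ τ : P1 F → P1 F,
    (∀ x g, φ g ∈ rootSL (τ x) ↔ g ∈ rootSL x) ∧ ∀ g x, τ (g • x) = φ g • τ x := by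
  obtain ⟨p, hp⟩ := CharP.exists F
  haveI : Fact p.Prime := ⟨CharP.char_is_prime F p⟩
  have : ∀ x : P1 F, ∃ y, ∀ g, φ g ∈ rootSL y ↔ g ∈ rootSL x := fun x => by
    obtain ⟨y, hy⟩ := le_rootSL_of_isPGroup p ((isPGroup_rootSL p x).map φ.toMonoidHom)
    have e := eq_of_le_of_card_ge hy (by
      rw [card_rootSL, card_map_of_injective φ.injective, card_rootSL])
    exact ⟨y, fun g => by rw [← e]; exact mem_map_iff_mem (f := φ.toMonoidHom) φ.injective⟩
  choose τ h using this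
  refine ⟨τ, h, fun g x => rootSL_injective (Subgroup.ext fun a => ?_)⟩
  obtain ⟨a, rfl⟩ := φ.surjective a
  rw [h, mem_rootSL_smul, mem_rootSL_smul, ← map_inv, ← map_mul, ← map_mul, h]

theorem fix_inf {g : SL(2, F)} : g • inf F = inf F ↔ g 1 0 = 0 := by
  rw [← toGL_smul_proj, gl_smul_inf_eq_inf_iff]; rfl

theorem fix_aff {g : SL(2, F)} : g • aff (0 : F) = aff 0 ↔ g 0 1 = 0 := by
  rw [← toGL_smul_proj, gl_smul_aff_eq_aff_iff, mul_zero, zero_mul, zero_add]; rfl

theorem card_pair {x y x' y' : P1 F} (h : x ≠ y) (h' : x' ≠ y') :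
    Nat.card {s : SL(2, F) // s • x = x' ∧ s • y = y'} ≤ Fintype.card F - 1 := by
  obtain ⟨k, rfl, rfl⟩ := exists_sl_pair h
  obtain ⟨k', rfl, rfl⟩ := exists_sl_pair h'
  have a : ∀ s : {s : SL(2, F) // s • k • inf F = k' • inf F ∧ s • k • aff 0 = k' • aff (0 : F)},
      (k'⁻¹ * s * k) 1 0 = 0 ∧ (k'⁻¹ * s * k) 0 1 = 0 := fun s =>
    ⟨fix_inf.1 (by rw [mul_smul, mul_smul, s.2.1, inv_smul_smul]),
      fix_aff.1 (by rw [mul_smul, mul_smul, s.2.2, inv_smul_smul])⟩
  have d : ∀ s : {s : SL(2, F) // s • k • inf F = k' • inf F ∧ s • k • aff 0 = k' • aff (0 : F)},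
      (k'⁻¹ * s * k) 0 0 * (k'⁻¹ * s * k) 1 1 = 1 := fun s => by
    have := sl2_det (k'⁻¹ * s.1 * k)
    rw [(a s).1, mul_zero, sub_zero] at this; exact this
  rw [← card_units_of_card rfl]
  refine Nat.card_le_card_of_injective (fun s => Units.mkOfMulEqOne _ _ (d s)) fun s t e => ?_
  have e0 : (k'⁻¹ * s * k) 0 0 = (k'⁻¹ * t * k) 0 0 := congrArg Units.val e
  have e1 : (k'⁻¹ * s * k) 1 1 = (k'⁻¹ * t * k) 1 1 :=
    mul_left_cancel₀ (left_ne_zero_of_mul_eq_one (d s)) (by rw [d s, e0, d t])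
  have : k'⁻¹ * s * k = k'⁻¹ * t * k := by
    ext i j
    fin_cases i <;> fin_cases j
    exacts [e0, (a s).2.trans (a t).2.symm, (a s).1.trans (a t).1.symm, e1]
  exact Subtype.ext (mul_left_cancel (mul_right_cancel this))

/-- the hypotheses on the automorphism -/
structure HY (φ : SL(2, F) ≃* SL(2, F)) (x : SL(2, F)) : Prop where
  odd : Odd (Fintype.card F)
  inv : ∀ g, φ (φ g) = g
  sq : x * x = -1
  ix : φ x = x⁻¹
  h4 : ∀ y, φ y = y → y * y ≠ -1
  hA : ∀ h, h * h = -1 → φ h = h⁻¹ → ∀ y, Odd (orderOf y) → h * y * h⁻¹ = y⁻¹ →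
    φ y = y ∨ φ y = y⁻¹ → y = 1

namespace HY

variable {φ : SL(2, F) ≃* SL(2, F)} {x : SL(2, F)} (h : HY φ x)
include h

theorem two : (2 : F) ≠ 0 := two_ne_zero_of_odd_card h.odd

theorem conj (k : SL(2, F)) :
    HY (((MulAut.conj k).trans φ).trans (MulAut.conj k).symm) (k⁻¹ * x * k) where
  odd := h.odd
  inv g := by simp [h.inv, mul_assoc]
  sq := by rw [show k⁻¹ * x * k * (k⁻¹ * x * k) = k⁻¹ * (x * x) * k by group, h.sq]; simp
  ix := by simp [mul_assoc, h.ix]
  h4 y e e' := h.h4 (k * y * k⁻¹) (by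
      have : k⁻¹ * φ (k * y * k⁻¹) * k = y := by simpa using e
      conv_rhs => rw [← this]
      group) (by rw [conj_mul, e']; simp)
  hA a e e' y o c d := by
    have b : ∀ u v : SL(2, F), (((MulAut.conj k).trans φ).trans (MulAut.conj k).symm) u = v →
        φ (k * u * k⁻¹) = k * v * k⁻¹ := fun u v e => by
      have : k⁻¹ * φ (k * u * k⁻¹) * k = v := by simpa using e
      rw [← this]; group
    have := h.hA (k * a * k⁻¹) (by rw [conj_mul, e]; simp) (by rw [b _ _ e', conj_inv])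
      (k * y * k⁻¹) (by rwa [show orderOf (k * y * k⁻¹) = orderOf y from
        (MulAut.conj k).orderOf_eq y]) (by rw [conj_inv, conj_inv, ← c]; group)
      (d.imp (b _ _) fun d => by rw [b _ _ d, conj_inv])
    simpa using this

theorem odd_sq {y : SL(2, F)} (e : φ y = y) : Odd (orderOf (y * y)) := by
  refine (Nat.even_or_odd _).resolve_left fun ⟨k, hk⟩ => ?_
  have h0 := orderOf_pos (y * y)
  have a : (y * y) ^ k * (y * y) ^ k = 1 := by rw [← pow_add, ← hk, pow_orderOf_eq_one]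
  refine h.h4 (y ^ k) (by rw [map_pow, e]) ?_
  rw [← (Commute.refl y).mul_pow]
  exact (sl2_eq_of_mul_self h.two a).resolve_left (pow_ne_one_of_lt_orderOf (by omega) (by omega))

theorem comm {y : SL(2, F)} (e : φ y = y) : y * x = x * y := by
  have xi : x⁻¹ = -x := inv_eq_of_mul_eq_one_right (by rw [mul_neg, h.sq, neg_neg])
  have a : φ (y⁻¹ * (x * y * x⁻¹)) = y⁻¹ * (x * y * x⁻¹) := by
    simp only [map_mul, map_inv, e, h.ix, inv_inv]; rw [xi]; simp
  have b : x * (y⁻¹ * (x * y * x⁻¹)) * x⁻¹ = (y⁻¹ * (x * y * x⁻¹))⁻¹ := by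
    rw [show x * (y⁻¹ * (x * y * x⁻¹)) * x⁻¹ = x * y⁻¹ * x⁻¹ * ((x * x) * y * (x * x)⁻¹) by group,
      h.sq]; simp [mul_assoc]
  have c := h.hA x h.sq h.ix _ (h.odd_sq a) (by rw [← conj_mul, b, ← mul_inv_rev])
    (Or.inl (by rw [map_mul, a]))
  have d : x * (y * y) * x⁻¹ = y * y := by
    rw [← conj_mul]
    rcases sl2_eq_of_mul_self h.two c with c | c <;> rw [inv_mul_eq_iff_eq_mul] at c <;> rw [c] <;> simp
  have d' : Commute (y * y) x := (mul_inv_eq_iff_eq_mul.1 d).symm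
  obtain ⟨m, hm⟩ := h.odd_sq e
  have f : y ^ (2 * m + 1) * y ^ (2 * m + 1) = 1 := by
    rw [← (Commute.refl y).mul_pow, ← hm, pow_orderOf_eq_one]
  have g : y = (y * y) ^ (m + 1) * (y ^ (2 * m + 1))⁻¹ := by
    rw [← pow_two, ← pow_mul, eq_mul_inv_iff_mul_eq, ← pow_succ']; rfl
  have : Commute (y ^ (2 * m + 1)) x := by
    rcases sl2_eq_of_mul_self h.two f with c | c <;> rw [c] <;> simp [Commute, SemiconjBy]
  rw [g]; exact ((d'.pow_left _).mul_left this.inv_left).eq

theorem free {τ : P1 F → P1 F} (h2 : ∀ g x, τ (g • x) = φ g • τ x) (h3 : ∀ x, τ (τ x) = x) :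
    ∃ z, τ z = z := by
  by_contra hn
  push Not at hn
  let C : Subgroup SL(2, F) := φ.toMonoidHom.eqLocus (MonoidHom.id _)
  have hC : ∀ y, y ∈ C ↔ φ y = y := fun y => Iff.rfl
  have le : C ≤ torS x := fun y hy => mem_torS_iff.2 (h.comm hy)
  have x1 : x * x ≠ 1 := h.sq ▸ sl2_neg_one_ne_one h.two
  have nx : x ∉ C := fun e => x1 (by
    have := h.ix; rw [(hC x).1 e] at this; exact mul_eq_one_iff_eq_inv.2 this)
  have c1 : Nat.card (torS x) ≤ Fintype.card F + 1 := by
    rw [← Nat.card_eq_fintype_card]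
    rcases type_cases (x : M2 F) with e | ⟨-, r, e, e'⟩ | e | e
    · rcases scal_sl_iff.1 e with e | e <;> exact absurd (by rw [e]; simp) x1
    · rw [sl2_trace_of_mul_self h.sq, ← two_mul] at e
      rw [(mul_eq_zero.1 e.symm).resolve_left h.two, x.2, mul_zero] at e'
      exact absurd e' one_ne_zero
    · rw [card_torS_spl e]; omega
    · rw [card_torS_ell e]
  have c2 : 2 * Nat.card C ≤ Nat.card (torS x) := by
    obtain ⟨m, hm⟩ := card_dvd_of_le le
    have : m ≠ 1 := fun e => nx (eq_of_le_of_card_ge le (by rw [hm, e, mul_one]) ▸ self_mem_torS x)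
    have : m ≠ 0 := fun e => (Nat.card_pos (α := torS x)).ne' (by rw [hm, e, mul_zero])
    rw [hm, mul_comm]; exact Nat.mul_le_mul_left _ (by omega)
  have a1 : ∀ (g : SL(2, F)) z, (g * (φ g)⁻¹) • τ z ≠ z := fun g z e => hn (g⁻¹ • z) (by
    rw [h2, map_inv, eq_inv_smul_iff, ← mul_smul, e])
  have a2 : ∀ (g : SL(2, F)) z, (g * (φ g)⁻¹) • τ ((g * (φ g)⁻¹) • τ z) = z := fun g z => by
    rw [h2, h3, ← mul_smul, map_mul, map_inv, h.inv]; simp
  have a3 : ∀ g : SL(2, F), ∃ z, (g * (φ g)⁻¹) • τ (inf F) = aff z := fun g =>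
    exists_aff_of_ne_inf (a1 g _)
  choose z hz using a3
  have c3 : C.index ≤ Fintype.card F * (Fintype.card F - 1) := by
    have := Nat.card_le_card_of_injective (β := Σ w : F,
      {s : SL(2, F) // s • τ (inf F) = aff w ∧ s • τ (aff w) = inf F})
      (fun q : SL(2, F) ⧸ C => ⟨z q.out, q.out * (φ q.out)⁻¹, hz _, by rw [← hz, a2]⟩) fun a b e => by
        have e' : a.out * (φ a.out)⁻¹ = b.out * (φ b.out)⁻¹ := congrArg (fun s => s.2.1) e
        rw [← a.out_eq, ← b.out_eq]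
        refine QuotientGroup.eq.2 ((hC _).2 ?_)
        rw [map_mul, map_inv, inv_mul_eq_iff_eq_mul, ← mul_assoc, ← inv_inj]
        calc _ = b.out⁻¹ * (b.out * (φ b.out)⁻¹) := by group
          _ = _ := by rw [← e']; group
    refine this.trans ?_
    rw [Nat.card_sigma]
    refine (Finset.sum_le_card_nsmul _ _ _ fun w _ => card_pair (fun e => aff_ne_inf w ?_)
      (aff_ne_inf w)).trans (by simp)
    rw [← h3 (aff w), ← e, h3]
  have c4 := C.card_mul_index
  rw [card_SL2 rfl] at c4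
  have c5 : 2 ≤ Fintype.card F := Fintype.one_lt_card
  obtain ⟨q, hq⟩ : ∃ q, Fintype.card F = q + 1 := ⟨_, (Nat.sub_add_cancel (by omega)).symm⟩
  rw [hq] at c1 c3 c4 c5
  rw [show (q + 1) ^ 2 - 1 = q * (q + 2) from Nat.sub_eq_of_eq_add (by ring)] at c4
  rw [Nat.add_sub_cancel] at c3
  have := Nat.mul_le_mul (c2.trans c1) c3
  rw [mul_assoc, c4] at this
  nlinarith

theorem std {τ : P1 F → P1 F} (h1 : ∀ x g, φ g ∈ rootSL (τ x) ↔ g ∈ rootSL x)
    (h2 : ∀ g x, τ (g • x) = φ g • τ x) (e1 : τ (inf F) = inf F) (e2 : τ (aff 0) = aff 0) :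
    Fintype.card F = 3 := by
  obtain ⟨p, hp⟩ := CharP.exists F
  haveI : Fact p.Prime := ⟨CharP.char_is_prime F p⟩
  have tr := sl2_trace_of_mul_self h.sq
  have dt := sl2_det x
  rw [Matrix.trace_fin_two] at tr
  have u0 : ∀ b : F, upper b * x = x * upper b → b = 0 := fun b e => by
    by_contra hb
    have a := congrFun (congrFun (congrArg Subtype.val e) 0) 0
    have a' := congrFun (congrFun (congrArg Subtype.val e) 0) 1
    simp [Matrix.mul_apply, Fin.sum_univ_two, hb] at a a'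
    have : x.1 0 0 = 0 := (mul_eq_zero.1 (show 2 * b * x.1 0 0 = 0 by
      linear_combination b * tr - a')).resolve_left (mul_ne_zero h.two hb)
    exact one_ne_zero (show (1 : F) = 0 by linear_combination -dt + x.1 1 1 * this - x.1 0 1 * a)
  have u1 : ∀ b : F, φ (upper b) = upper (-b) := fun b => by
    obtain ⟨c, hc⟩ := mem_rootSL_inf.1 (e1 ▸ (h1 _ _).2 (mem_rootSL_inf.2 ⟨b, rfl⟩))
    have : φ (upper (b + c)) = upper (b + c) := by
      rw [upper_add, map_mul, ← hc, h.inv, hc, ← upper_add, ← upper_add, add_comm]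
    rw [hc, eq_neg_of_add_eq_zero_right (u0 _ (h.comm this))]
  let d : Fˣ → SL(2, F) := fun a => mkSL2 a 0 0 (a⁻¹ : Fˣ) (by simp)
  have d1 : ∀ a (b : F), d a * upper b = upper (a ^ 2 * b) * d a := fun a b => by
    ext i j
    fin_cases i <;> fin_cases j <;> simp [d, Matrix.mul_apply, Fin.sum_univ_two]
    field_simp
  have d2 : ∀ a, φ (d a) = d a ∨ φ (d a) = -d a := fun a => by
    have b1 : φ (d a) 1 0 = 0 := fix_inf.1 (by
      rw [← e1, ← h2, fix_inf.2 (show d a 1 0 = 0 from rfl)])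
    have b2 : φ (d a) 0 1 = 0 := fix_aff.1 (by
      rw [← e2, ← h2, fix_aff.2 (show d a 0 1 = 0 from rfl)])
    have b3 := sl2_det (φ (d a))
    have b4 := congrArg φ (d1 a 1)
    rw [map_mul, map_mul, u1, u1] at b4
    have b5 := congrFun (congrFun (congrArg Subtype.val b4) 0) 1
    simp [Matrix.mul_apply, Fin.sum_univ_two, b2] at b5
    rw [b1, mul_zero, sub_zero] at b3
    have b6 : (φ (d a) 0 0 - a) * (φ (d a) 0 0 + a) = 0 := by
      linear_combination φ (d a) 0 0 * b5 + (a : F) ^ 2 * b3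
    have ha := a.mul_inv
    rcases mul_eq_zero.1 b6 with e | e
    · left
      ext i j
      fin_cases i <;> fin_cases j
      · exact sub_eq_zero.1 e
      · exact b2
      · exact b1
      · show φ (d a) 1 1 = (a⁻¹ : Fˣ)
        linear_combination (a⁻¹ : Fˣ) * b3 - φ (d a) 1 1 * ha - (a⁻¹ : Fˣ) * φ (d a) 1 1 * e
    · right
      ext i j
      fin_cases i <;> fin_cases j
      · exact eq_neg_of_add_eq_zero_left e
      · exact b2.trans neg_zero.symm
      · exact b1.trans neg_zero.symm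
      · show φ (d a) 1 1 = -((a⁻¹ : Fˣ) : F)
        linear_combination -(a⁻¹ : Fˣ) * b3 - φ (d a) 1 1 * ha + (a⁻¹ : Fˣ) * φ (d a) 1 1 * e
  have ni : ∀ i : F, i * i ≠ -1 := fun i hi => by
    have i0 : i * -i = 1 := by linear_combination -hi
    let a := Units.mkOfMulEqOne _ _ i0
    have a1 : d a * d a = -1 := sl2_mul_self_of_trace (by
      rw [Matrix.trace_fin_two]; exact add_neg_cancel i)
    have a2 : φ (d a) = (d a)⁻¹ := by
      rw [(d2 a).resolve_left fun e => h.h4 _ e a1]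
      exact eq_inv_of_mul_eq_one_left (by rw [neg_mul, a1, neg_neg])
    have a3 : upper (1 : F) ^ p = 1 := by rw [upper_pow, CharP.cast_eq_zero, zero_mul, upper_zero]
    have := h.hA _ a1 a2 (upper 1) (((Fact.out : p.Prime).odd_of_ne_two
      (char_ne_two_of_two_ne_zero p h.two)).of_dvd_nat (orderOf_dvd_of_pow_eq_one a3))
      (by rw [d1, mul_inv_cancel_right, ← upper_neg, mul_one, pow_two]; exact congrArg _ hi)
      (Or.inr (by rw [u1, upper_neg]))
    exact one_ne_zero (upper_injective (this.trans upper_zero.symm))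
  have sq1 : ∀ a : F, a ≠ 0 → a ^ 2 = 1 := fun a ha => by
    by_contra hn
    lift a to Fˣ using ha.isUnit
    have c := h.comm (y := d a * d a) (by
      rw [map_mul]; rcases d2 a with e | e <;> rw [e]; simp)
    have c1 := congrFun (congrFun (congrArg Subtype.val c) 0) 1
    simp [d, Matrix.mul_apply, Fin.sum_univ_two] at c1
    have hb := a.mul_inv
    have c2 : x.1 0 1 * (((a : F) ^ 2 - 1) * (a * a + 1)) = 0 := by
      field_simp at c1
      linear_combination c1
    have c3 : x.1 0 1 = 0 := (mul_eq_zero.1 c2).resolve_right (mul_ne_zero (sub_ne_zero.2 hn)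
      fun e => ni a (eq_neg_of_add_eq_zero_left e))
    exact ni (x.1 0 0) (by linear_combination -dt + x.1 0 0 * tr - x.1 1 0 * c3)
  have c5 : 2 ≤ Fintype.card F := Fintype.one_lt_card
  have c6 : ¬ 4 ≤ Fintype.card F := fun e => by
    obtain ⟨a, a0, a1⟩ := exists_sq_ne_one_of_four_le (F := F) (by rwa [Nat.card_eq_fintype_card])
    exact a1 (sq1 a a0)
  obtain ⟨m, hm⟩ := h.odd
  omega

theorem three : Fintype.card F = 3 := by
  classical
  obtain ⟨τ, h1, h2⟩ := tau φ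
  have h3 : ∀ x, τ (τ x) = x := fun x => rootSL_injective (Subgroup.ext fun g => by
    rw [← h1 x, ← h1 (τ x), h.inv])
  obtain ⟨z, hz⟩ := h.free h2 h3
  obtain ⟨w, hw, hw'⟩ : ∃ w, z ≠ w ∧ τ w = w := by
    by_contra hn
    push Not at hn
    haveI := Fintype.ofFinite (P1 F)
    haveI : Fact (Nat.Prime 2) := ⟨Nat.prime_two⟩
    have := Equiv.Perm.card_fixedPoints_modEq (p := 2) (n := 1) (f := τ) (funext h3)
    rw [← Nat.card_eq_fintype_card, card_P1, Nat.card_eq_fintype_card,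
      (Fintype.card_eq_one_iff (α := Function.fixedPoints τ)).2 ⟨⟨z, hz⟩, fun y => Subtype.ext (by_contra fun e =>
        hn _ (Ne.symm e) y.2)⟩] at this
    obtain ⟨m, hm⟩ := h.odd
    rw [hm, Nat.ModEq] at this
    omega
  obtain ⟨k, rfl, rfl⟩ := exists_sl_pair hw
  refine (h.conj k).std (τ := fun y => k⁻¹ • τ (k • y)) (fun y g => ?_) (fun g y => ?_)
    (by rw [hz, inv_smul_smul]) (by rw [hw', inv_smul_smul])
  · rw [mem_rootSL_smul, show k⁻¹⁻¹ * (((MulAut.conj k).trans φ).trans (MulAut.conj k).symm) g * k⁻¹ =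
      φ (k * g * k⁻¹) by simp [mul_assoc], h1, mem_rootSL_smul]
    simp [mul_assoc]
  · rw [show k • g • y = (k * g * k⁻¹) • k • y by simp [mul_smul], h2]
    simp [mul_smul]

end HY

end Cfsg.Agent.Ov.PQ
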