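import Cfsg.Agent.Ov.A
import Cfsg.Agent.H11.Iso
import Cfsg.Agent.S0215

set_option autoImplicit false

namespace Cfsg.Agent.Ov
open Subgroup
open scoped commutatorElement

variable {G : Type*} [Group G]

theorem Iv.ord {t : G} (h : Iv t) : orderOf t = 2 :=
  orderOf_eq_prime (by rw [pow_two]; exact h.1) h.2

theorem Iv.inv {t : G} (h : Iv t) : t⁻¹ = t := inv_eq_of_mul_eq_one_right h.1

theorem Iv.cj {t : G} (h : Iv t) (g : G) : Iv (g⁻¹ * t * g) := by
  refine ⟨?_, fun e => h.2 ?_⟩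
  · calc g⁻¹ * t * g * (g⁻¹ * t * g) = g⁻¹ * (t * t) * g := by group
      _ = 1 := by rw [h.1]; group
  · calc t = g * (g⁻¹ * t * g) * g⁻¹ := by group
      _ = 1 := by rw [e]; group

theorem cyc_inv {A : Type*} [Group A] [Finite A] [IsCyclic A] {a b : A} (ha : Iv a) (hb : Iv b) :
    a = b := by
  classical
  haveI := Fintype.ofFinite A
  by_contra hne
  have h := IsCyclic.card_pow_eq_one_le (α := A) (n := 2) (by norm_num)
  have hs : ({1, a, b} : Finset A) ⊆ Finset.univ.filter (fun x : A => x ^ 2 = 1) := by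
    intro x hx
    simp only [Finset.mem_insert, Finset.mem_singleton] at hx
    rcases hx with rfl | rfl | rfl <;> simp [pow_two, ha.1, hb.1]
  have := Finset.card_le_card hs
  rw [Finset.card_eq_three.mpr ⟨1, a, b, ha.2.symm, hb.2.symm, hne, rfl⟩] at this
  omega

theorem tt [Finite G] (hG : commutator G = ⊤) (S : Sylow 2 G) (N : Subgroup G)
    (hn : ∀ s ∈ S, ∀ n ∈ N, s * n * s⁻¹ ∈ N) {β : G} (hβ : β ∈ S)
    (hcyc : ∀ s ∈ S, ∃ k : ℤ, (β ^ k)⁻¹ * s ∈ N) {b : G} (hb : Iv b) (hbS : b ∈ S)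
    (hN : ∀ g : G, g⁻¹ * b * g ∈ S → g⁻¹ * b * g ∉ N) : False := by
  classical
  haveI : (N.subgroupOf (S : Subgroup G)).Normal :=
    ⟨fun n hn' s => by
      rw [mem_subgroupOf] at hn' ⊢
      exact hn s s.2 n hn'⟩
  haveI : IsCyclic ((S : Subgroup G) ⧸ N.subgroupOf (S : Subgroup G)) := by
    refine ⟨⟨QuotientGroup.mk ⟨β, hβ⟩, fun x => ?_⟩⟩
    obtain ⟨s, rfl⟩ := QuotientGroup.mk_surjective x
    obtain ⟨k, hk⟩ := hcyc s s.2
    refine ⟨k, ?_⟩
    simp only
    rw [← QuotientGroup.mk_zpow, QuotientGroup.eq, mem_subgroupOf]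
    simpa using hk
  letI : CommGroup ((S : Subgroup G) ⧸ N.subgroupOf (S : Subgroup G)) := IsCyclic.commGroup
  let φ : (S : Subgroup G) →* ((S : Subgroup G) ⧸ N.subgroupOf (S : Subgroup G)) :=
    QuotientGroup.mk' _
  have hiv : ∀ g : G, ∀ h : g⁻¹ * b * g ∈ (S : Subgroup G), Iv (φ ⟨_, h⟩) := fun g h => by
    refine ⟨?_, fun e => hN g h ?_⟩
    · rw [← map_mul, ← map_one φ]
      congr 1
      exact Subtype.ext (hb.cj g).1
    · have := (QuotientGroup.eq_one_iff _).mp e
      rwa [mem_subgroupOf] at this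
  have h1 : (1 : G)⁻¹ * b * 1 ∈ (S : Subgroup G) := by
    rw [inv_one, one_mul, mul_one]; exact hbS
  have hz := hiv 1 h1
  have key := H11.transfer_eq_pow_of_mod φ (g := b) (a := φ ⟨_, h1⟩) (fun k x h => by
    rcases Nat.even_or_odd' k with ⟨j, rfl | rfl⟩
    · have e1 : b ^ (2 * j) = 1 := by rw [pow_mul, pow_two, hb.1, one_pow]
      rw [pow_mul (φ _), pow_two, hz.1, one_pow, ← map_one φ]
      congr 1
      exact Subtype.ext (by simp [e1])
    · have e1 : b ^ (2 * j + 1) = b := by rw [pow_succ, pow_mul, pow_two, hb.1, one_pow, one_mul]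
      rw [pow_succ (φ _), pow_mul (φ _), pow_two, hz.1, one_pow, one_mul]
      have h' : x⁻¹ * b * x ∈ (S : Subgroup G) := by rwa [e1] at h
      rw [← cyc_inv (hiv x h') hz]
      congr 1
      exact Subtype.ext (by simp [e1]))
  rw [H11.map_eq_one_of_mem_commutator _ (by rw [hG]; trivial)] at key
  have hodd : Odd (S : Subgroup G).index :=
    Nat.odd_iff.mpr (by have := S.not_dvd_index; omega)
  obtain ⟨j, hj⟩ := hodd
  rw [hj, pow_succ, pow_mul, pow_two, hz.1, one_pow, one_mul] at key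
  exact hz.2 key.symm

theorem free_dvd {P : Type*} [MulAction G P] (K : Subgroup G) (Y : Finset P)
    (hY : ∀ k ∈ K, ∀ p ∈ Y, k • p ∈ Y) (hf : ∀ k ∈ K, ∀ p ∈ Y, k • p = p → k = 1) :
    Nat.card K ∣ Y.card := by
  letI : MulAction K Y :=
    { smul := fun k p => ⟨(k : G) • (p : P), hY k k.2 p p.2⟩
      one_smul := fun p => Subtype.ext (one_smul G (p : P))
      mul_smul := fun a b p => Subtype.ext (mul_smul (a : G) (b : G) (p : P)) }
  have e := MulAction.selfEquivOrbitsQuotientProd (G := K) (X := Y) (fun p => by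
    rw [eq_bot_iff]
    intro k hk
    exact Subtype.ext (hf k k.2 p p.2 (congrArg Subtype.val hk)))
  have := Nat.card_congr e
  rw [Nat.card_prod, Nat.card_eq_fintype_card (α := Y), Fintype.card_coe] at this
  exact ⟨_, by rw [this, mul_comm]⟩

theorem syl_cent [Finite G] (S : Sylow 2 G) {h : G} (hc : ∀ s ∈ S, s * h = h * s)
    (D : Subgroup G) (hD : IsPGroup 2 D) (hDh : ∀ d ∈ D, d * h = h * d) :
    ∃ c : G, c * h = h * c ∧ ∀ d ∈ D, c⁻¹ * d * c ∈ S := by
  have hS : (S : Subgroup G) ≤ centralizer {h} := fun s hs =>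
    mem_centralizer_singleton_iff.mpr (hc s hs)
  have hD' : IsPGroup 2 (D.subgroupOf (centralizer {h})) := hD.comap_subtype
  obtain ⟨Q, hQ⟩ := hD'.exists_le_sylow
  obtain ⟨c, hc'⟩ := MulAction.exists_smul_eq (centralizer ({h} : Set G)) Q (S.subtype hS)
  refine ⟨(c : G)⁻¹, ?_, fun d hd => ?_⟩
  · exact mem_centralizer_singleton_iff.mp (inv_mem c.2)
  · have h1 : (⟨d, mem_centralizer_singleton_iff.mpr (hDh d hd)⟩ : centralizer ({h} : Set G)) ∈ Q :=
      hQ (mem_subgroupOf.mpr hd)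
    have h2 : c * ⟨d, mem_centralizer_singleton_iff.mpr (hDh d hd)⟩ * c⁻¹ ∈ S.subtype hS := by
      rw [← hc']
      exact ⟨_, h1, rfl⟩
    have h3 : (c : G) * d * (c : G)⁻¹ ∈ (S : Subgroup G) := h2
    rw [inv_inv]; exact h3

theorem zstar [Finite G] [IsSimpleGroup G] (hG : ¬ IsMulCommutative G) (S : Sylow 2 G) {t : G}
    (ht : Iv t) (htS : t ∈ S) : ∃ g : G, g⁻¹ * t * g ∈ S ∧ g⁻¹ * t * g ≠ t := by
  by_contra hno
  push Not at hno
  obtain ⟨N, hN, hodd, hc⟩ := S0215.result S t ht.ord htS (fun g hg => by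
    have := hno g⁻¹ (by simpa using hg)
    simpa using this)
  rcases hN.eq_bot_or_eq_top with rfl | rfl
  · have hz : t ∈ center G := mem_center_iff.mpr fun g => by
      have := mem_bot.mp (hc g)
      calc g * t = (t * g * t⁻¹ * g⁻¹)⁻¹ * (t * g) := by group
        _ = t * g := by rw [this]; group
    rcases (inferInstance : (center G).Normal).eq_bot_or_eq_top with e | e
    · rw [e] at hz; exact ht.2 (mem_bot.mp hz)
    · exact hG ⟨⟨fun a b => (mem_center_iff.mp (by rw [e]; trivial : b ∈ center G) a)⟩⟩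
  · rw [card_top] at hodd
    have := orderOf_dvd_natCard t
    rw [ht.ord] at this
    exact (Nat.not_even_iff_odd.mpr hodd) (even_iff_two_dvd.mpr this)

theorem perf [IsSimpleGroup G] (hG : ¬ IsMulCommutative G) : commutator G = ⊤ := by
  rcases (inferInstance : (commutator G).Normal).eq_bot_or_eq_top with e | e
  · exfalso
    refine hG ⟨⟨fun a b => ?_⟩⟩
    have : ⁅a, b⁆ ∈ commutator G := commutator_mem_commutator (mem_top a) (mem_top b)
    rw [e, mem_bot, commutatorElement_eq_one_iff_mul_comm] at this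
    exact this
  · exact e

end Cfsg.Agent.Ov
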