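import Cfsg.Agent.Ov.T1
import Cfsg.Agent.S0016

set_option autoImplicit false

namespace Cfsg.Agent.Ov
open Subgroup

variable {G X : Type*} [Group G] [MulAction G X]

/-- a homology: an involution with two fixed points on the oval -/
def Hm (O : Finset X) (t : G) : Prop := Iv t ∧ (F O t).card = 2

/-- the permutation facts used to remove Baer involutions -/
structure BR (G : Type*) {X : Type*} [Group G] [MulAction G X] (O : Finset X) (m : ℕ) : Prop where
  inv : ∀ g : G, ∀ p ∈ O, g • p ∈ O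
  m4 : m % 4 = 1
  m5 : 5 ≤ m
  a1 : ∀ t : G, Iv t → (F O t).card = 2 ∨ (F O t).card = m + 1
  a0 : ∀ t t' : G, Hm O t → Iv t' → F O t = F O t' → t = t'
  a2 : ∀ t t' : G, Hm O t → Hm O t' → t ≠ t' → (F O (t * t')).card ≤ 2
  a3 : ∀ b b' : G, Iv b → Iv b' → b ≠ b' → b * b' = b' * b → (F O b).card = m + 1 →
    (F O b').card = m + 1 → (F O (b * b')).card = m + 1 → False
  a4 : ∀ b a a' : G, Iv b → a * a = b → a' * a' = b → a * a' * (a * a') = b →
    (F O b).card = m + 1 → ∀ p q r : X, p ≠ q → p ≠ r → q ≠ r → p ∈ F O a → q ∈ F O a →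
    r ∈ F O a → p ∈ F O a' → q ∈ F O a' → r ∈ F O a' → False

theorem Iv.mul {t t' : G} (h : Iv t) (h' : Iv t') (hne : t ≠ t') (hc : t * t' = t' * t) :
    Iv (t * t') := by
  refine ⟨?_, fun e => hne ?_⟩
  · calc t * t' * (t * t') = t * (t' * t) * t' := by group
      _ = (t * t) * (t' * t') := by rw [← hc]; group
      _ = 1 := by rw [h.1, h'.1, one_mul]
  · rw [eq_inv_of_mul_eq_one_left e, h'.inv]

theorem three_le {O : Finset X} {c : G} {p q r : X} (pq : p ≠ q) (pr : p ≠ r) (qr : q ≠ r)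
    (hp : p ∈ F O c) (hq : q ∈ F O c) (hr : r ∈ F O c) : 3 ≤ (F O c).card := by
  classical
  have : ({p, q, r} : Finset X) ⊆ F O c := by
    intro x hx
    simp only [Finset.mem_insert, Finset.mem_singleton] at hx
    rcases hx with rfl | rfl | rfl <;> assumption
  have h := Finset.card_le_card this
  rwa [Finset.card_eq_three.mpr ⟨p, q, r, pq, pr, qr, rfl⟩] at h

theorem ex_iv [Finite G] {S : Subgroup G} (hS : IsPGroup 2 S) {s : G} (hs : s ∈ S) (h1 : s ≠ 1) :
    ∃ j : ℕ, Iv (s ^ j) := by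
  obtain ⟨k, hk⟩ := (IsPGroup.iff_orderOf.mp hS) ⟨s, hs⟩
  rw [← Subgroup.orderOf_coe] at hk
  simp only at hk
  rcases k with _ | k
  · exact absurd (orderOf_eq_one_iff.mp hk) h1
  · refine ⟨2 ^ k, ?_, ?_⟩
    · rw [← pow_add, ← two_mul, ← pow_succ', ← hk, pow_orderOf_eq_one]
    · exact pow_ne_one_of_lt_orderOf (by positivity) (by rw [hk]; exact Nat.pow_lt_pow_right (by norm_num) (by omega))

namespace BR
variable {O : Finset X} {m : ℕ} (h : BR G O m)
include h

theorem memc {t g : G} {p : X} : p ∈ F O (g⁻¹ * t * g) ↔ g • p ∈ F O t := by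
  rw [mem_F, mem_F]
  constructor
  · rintro ⟨h1, h2⟩
    refine ⟨h.inv g p h1, ?_⟩
    conv_rhs => rw [← h2]
    simp [mul_smul]
  · rintro ⟨h1, h2⟩
    refine ⟨by simpa using h.inv g⁻¹ _ h1, ?_⟩
    rw [mul_smul, mul_smul, h2, inv_smul_smul]

theorem cardc (t g : G) : (F O (g⁻¹ * t * g)).card = (F O t).card := by
  refine Finset.card_bij (fun p _ => g • p) (fun p hp => h.memc.mp hp)
    (fun a _ b _ e => MulAction.injective g e) (fun q hq => ⟨g⁻¹ • q, h.memc.mpr (by simpa), by simp⟩)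

theorem hcj {t : G} (ht : Hm O t) (g : G) : Hm O (g⁻¹ * t * g) :=
  ⟨ht.1.cj g, by rw [h.cardc]; exact ht.2⟩

theorem hcj' {t g : G} (ht : Hm O (g⁻¹ * t * g)) : Hm O t := by
  have := h.hcj ht g⁻¹
  simpa [mul_assoc] using this

theorem of_le {t : G} (ht : Iv t) (h2 : (F O t).card ≤ 2) : Hm O t := by
  refine ⟨ht, (h.a1 t ht).resolve_right ?_⟩
  have := h.m5
  omega

theorem baer {t : G} (ht : Iv t) (hn : ¬ Hm O t) : (F O t).card = m + 1 :=
  (h.a1 t ht).resolve_left fun e => hn ⟨ht, e⟩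

theorem hmul {t t' : G} (ht : Hm O t) (ht' : Hm O t') (hne : t ≠ t') (hc : t * t' = t' * t) :
    Hm O (t * t') := h.of_le (ht.1.mul ht'.1 hne hc) (h.a2 t t' ht ht' hne)

theorem bh {b t : G} (hb : Iv b) (hn : ¬ Hm O b) (ht : Hm O t) (hc : b * t = t * b) :
    Iv (b * t) ∧ ¬ Hm O (b * t) := by
  have hne : b ≠ t := fun e => hn (e ▸ ht)
  refine ⟨hb.mul ht.1 hne hc, fun hh => hn ?_⟩
  have := h.hmul hh ht (fun e => hb.2 (by simpa using e))
    (by rw [mul_assoc, ht.1.1, ← mul_assoc, ← hc, mul_assoc, ht.1.1])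
  rwa [mul_assoc, ht.1.1, mul_one] at this

theorem bb {b b' : G} (hb : Iv b) (hn : ¬ Hm O b) (hb' : Iv b') (hn' : ¬ Hm O b') (hne : b ≠ b')
    (hc : b * b' = b' * b) : Hm O (b * b') := by
  by_contra hh
  exact h.a3 b b' hb hb' hne hc (h.baer hb hn) (h.baer hb' hn') (h.baer (hb.mul hb' hne hc) hh)

theorem pp {v v' : G} (hv : Hm O v) (hv' : Hm O v') {p q r : X} (pq : p ≠ q) (pr : p ≠ r)
    (qr : q ≠ r) (hp : p ∈ F O (v * v')) (hq : q ∈ F O (v * v')) (hr : r ∈ F O (v * v')) :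
    v * v' = 1 := by
  by_cases e : v = v'
  · rw [← e, hv.1.1]
  · have := h.a2 v v' hv hv' e
    have := three_le pq pr qr hp hq hr
    omega

theorem sw {t g : G} {a b : X} (hF : ∀ p, p ∈ F O t ↔ p = a ∨ p = b) (ab : a ≠ b)
    (hc : g * t = t * g) : (g • a = a ∧ g • b = b) ∨ (g • a = b ∧ g • b = a) := by
  have e : g⁻¹ * t * g = t := by rw [mul_assoc, ← hc]; group
  have h1 : g • a ∈ F O t := h.memc.mp (by rw [e]; exact (hF a).mpr (Or.inl rfl))
  have h2 : g • b ∈ F O t := h.memc.mp (by rw [e]; exact (hF b).mpr (Or.inr rfl))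
  have h3 : g • a ≠ g • b := fun e => ab (MulAction.injective g e)
  rcases (hF _).mp h1 with e1 | e1 <;> rcases (hF _).mp h2 with e2 | e2
  · exact absurd (e1.trans e2.symm) h3
  · exact Or.inl ⟨e1, e2⟩
  · exact Or.inr ⟨e1, e2⟩
  · exact absurd (e1.trans e2.symm) h3

theorem eqh {t v : G} {a b : X} (ht : Hm O t) (hF : ∀ p, p ∈ F O t ↔ p = a ∨ p = b)
    (hv : Hm O v) (ha : v • a = a) (hb : v • b = b) : v = t := by
  refine (h.a0 t v ht hv.1 (Finset.eq_of_subset_of_card_le (fun p hp => ?_) (by rw [ht.2, hv.2]))).symm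
  have hO := (mem_F.mp hp).1
  rcases (hF p).mp hp with rfl | rfl
  · exact mem_F.mpr ⟨hO, ha⟩
  · exact mem_F.mpr ⟨hO, hb⟩

theorem hsw {t v : G} {a b : X} (ht : Hm O t) (hF : ∀ p, p ∈ F O t ↔ p = a ∨ p = b) (ab : a ≠ b)
    (hv : Hm O v) (hne : v ≠ t) (hc : v * t = t * v) : v • a = b ∧ v • b = a :=
  (h.sw hF ab hc).resolve_left fun e => hne (h.eqh ht hF hv e.1 e.2)

theorem cfix {t c : G} {a b : X} (ht : Hm O t) (hF : ∀ p, p ∈ F O t ↔ p = a ∨ p = b)
    (ha : c • a = a) (hb : c • b = b) : c * t = t * c := by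
  have hO : ∀ p, (p = a ∨ p = b) → t • p = p := fun p hp => (mem_F.mp ((hF p).mpr hp)).2
  have := h.eqh ht hF (h.hcj ht c) (by rw [mul_smul, mul_smul, ha, hO a (Or.inl rfl), inv_smul_eq_iff, ha])
    (by rw [mul_smul, mul_smul, hb, hO b (Or.inr rfl), inv_smul_eq_iff, hb])
  calc c * t = c * (c⁻¹ * t * c) := by rw [this]
    _ = t * c := by group

theorem cenH [Finite G] {S : Subgroup G} (hS : IsPGroup 2 S) {t : G} (ht : Hm O t) (htS : t ∈ S) :
    ∃ z ∈ S, Hm O z ∧ ∀ s ∈ S, s * z = z * s := by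
  classical
  let Y := {v : G // v ∈ S ∧ Hm O v}
  haveI : Fintype Y := Fintype.ofFinite Y
  letI : MulAction S Y :=
    { smul := fun s v => ⟨(s : G) * v * (s : G)⁻¹, mul_mem (mul_mem s.2 v.2.1) (inv_mem s.2),
        by simpa using h.hcj v.2.2 (s : G)⁻¹⟩
      one_smul := fun v => Subtype.ext (show (1 : G) * v * (1 : G)⁻¹ = v by simp)
      mul_smul := fun a b v => Subtype.ext
        (show ((a : G) * b) * v * ((a : G) * b)⁻¹ = a * (b * v * (b : G)⁻¹) * (a : G)⁻¹ by group) }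
  let σ : Y → Y := fun v => if e : (v : G) * t = t * v ∧ (v : G) ≠ t then
      ⟨v * t, mul_mem v.2.1 htS, h.hmul v.2.2 ht e.2 e.1⟩
    else ⟨t⁻¹ * v * t, mul_mem (mul_mem (inv_mem htS) v.2.1) htS, h.hcj v.2.2 t⟩
  have tt' := ht.1.1
  have hσ : ∀ v, σ (σ v) = v := fun v => by
    by_cases e : (v : G) * t = t * v ∧ (v : G) ≠ t
    · have e1 : (σ v : G) = v * t := by simp only [σ, dif_pos e]
      have e2 : (σ v : G) * t = t * σ v ∧ (σ v : G) ≠ t := by
        rw [e1]
        exact ⟨by rw [← mul_assoc, e.1], fun e' => v.2.2.1.2 (by simpa using e')⟩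
      apply Subtype.ext
      have e3 : (σ (σ v) : G) = σ v * t := by simp only [σ, dif_pos e2]
      rw [e3, e1, mul_assoc, tt', mul_one]
    · have e1 : (σ v : G) = t⁻¹ * v * t := by simp only [σ, dif_neg e]
      have e2 : ¬ ((σ v : G) * t = t * σ v ∧ (σ v : G) ≠ t) := by
        rw [e1]
        rintro ⟨h1, h2⟩
        refine e ⟨?_, fun e' => h2 (by rw [e']; group)⟩
        calc (v : G) * t = t * (t⁻¹ * v * t * t) * t⁻¹ := by group
          _ = t * v := by rw [h1]; group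
      apply Subtype.ext
      have e3 : (σ (σ v) : G) = t⁻¹ * σ v * t := by simp only [σ, dif_neg e2]
      rw [e3, e1, ht.1.inv]
      calc t * (t * v * t) * t = (t * t) * v * (t * t) := by group
        _ = v := by rw [tt']; group
  have hfix : ∀ v, σ v = v ↔ v = ⟨t, htS, ht⟩ := fun v => by
    constructor
    · intro e
      by_cases e0 : (v : G) * t = t * v ∧ (v : G) ≠ t
      · have e1 : (σ v : G) = v * t := by simp only [σ, dif_pos e0]
        rw [e] at e1
        exact absurd (by simpa using e1) ht.1.2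
      · have e1 : (σ v : G) = t⁻¹ * v * t := by simp only [σ, dif_neg e0]
        rw [e] at e1
        by_contra hne
        refine e0 ⟨?_, fun e' => hne (Subtype.ext e')⟩
        calc (v : G) * t = t * (t⁻¹ * v * t) := by group
          _ = t * v := by rw [← e1]
    · rintro rfl
      apply Subtype.ext
      have e0 : ¬ (t * t = t * t ∧ t ≠ t) := by simp
      have e1 : (σ ⟨t, htS, ht⟩ : G) = t⁻¹ * t * t := by simp only [σ, dif_neg e0]
      rw [e1]; group
  have h1 := Equiv.Perm.card_fixedPoints_modEq (α := Y) (f := σ) (p := 2) (n := 1)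
    (by funext v; exact hσ v)
  have h2 : Fintype.card (Function.fixedPoints σ) = 1 := by
    rw [Fintype.card_eq_one_iff]
    exact ⟨⟨⟨t, htS, ht⟩, (hfix _).mpr rfl⟩, fun v => Subtype.ext ((hfix _).mp v.2)⟩
  have h3 : ¬ 2 ∣ Nat.card Y := by
    rw [Nat.card_eq_fintype_card]
    have : Fintype.card Y % 2 = 1 % 2 := by rw [← h2]; exact h1
    omega
  obtain ⟨z, hz⟩ := hS.nonempty_fixed_point_of_prime_not_dvd_card Y h3
  refine ⟨z, z.2.1, z.2.2, fun s hs => ?_⟩
  have : s * z * s⁻¹ = z := congrArg Subtype.val (hz ⟨s, hs⟩)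
  calc s * z = s * z * s⁻¹ * s := by group
    _ = z * s := by rw [this]

end BR

end Cfsg.Agent.Ov
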