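import Cfsg.Agent.Ov.T2

set_option autoImplicit false

namespace Cfsg.Agent.Ov
open Subgroup

variable {G X : Type*} [Group G] [MulAction G X]

/-- a central homology `h` and a second homology `u` of a `2`-group `S` -/
structure CX (O : Finset X) (m : ℕ) (S : Subgroup G) (h u : G) (P Q P' Q' : X) : Prop
    extends BR G O m where
  p2 : IsPGroup 2 S
  hS : h ∈ S
  uS : u ∈ S
  Hh : Hm O h
  Hu : Hm O u
  cen : ∀ s ∈ S, s * h = h * s
  ne : u ≠ h
  Fh : ∀ p, p ∈ F O h ↔ p = P ∨ p = Q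
  PQ : P ≠ Q
  Fu : ∀ p, p ∈ F O u ↔ p = P' ∨ p = Q'
  PQ' : P' ≠ Q'

/-- `u * x` is a homology of `S` other than `h` -/
def TA (O : Finset X) (S : Subgroup G) (h u x : G) : Prop := x ∈ S ∧ Hm O (u * x) ∧ u * x ≠ h

/-- the elements of `S` fixing the four points -/
def BB (S : Subgroup G) (P Q P' Q' : X) : Subgroup G :=
  S ⊓ MulAction.stabilizer G P ⊓ MulAction.stabilizer G Q ⊓ MulAction.stabilizer G P' ⊓
    MulAction.stabilizer G Q'

theorem mem_BB {S : Subgroup G} {P Q P' Q' : X} {c : G} : c ∈ BB S P Q P' Q' ↔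
    c ∈ S ∧ c • P = P ∧ c • Q = Q ∧ c • P' = P' ∧ c • Q' = Q' := by
  simp [BB, and_assoc]

namespace CX
variable {O : Finset X} {m : ℕ} {S : Subgroup G} {h u : G} {P Q P' Q' : X}
  (c : CX O m S h u P Q P' Q')
include c

theorem uu : u * u = 1 := c.Hu.1.1
theorem hh : h * h = 1 := c.Hh.1.1
theorem PO : P ∈ O := (mem_F.mp ((c.Fh P).mpr (Or.inl rfl))).1
theorem QO : Q ∈ O := (mem_F.mp ((c.Fh Q).mpr (Or.inr rfl))).1
theorem P'O : P' ∈ O := (mem_F.mp ((c.Fu P').mpr (Or.inl rfl))).1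
theorem Q'O : Q' ∈ O := (mem_F.mp ((c.Fu Q').mpr (Or.inr rfl))).1
theorem hP : h • P = P := (mem_F.mp ((c.Fh P).mpr (Or.inl rfl))).2
theorem hQ : h • Q = Q := (mem_F.mp ((c.Fh Q).mpr (Or.inr rfl))).2
theorem uP' : u • P' = P' := (mem_F.mp ((c.Fu P').mpr (Or.inl rfl))).2
theorem uQ' : u • Q' = Q' := (mem_F.mp ((c.Fu Q').mpr (Or.inr rfl))).2

theorem vsw {v : G} (hv : Hm O v) (hvS : v ∈ S) (hne : v ≠ h) : v • P = Q ∧ v • Q = P :=
  c.toBR.hsw c.Hh c.Fh c.PQ hv hne (c.cen v hvS)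

theorem uP : u • P = Q ∧ u • Q = P := c.vsw c.Hu c.uS c.ne

theorem hP' : h • P' = Q' ∧ h • Q' = P' :=
  c.toBR.hsw c.Hu c.Fu c.PQ' c.Hh c.ne.symm (c.cen u c.uS).symm

theorem PP' : P ≠ P' := fun e => c.PQ (by have := c.uP'; rw [← e, c.uP.1] at this; exact this.symm)
theorem QP' : Q ≠ P' := fun e => c.PQ (by have := c.uP'; rw [← e, c.uP.2] at this; exact this)

theorem ssw {s : G} (hs : s ∈ S) : (s • P = P ∧ s • Q = Q) ∨ (s • P = Q ∧ s • Q = P) :=
  c.toBR.sw c.Fh c.PQ (c.cen s hs)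

theorem fixQ {s : G} (hs : s ∈ S) (e : s • P = P) : s • Q = Q := by
  rcases c.ssw hs with e' | e'
  · exact e'.2
  · exact absurd (e.symm.trans e'.1) c.PQ

theorem Bu {b : G} (hb : b ∈ BB S P Q P' Q') : b * u = u * b :=
  c.toBR.cfix c.Hu c.Fu (mem_BB.mp hb).2.2.2.1 (mem_BB.mp hb).2.2.2.2

theorem dec {s : G} (hs : s ∈ S) (e : s • P = P) (hc : s * u = u * s) :
    s ∈ BB S P Q P' Q' ∨ s * h ∈ BB S P Q P' Q' := by
  rcases c.toBR.sw c.Fu c.PQ' hc with e' | e'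
  · exact Or.inl (mem_BB.mpr ⟨hs, e, c.fixQ hs e, e'.1, e'.2⟩)
  · refine Or.inr (mem_BB.mpr ⟨mul_mem hs c.hS, ?_, ?_, ?_, ?_⟩) <;>
      simp only [mul_smul, c.hP, c.hQ, c.hP'.1, c.hP'.2, e, c.fixQ hs e, e'.1, e'.2]

theorem ppB {v v' : G} (hv : Hm O v) (hv' : Hm O v') (hb : v * v' ∈ BB S P Q P' Q') : v * v' = 1 :=
  c.toBR.pp hv hv' c.PQ c.PP' c.QP' (mem_F.mpr ⟨c.PO, (mem_BB.mp hb).2.1⟩)
    (mem_F.mpr ⟨c.QO, (mem_BB.mp hb).2.2.1⟩) (mem_F.mpr ⟨c.P'O, (mem_BB.mp hb).2.2.2.1⟩)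

theorem nHB {b : G} (hb : b ∈ BB S P Q P' Q') : ¬ Hm O b := fun hh => by
  have := three_le c.PQ c.PP' c.QP' (mem_F.mpr ⟨c.PO, (mem_BB.mp hb).2.1⟩)
    (mem_F.mpr ⟨c.QO, (mem_BB.mp hb).2.2.1⟩) (mem_F.mpr ⟨c.P'O, (mem_BB.mp hb).2.2.2.1⟩)
  rw [hh.2] at this
  omega

theorem ivh {v v' : G} (hv : Hm O v) (hv' : Hm O v') (hs : v * v' ∈ S) (e : (v * v') • P = P)
    (hi : Iv (v * v')) : v * v' = h := by
  have hne : v ≠ v' := fun e => hi.2 (by rw [← e, hv.1.1])
  exact c.toBR.eqh c.Hh c.Fh (c.toBR.of_le hi (c.a2 v v' hv hv' hne)) e (c.fixQ hs e)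

theorem zz {v v' : G} (hv : Hm O v) (hv' : Hm O v') (hs : v * v' ∈ S) (e : (v * v') • P = P)
    (hc : v * v' * u = u * (v * v')) : v * v' = 1 ∨ v * v' = h := by
  have h2 : v * v' * (v * v') ∈ BB S P Q P' Q' := by
    rcases c.dec hs e hc with hb | hb
    · exact mul_mem hb hb
    · have := mul_mem hb hb
      have e1 : v * v' * h * (v * v' * h) = v * v' * (v * v') := by
        calc v * v' * h * (v * v' * h) = v * v' * (h * (v * v')) * h := by group
          _ = v * v' * (v * v') * (h * h) := by rw [← c.cen _ hs]; group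
          _ = _ := by rw [c.hh, mul_one]
      rwa [e1] at this
  have e2 : v * v' * (v * v') = v * (v'⁻¹ * v * v') := by rw [hv'.1.inv]; group
  rw [e2] at h2
  have h3 := c.ppB hv (c.toBR.hcj hv v') h2
  by_cases h1 : v * v' = 1
  · exact Or.inl h1
  · exact Or.inr (c.ivh hv hv' hs e ⟨e2.trans h3, h1⟩)

theorem tfix {x : G} (hx : TA O S h u x) : x • P = P := by
  have := (c.vsw hx.2.1 (mul_mem c.uS hx.1) hx.2.2).1
  rw [mul_smul] at this
  exact MulAction.injective u (this.trans c.uP.1.symm)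

theorem tinv {x : G} (hx : TA O S h u x) : u * x = x⁻¹ * u := by
  have := hx.2.1.1.1
  calc u * x = (u * x)⁻¹ := (inv_eq_of_mul_eq_one_right this).symm
    _ = x⁻¹ * u := by rw [mul_inv_rev, c.Hu.1.inv]

theorem ta_of {x : G} (hS : x ∈ S) (hH : Hm O (u * x)) (e : x • P = P) : TA O S h u x :=
  ⟨hS, hH, fun e' => c.PQ (by have := c.hP; rw [← e', mul_smul, e, c.uP.1] at this; exact this.symm)⟩

theorem tpinv {x : G} (hx : TA O S h u x) (j : ℕ) : u * x ^ j = (x ^ j)⁻¹ * u := by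
  induction j with
  | zero => simp
  | succ j ih =>
    calc u * x ^ (j + 1) = u * x ^ j * x := by group
      _ = (x ^ j)⁻¹ * (u * x) := by rw [ih]; group
      _ = _ := by rw [c.tinv hx]; group

theorem tpow {x : G} (hx : TA O S h u x) (j : ℕ) : TA O S h u (x ^ j) := by
  refine c.ta_of (pow_mem hx.1 j) ?_
    (MulAction.mem_stabilizer_iff.mp (pow_mem (MulAction.mem_stabilizer_iff.mpr (c.tfix hx)) j))
  rcases Nat.even_or_odd' j with ⟨i, rfl | rfl⟩
  · have : u * x ^ (2 * i) = (x ^ i)⁻¹ * u * x ^ i := by rw [← c.tpinv hx]; group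
    rw [this]; exact c.toBR.hcj c.Hu _
  · have : u * x ^ (2 * i + 1) = (x ^ i)⁻¹ * (u * x) * x ^ i := by
      rw [← mul_assoc, ← c.tpinv hx]; group
    rw [this]; exact c.toBR.hcj hx.2.1 _

theorem tiv {x : G} (hx : TA O S h u x) (hi : Iv x) : x = h := by
  have e : u * (u * x) = x := by rw [← mul_assoc, c.uu, one_mul]
  have := c.ivh c.Hu hx.2.1 (by rw [e]; exact hx.1) (by rw [e]; exact c.tfix hx) (by rw [e]; exact hi)
  rwa [e] at this

theorem th : TA O S h u h :=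
  c.ta_of c.hS (c.toBR.hmul c.Hu c.Hh c.ne (c.cen u c.uS)) c.hP

theorem cyc [Finite G] : ∃ x : G, ∀ a, a ∈ zpowers x ↔ TA O S h u a := by
  obtain ⟨x, hx, hmax⟩ := Set.exists_max_image {a | TA O S h u a} orderOf (Set.toFinite _) ⟨h, c.th⟩
  have x1 : x ≠ 1 := fun e => by
    have := hmax h c.th
    rw [e, orderOf_one, c.Hh.1.ord] at this
    omega
  have hhx : h ∈ zpowers x := by
    obtain ⟨j, hj⟩ := ex_iv c.p2 hx.1 x1
    rw [← c.tiv (c.tpow hx j) hj]
    exact npow_mem_zpowers x j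
  refine ⟨x, fun a => ⟨fun ha => ?_, ?_⟩⟩
  · obtain ⟨j, rfl⟩ := mem_powers_iff_mem_zpowers.mpr ha
    exact c.tpow hx j
  induction hn : orderOf a using Nat.strong_induction_on generalizing a with
  | _ n ih =>
  intro ha
  by_cases a1 : a = 1
  · rw [a1]; exact one_mem _
  obtain ⟨k, hk⟩ := (IsPGroup.iff_orderOf.mp c.p2) ⟨a, ha.1⟩
  rw [← Subgroup.orderOf_coe] at hk
  simp only at hk
  have hlt : orderOf (a ^ 2) < orderOf a := by
    rcases k with _ | k
    · exact absurd (orderOf_eq_one_iff.mp hk) a1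
    · rw [orderOf_pow_of_dvd (by norm_num) (by rw [hk]; exact dvd_pow_self 2 (by omega))]
      exact Nat.div_lt_self (orderOf_pos a) (by norm_num)
  obtain ⟨j, hj⟩ := mem_powers_iff_mem_zpowers.mpr (ih _ (hn ▸ hlt) (a ^ 2) rfl (c.tpow ha 2))
  simp only at hj
  rcases Nat.even_or_odd' j with ⟨i, rfl | rfl⟩
  · have hi := c.tpow hx i
    have e2 : (u * a) * (u * x ^ i) = a⁻¹ * x ^ i := by
      rw [c.tinv ha, mul_assoc, ← mul_assoc u, c.uu, one_mul]
    have e3 : (u * a) * (u * x ^ i) * u = u * ((u * a) * (u * x ^ i)) := by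
      have e4 : a * a = x ^ i * x ^ i := by rw [← pow_two, ← hj]; group
      have e5 : x ^ i * u = u * (x ^ i)⁻¹ := by
        calc x ^ i * u = x ^ i * (u * x ^ i) * (x ^ i)⁻¹ := by group
          _ = _ := by rw [c.tinv hi]; group
      rw [e2]
      calc a⁻¹ * x ^ i * u = (a⁻¹ * u) * (x ^ i)⁻¹ := by rw [mul_assoc, e5]; group
        _ = u * a⁻¹ * (a * a) * (x ^ i)⁻¹ := by rw [← c.tinv ha]; group
        _ = _ := by rw [e4]; group
    have hxi := npow_mem_zpowers x i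
    rcases c.zz ha.2.1 hi.2.1 (by rw [e2]; exact mul_mem (inv_mem ha.1) hi.1)
      (by rw [e2, mul_smul, c.tfix hi, inv_smul_eq_iff, c.tfix ha]) e3 with e | e
    · rw [e2, inv_mul_eq_one] at e
      rw [e]; exact hxi
    · rw [e2] at e
      have : a = x ^ i * h⁻¹ := by rw [← e]; group
      rw [this]; exact mul_mem hxi (inv_mem hhx)
  · exfalso
    obtain ⟨l, hl⟩ := (IsPGroup.iff_orderOf.mp c.p2) ⟨x, hx.1⟩
    rw [← Subgroup.orderOf_coe] at hl
    simp only at hl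
    have : orderOf (x ^ (2 * i + 1)) = orderOf x :=
      Nat.Coprime.orderOf_pow (by rw [hl]; exact Nat.Coprime.pow_left _ (by simp))
    have := hmax a ha
    rw [hj] at *
    omega

theorem Binv {b b' : G} (hb : b ∈ BB S P Q P' Q') (hb' : b' ∈ BB S P Q P' Q') (hi : Iv b)
    (hi' : Iv b') (hc : b * b' = b' * b) : b = b' := by
  by_contra hne
  exact c.nHB (mul_mem hb hb') (c.toBR.bb hi (c.nHB hb) hi' (c.nHB hb') hne hc)

theorem Bcyc [Finite G] : ∃ β ∈ BB S P Q P' Q', ∀ b ∈ BB S P Q P' Q', ∃ k : ℕ, β ^ k = b := by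
  have hle : BB S P Q P' Q' ≤ S := fun b hb => (mem_BB.mp hb).1
  have hp : IsPGroup 2 (BB S P Q P' Q') := c.p2.to_le hle
  have huniq : ∀ a a' : BB S P Q P' Q', Iv a → Iv a' → a = a' := fun a a' ha ha' => by
    haveI : Nontrivial (BB S P Q P' Q') := ⟨⟨a, 1, ha.2⟩⟩
    haveI := hp.center_nontrivial
    obtain ⟨z, hz⟩ := exists_ne (1 : center (BB S P Q P' Q'))
    obtain ⟨j, hj⟩ := ex_iv (hp.to_subgroup (center _)) z.2 (fun e => hz (Subtype.ext e))
    have hzc := pow_mem z.2 j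
    have cv : ∀ {y : BB S P Q P' Q'}, Iv y → Iv (y : G) := fun {y} hy =>
      ⟨congrArg Subtype.val hy.1, fun e => hy.2 (Subtype.ext e)⟩
    have key : ∀ y : BB S P Q P' Q', Iv y → y = z.1 ^ j := fun y hy =>
      Subtype.ext (c.Binv y.2 (z.1 ^ j).2 (cv hy) (cv hj)
        (congrArg Subtype.val (mem_center_iff.mp hzc y)))
    rw [key a ha, key a' ha']
  rcases S0016.result 2 hp (fun H K hH hK => by
      have two : ∀ H : Subgroup (BB S P Q P' Q'), Nat.card H = 2 → ∃ a, Iv a ∧ H = zpowers a := by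
        intro H hH
        haveI : Nontrivial H := Finite.one_lt_card_iff_nontrivial.mp (by omega)
        obtain ⟨a, ha⟩ := exists_ne (1 : H)
        have h2 : a * a = 1 := by rw [← pow_two, ← hH, pow_card_eq_one']
        have hi : Iv a.1 := ⟨congrArg Subtype.val h2, fun e => ha (Subtype.ext e)⟩
        refine ⟨a.1, hi, (eq_of_le_of_card_ge (zpowers_le.mpr a.2) ?_).symm⟩
        rw [Nat.card_zpowers, hi.ord, hH]
      obtain ⟨a, ha, rfl⟩ := two H hH
      obtain ⟨a', ha', rfl⟩ := two K hK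
      rw [huniq a a' ha ha']) with hc | ⟨-, n, ⟨e⟩⟩
  · obtain ⟨β, hβ⟩ := hc.exists_generator
    refine ⟨β, β.2, fun b hb => ?_⟩
    obtain ⟨k, hk⟩ := mem_powers_iff_mem_zpowers.mpr (hβ ⟨b, hb⟩)
    exact ⟨k, congrArg Subtype.val hk⟩
  · rcases n with _ | n
    · haveI : IsCyclic (QuaternionGroup (2 ^ 0)) := QuaternionGroup.quaternionGroup_one_isCyclic
      obtain ⟨β, hβ⟩ := (isCyclic_of_surjective e.symm e.symm.surjective).exists_generator
      refine ⟨β, β.2, fun b hb => ?_⟩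
      obtain ⟨k, hk⟩ := mem_powers_iff_mem_zpowers.mpr (hβ ⟨b, hb⟩)
      exact ⟨k, congrArg Subtype.val hk⟩
    · exfalso
      let N := 2 ^ (n + 1)
      let z : QuaternionGroup N := .a N
      let a1 : QuaternionGroup N := .xa 0
      let a2 : QuaternionGroup N := .xa (2 ^ n : ℕ)
      have r1 : a1 * a1 = z := by simp [a1, z]
      have r2 : a2 * a2 = z := by simp [a2, z]
      have hN : ((N : ℕ) : ZMod (2 * N)) + N = 0 := by
        rw [← two_mul]; exact_mod_cast ZMod.natCast_self (2 * N)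
      have r3 : a1 * a2 * (a1 * a2) = z := by
        simp only [a1, a2, z, QuaternionGroup.xa_mul_xa, QuaternionGroup.a_mul_a]
        congr 1
        have : ((N : ℕ) : ZMod (2 * N)) = (2 ^ n : ℕ) + (2 ^ n : ℕ) := by
          rw [← Nat.cast_add]; congr 1; simp only [N]; ring
        linear_combination hN - this
      have hz : Iv z := by
        refine ⟨?_, fun e => ?_⟩
        · simp only [z, QuaternionGroup.a_mul_a, hN, QuaternionGroup.one_def]
        · have h1 : ((N : ℕ) : ZMod (2 * N)) = 0 := by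
            exact QuaternionGroup.a.inj (e.trans QuaternionGroup.one_def)
          have := Nat.le_of_dvd (by positivity) ((ZMod.natCast_eq_zero_iff _ _).mp h1)
          have : 0 < N := by positivity
          omega
      have hb : Iv ((e.symm z : BB S P Q P' Q') : G) := by
        refine ⟨?_, fun e' => hz.2 ?_⟩
        · rw [← coe_mul, ← map_mul, hz.1, map_one, coe_one]
        · exact e.symm.injective ((Subtype.ext e').trans (map_one _).symm)
      have m1 := mem_BB.mp (e.symm a1).2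
      have m2 := mem_BB.mp (e.symm a2).2
      exact c.a4 _ (e.symm a1 : BB S P Q P' Q') (e.symm a2 : BB S P Q P' Q') hb
        (by rw [← coe_mul, ← map_mul, r1]) (by rw [← coe_mul, ← map_mul, r2])
        (by rw [← coe_mul, ← coe_mul, ← map_mul, ← map_mul, r3])
        (c.toBR.baer hb (c.nHB (e.symm z).2)) P Q P' c.PQ c.PP' c.QP'
        (mem_F.mpr ⟨c.PO, m1.2.1⟩) (mem_F.mpr ⟨c.QO, m1.2.2.1⟩) (mem_F.mpr ⟨c.P'O, m1.2.2.2.1⟩)
        (mem_F.mpr ⟨c.PO, m2.2.1⟩) (mem_F.mpr ⟨c.QO, m2.2.2.1⟩) (mem_F.mpr ⟨c.P'O, m2.2.2.2.1⟩)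

end CX

end Cfsg.Agent.Ov
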