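import Cfsg.Agent.Ov.T3

set_option autoImplicit false

namespace Cfsg.Agent.Ov
open Subgroup

variable {G X : Type*} [Group G] [MulAction G X]

/-- `x` generates the rotations, `β` the planar complement -/
structure CY (O : Finset X) (m : ℕ) (S : Subgroup G) (h u : G) (P Q P' Q' : X) (x β : G) : Prop
    extends CX O m S h u P Q P' Q' where
  hA : ∀ a, a ∈ zpowers x ↔ TA O S h u a
  hβ : β ∈ BB S P Q P' Q'
  hB : ∀ b ∈ BB S P Q P' Q', ∃ k : ℕ, β ^ k = b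

/-- a square in `zpowers x` -/
def Sq (x a : G) : Prop := ∃ d ∈ zpowers x, a = d * d

/-- `s` keeps the class of `u` under `zpowers x` -/
def Ev (u x s : G) : Prop := ∃ d ∈ zpowers x, s⁻¹ * u * s = u * (d * d)

theorem zc {x a b : G} (ha : a ∈ zpowers x) (hb : b ∈ zpowers x) : a * b = b * a := by
  obtain ⟨i, rfl⟩ := ha
  obtain ⟨j, rfl⟩ := hb
  simp only
  group

theorem dich [Finite G] {x a : G} (ha : a ∈ zpowers x) : Sq x a ∨ Sq x (x * a) := by
  obtain ⟨j, rfl⟩ := mem_powers_iff_mem_zpowers.mpr ha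
  rcases Nat.even_or_odd' j with ⟨i, rfl | rfl⟩
  · exact Or.inl ⟨x ^ i, npow_mem_zpowers x i, by simp only; group⟩
  · exact Or.inr ⟨x ^ (i + 1), npow_mem_zpowers x _, by simp only; group⟩

theorem nn [Finite G] {x a a' : G} (ha : a ∈ zpowers x) (ha' : a' ∈ zpowers x) (h : ¬ Sq x a)
    (h' : ¬ Sq x a') : Sq x (a * a') := by
  obtain ⟨d, hd, e⟩ := (dich ha).resolve_left h
  obtain ⟨d', hd', e'⟩ := (dich ha').resolve_left h'
  refine ⟨d * d' * x⁻¹, mul_mem (mul_mem hd hd') (inv_mem (mem_zpowers x)), ?_⟩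
  obtain ⟨i, rfl⟩ := hd
  obtain ⟨j, rfl⟩ := hd'
  rw [eq_inv_mul_of_mul_eq e, eq_inv_mul_of_mul_eq e']
  simp only
  group

namespace CY
variable {O : Finset X} {m : ℕ} {S : Subgroup G} {h u : G} {P Q P' Q' : X} {x β : G}
  (c : CY O m S h u P Q P' Q' x β)
include c

theorem AS {a : G} (ha : a ∈ zpowers x) : a ∈ S := ((c.hA a).mp ha).1
theorem AP {a : G} (ha : a ∈ zpowers x) : a • P = P := c.toCX.tfix ((c.hA a).mp ha)
theorem ua {a : G} (ha : a ∈ zpowers x) : u * a = a⁻¹ * u := c.toCX.tinv ((c.hA a).mp ha)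
theorem au {a : G} (ha : a ∈ zpowers x) : a * u = u * a⁻¹ := by
  rw [c.ua (inv_mem ha), inv_inv]
theorem hAm : h ∈ zpowers x := (c.hA h).mpr c.toCX.th
theorem ui : u⁻¹ = u := c.Hu.1.inv

theorem tau {s a : G} (hs : s ∈ S) (ha : a ∈ zpowers x) :
    ∃ a' ∈ zpowers x, s⁻¹ * (u * a) * s = u * a' := by
  have h1 := (c.hA a).mp ha
  have e : u * (u * (s⁻¹ * (u * a) * s)) = s⁻¹ * (u * a) * s := by
    rw [← mul_assoc u u, c.toCX.uu, one_mul]
  refine ⟨u * (s⁻¹ * (u * a) * s), (c.hA _).mpr ⟨mul_mem c.uS (mul_mem (mul_mem (inv_mem hs)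
    (mul_mem c.uS h1.1)) hs), by rw [e]; exact c.toBR.hcj h1.2.1 s, ?_⟩, e.symm⟩
  rw [e]
  intro e'
  apply h1.2.2
  calc u * a = s * (s⁻¹ * (u * a) * s) * s⁻¹ := by group
    _ = h := by rw [e', c.cen s hs]; group

theorem tau1 {s : G} (hs : s ∈ S) : ∃ a' ∈ zpowers x, s⁻¹ * u * s = u * a' := by
  simpa using c.tau hs (one_mem _)

theorem Anorm {s a : G} (hs : s ∈ S) (ha : a ∈ zpowers x) : s⁻¹ * a * s ∈ zpowers x := by
  obtain ⟨a1, h1, e1⟩ := c.tau1 hs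
  obtain ⟨a2, h2, e2⟩ := c.tau hs ha
  have : s⁻¹ * a * s = a1⁻¹ * a2 := by
    calc s⁻¹ * a * s = (s⁻¹ * u * s)⁻¹ * (s⁻¹ * (u * a) * s) := by group
      _ = _ := by rw [e1, e2]; group
  rw [this]; exact mul_mem (inv_mem h1) h2

theorem Afree {a : G} (ha : a ∈ zpowers x) {p : X} (hp : p ∈ O) (h1 : p ≠ P) (h2 : p ≠ Q)
    (e : a • p = p) : a = 1 := by
  have e0 : u * (u * a) = a := by rw [← mul_assoc, c.toCX.uu, one_mul]
  have := c.toBR.pp c.Hu ((c.hA a).mp ha).2.1 c.PQ h1.symm h2.symm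
    (by rw [e0]; exact mem_F.mpr ⟨c.toCX.PO, c.AP ha⟩)
    (by rw [e0]; exact mem_F.mpr ⟨c.toCX.QO, c.toCX.fixQ (c.AS ha) (c.AP ha)⟩)
    (by rw [e0]; exact mem_F.mpr ⟨hp, e⟩)
  rwa [e0] at this

theorem AB {a : G} (ha : a ∈ zpowers x) (hb : a ∈ BB S P Q P' Q') : a = 1 :=
  c.Afree ha c.toCX.P'O c.toCX.PP'.symm c.toCX.QP'.symm (mem_BB.mp hb).2.2.2.1

/-- the dihedral group generated by the homologies -/
def T : Subgroup G where
  carrier := {s | s ∈ zpowers x ∨ u * s ∈ zpowers x}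
  one_mem' := Or.inl (one_mem _)
  mul_mem' := by
    have uau : ∀ a ∈ zpowers x, u * a * u ∈ zpowers x := fun a ha => by
      rw [c.ua ha, mul_assoc, c.toCX.uu, mul_one]; exact inv_mem ha
    rintro a b (ha | ha) (hb | hb)
    · exact Or.inl (mul_mem ha hb)
    · refine Or.inr ?_
      have := mul_mem (uau a ha) hb
      rwa [show u * a * u * (u * b) = u * a * (u * u) * b by group, c.toCX.uu, mul_one, mul_assoc] at this
    · exact Or.inr (by rw [← mul_assoc]; exact mul_mem ha hb)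
    · refine Or.inl ?_
      have := mul_mem (uau _ ha) hb
      rwa [show u * (u * a) * u * (u * b) = (u * u) * a * (u * u) * b by group, c.toCX.uu, mul_one,
        one_mul] at this
  inv_mem' := by
    rintro a (ha | ha)
    · exact Or.inl (inv_mem ha)
    · refine Or.inr ?_
      have h1 := ((c.hA _).mp ha).2.1.1
      rw [← mul_assoc, c.toCX.uu, one_mul] at h1
      show u * a⁻¹ ∈ _
      rwa [h1.inv]

theorem mem_T {s : G} : s ∈ c.T ↔ s ∈ zpowers x ∨ ∃ a ∈ zpowers x, s = u * a := by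
  refine or_congr_right ⟨fun hs => ⟨_, hs, by rw [← mul_assoc, c.toCX.uu, one_mul]⟩, ?_⟩
  rintro ⟨a, ha, rfl⟩
  rwa [← mul_assoc, c.toCX.uu, one_mul]

theorem TS {t : G} (ht : t ∈ c.T) : t ∈ S := by
  rcases c.mem_T.mp ht with ha | ⟨a, ha, rfl⟩
  · exact c.AS ha
  · exact mul_mem c.uS (c.AS ha)

theorem Tiv {t : G} (ht : t ∈ c.T) (hi : Iv t) : Hm O t := by
  rcases c.mem_T.mp ht with ha | ⟨a, ha, rfl⟩
  · rw [c.toCX.tiv ((c.hA t).mp ha) hi]; exact c.Hh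
  · exact ((c.hA a).mp ha).2.1

theorem Tnorm {s t : G} (hs : s ∈ S) (ht : t ∈ c.T) : s⁻¹ * t * s ∈ c.T := by
  rcases c.mem_T.mp ht with ha | ⟨a, ha, rfl⟩
  · exact c.mem_T.mpr (Or.inl (c.Anorm hs ha))
  · exact c.mem_T.mpr (Or.inr (c.tau hs ha))

theorem Hm_cases {v : G} (hv : Hm O v) (hs : v ∈ S) : v = h ∨ ∃ a ∈ zpowers x, v = u * a := by
  by_cases e : v = h
  · exact Or.inl e
  · have e0 : u * (u * v) = v := by rw [← mul_assoc, c.toCX.uu, one_mul]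
    exact Or.inr ⟨u * v, (c.hA _).mpr ⟨mul_mem c.uS hs, by rwa [e0], by rwa [e0]⟩, e0.symm⟩

theorem evdec0 {s : G} (hs : s ∈ S) (e : s • P = P) (he : Ev u x s) :
    ∃ b ∈ BB S P Q P' Q', ∃ a ∈ zpowers x, s = b * a := by
  obtain ⟨d, hd, ed⟩ := he
  have hc : s * d⁻¹ * u = u * (s * d⁻¹) := by
    calc s * d⁻¹ * u = s * (d⁻¹ * u) := by group
      _ = s * (u * (d * d)) * d⁻¹ := by rw [← c.ua hd]; group
      _ = _ := by rw [← ed]; group
  rcases c.toCX.dec (mul_mem hs (inv_mem (c.AS hd)))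
    (by rw [mul_smul, c.AP (inv_mem hd), e]) hc with hb | hb
  · exact ⟨_, hb, d, hd, by group⟩
  · exact ⟨_, hb, h⁻¹ * d, mul_mem (inv_mem c.hAm) hd, by group⟩

theorem evdec {s : G} (hs : s ∈ S) (he : Ev u x s) :
    ∃ b ∈ BB S P Q P' Q', ∃ t ∈ c.T, s = b * t := by
  rcases c.toCX.ssw hs with e | e
  · obtain ⟨b, hb, a, ha, e'⟩ := c.evdec0 hs e.1 he
    exact ⟨b, hb, a, c.mem_T.mpr (Or.inl ha), e'⟩
  · obtain ⟨d, hd, ed⟩ := he
    obtain ⟨b, hb, a, ha, e'⟩ := c.evdec0 (mul_mem hs c.uS) (by rw [mul_smul, c.toCX.uP.1, e.2])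
      ⟨d⁻¹, inv_mem hd, by
        calc (s * u)⁻¹ * u * (s * u) = u⁻¹ * (s⁻¹ * u * s) * u := by group
          _ = d * (d * u) := by rw [ed]; group
          _ = _ := by rw [c.au hd, ← mul_assoc, c.au hd]; group⟩
    refine ⟨b, hb, u * a⁻¹, c.mem_T.mpr (Or.inr ⟨_, inv_mem ha, rfl⟩), ?_⟩
    rw [← c.au ha, ← mul_assoc, ← e', mul_assoc, c.toCX.uu, mul_one]

theorem sqc {s a : G} (hs : s ∈ S) (h2 : Sq x (s⁻¹ * a * s)) : Sq x a := by
  obtain ⟨d, hd, e⟩ := h2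
  refine ⟨s⁻¹⁻¹ * d * s⁻¹, c.Anorm (inv_mem hs) hd, ?_⟩
  calc a = s * (s⁻¹ * a * s) * s⁻¹ := by group
    _ = _ := by rw [e]; group

variable [Finite G]

theorem nsq : ¬ Sq x x := by
  rintro ⟨d, hd, e⟩
  have x1 : x ≠ 1 := fun e => c.Hh.1.2 (by have := c.hAm; rwa [e, zpowers_one_eq_bot, mem_bot] at this)
  have d1 : d ≠ 1 := fun e' => x1 (by rw [e, e', one_mul])
  obtain ⟨k, hk⟩ := (IsPGroup.iff_orderOf.mp c.p2) ⟨d, c.AS hd⟩
  rw [← Subgroup.orderOf_coe] at hk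
  simp only at hk
  have hlt : orderOf (d ^ 2) < orderOf d := by
    rcases k with _ | k
    · exact absurd (orderOf_eq_one_iff.mp hk) d1
    · rw [orderOf_pow_of_dvd (by norm_num) (by rw [hk]; exact dvd_pow_self 2 (by omega))]
      exact Nat.div_lt_self (orderOf_pos d) (by norm_num)
  have := Nat.le_of_dvd (orderOf_pos x) (orderOf_dvd_of_mem_zpowers hd)
  rw [pow_two, ← e] at hlt
  omega

theorem nev {s a : G} (e : s⁻¹ * u * s = u * a) : Ev u x s ↔ Sq x a := by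
  constructor
  · rintro ⟨d, hd, e'⟩
    exact ⟨d, hd, mul_left_cancel (e.symm.trans e')⟩
  · rintro ⟨d, hd, rfl⟩
    exact ⟨d, hd, e⟩

theorem oo {s s' : G} (hs : s ∈ S) (hs' : s' ∈ S) (h1 : ¬ Ev u x s) (h2 : ¬ Ev u x s') :
    Ev u x (s * s') := by
  obtain ⟨a, ha, e⟩ := c.tau1 hs
  obtain ⟨a', ha', e'⟩ := c.tau1 hs'
  have e2 : (s * s')⁻¹ * u * (s * s') = u * (a' * (s'⁻¹ * a * s')) := by
    calc (s * s')⁻¹ * u * (s * s') = s'⁻¹ * (s⁻¹ * u * s) * s' := by group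
      _ = (s'⁻¹ * u * s') * (s'⁻¹ * a * s') := by rw [e]; group
      _ = _ := by rw [e']; group
  rw [c.nev e2]
  exact nn ha' (c.Anorm hs' ha) (fun hh => h2 ((c.nev e').mpr hh))
    (fun hh => h1 ((c.nev e).mpr (c.sqc hs' hh)))

theorem exy {s : G} (hs : s ∈ S) (hn : ¬ Ev u x s) :
    ∃ y ∈ S, y • P = P ∧ y⁻¹ * u * y = u * x := by
  obtain ⟨a, ha, e⟩ := c.tau1 hs
  obtain ⟨d, hd, ed⟩ := (dich ha).resolve_left fun hh => hn ((c.nev e).mpr hh)
  have hx := mem_zpowers x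
  have he : x * d⁻¹ ∈ zpowers x := mul_mem hx (inv_mem hd)
  have e1 : (s * (x * d⁻¹))⁻¹ * u * (s * (x * d⁻¹)) = u * x := by
    calc (s * (x * d⁻¹))⁻¹ * u * (s * (x * d⁻¹))
        = (x * d⁻¹)⁻¹ * (s⁻¹ * u * s) * (x * d⁻¹) := by group
      _ = ((x * d⁻¹)⁻¹ * u) * a * (x * d⁻¹) := by rw [e]; group
      _ = u * (x * d⁻¹ * a * (x * d⁻¹)) := by rw [← c.ua he]; group
      _ = u * x := by
        rw [eq_inv_mul_of_mul_eq ed]
        obtain ⟨i, rfl⟩ := hd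
        simp only
        group
  have hs1 := mul_mem hs (c.AS he)
  rcases c.toCX.ssw hs1 with e2 | e2
  · exact ⟨_, hs1, e2.1, e1⟩
  · refine ⟨s * (x * d⁻¹) * (u * x), mul_mem hs1 (mul_mem c.uS (c.AS hx)),
      by rw [mul_smul, mul_smul u, c.AP hx, c.toCX.uP.1, e2.2], ?_⟩
    calc (s * (x * d⁻¹) * (u * x))⁻¹ * u * (s * (x * d⁻¹) * (u * x))
        = (u * x)⁻¹ * ((s * (x * d⁻¹))⁻¹ * u * (s * (x * d⁻¹))) * (u * x) := by group
      _ = u * x := by rw [e1]; group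

theorem bcent {y b : G} (hy : y ∈ S) (yP : y • P = P) (ey : y⁻¹ * u * y = u * x)
    (hb : b ∈ BB S P Q P' Q') (hi : Iv b) :
    b * x = x * b ∧ (y⁻¹ * b * y = b ∨ y⁻¹ * b * y = b * h) := by
  have bS := (mem_BB.mp hb).1
  have bu := c.toCX.Bu hb
  have ny : ¬ Ev u x y := fun hh => c.nsq ((c.nev ey).mp hh)
  have hb'S : y⁻¹ * b * y ∈ S := mul_mem (mul_mem (inv_mem hy) bS) hy
  have ev : Ev u x (y⁻¹ * b * y) := by
    by_contra hn
    have h1 := c.oo hy hb'S ny hn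
    have e1 : (y * (y⁻¹ * b * y))⁻¹ * u * (y * (y⁻¹ * b * y)) = u * x := by
      calc _ = y⁻¹ * (b⁻¹ * (u * b)) * y := by group
        _ = _ := by rw [← bu, ← ey]; group
    exact c.nsq ((c.nev e1).mp h1)
  obtain ⟨d, hd, a, ha, e⟩ := c.evdec0 hb'S
    (by rw [mul_smul, mul_smul, yP, (mem_BB.mp hb).2.1, inv_smul_eq_iff, yP]) ev
  have hi' := hi.cj y
  have hnH : ¬ Hm O (y⁻¹ * b * y) := fun hh => c.toCX.nHB hb (c.toBR.hcj' hh)
  have dS := (mem_BB.mp hd).1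
  have dd : d * d = 1 := by
    refine c.AB ?_ (mul_mem hd hd)
    have h1 := hi'.1
    rw [e] at h1
    have : d * d = ((d⁻¹ * a * d) * a)⁻¹ := by
      rw [eq_inv_iff_mul_eq_one, ← h1]; group
    rw [this]; exact inv_mem (mul_mem (c.Anorm dS ha) ha)
  have d1 : d ≠ 1 := fun e' => hnH (c.Tiv (by rw [e, e', one_mul]; exact c.mem_T.mpr (Or.inl ha)) hi')
  obtain rfl : d = b := by
    refine c.toCX.Binv hd hb ⟨dd, d1⟩ hi ?_
    obtain ⟨k, rfl⟩ := c.hB d hd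
    obtain ⟨l, rfl⟩ := c.hB b hb
    group
  have e1 : d * a = a⁻¹ * d := by
    have h1 := hi'.1
    rw [e] at h1
    calc d * a = (d * a)⁻¹ := (inv_eq_of_mul_eq_one_right h1).symm
      _ = _ := by rw [mul_inv_rev, hi.inv]
  have aa : a * a = 1 := by
    by_contra hne
    obtain ⟨j, hj⟩ := ex_iv c.p2 (c.AS (mul_mem ha ha)) hne
    have hw := c.toBR.bh hi (c.toCX.nHB hb) c.Hu bu
    have wa : a * (d * u) = d * u * a := by
      calc a * (d * u) = a * (a⁻¹ * d) * (a⁻¹ * a) * ((a⁻¹ * d)⁻¹ * d * u) := by group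
        _ = d * (a⁻¹ * u) := by
          rw [← e1]
          have e2 : d⁻¹ = d := hi.inv
          calc a * (d * a) * (a⁻¹ * a) * ((d * a)⁻¹ * d * u) = a * d * u := by group
            _ = a * (d * a) * a⁻¹ * u := by group
            _ = _ := by rw [e1]; group
        _ = _ := by rw [← c.ua ha]; group
    have hK : zpowers (a ^ j) ≤ zpowers x := zpowers_le.mpr (pow_mem ha j)
    have ho : orderOf (a ^ j) = 2 ^ (1 + 1) := by
      have e2 : (a ^ j) ^ 2 = (a * a) ^ j := by rw [← pow_two, ← pow_mul, ← pow_mul, mul_comm]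
      refine orderOf_eq_prime_pow (by rw [pow_one, e2]; exact hj.2) ?_
      rw [pow_succ, pow_one, pow_mul, e2, pow_two, hj.1]
    have := free_dvd (zpowers (a ^ j)) (F O (d * u)) (fun k hk p hp => by
      have kc : k * (d * u) = d * u * k :=
        mem_centralizer_singleton_iff.mp (zpowers_le.mpr (pow_mem (mem_centralizer_singleton_iff.mpr wa) j) hk)
      refine mem_F.mpr ⟨c.inv k p (mem_F.mp hp).1, ?_⟩
      rw [← mul_smul, ← kc, mul_smul, (mem_F.mp hp).2]) (fun k hk p hp e => by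
      have h2 := (mem_F.mp hp).2
      refine c.Afree (hK hk) (mem_F.mp hp).1 ?_ ?_ e
      · rintro rfl
        rw [mul_smul, c.toCX.uP.1, (mem_BB.mp hb).2.2.1] at h2
        exact c.PQ h2.symm
      · rintro rfl
        rw [mul_smul, c.toCX.uP.2, (mem_BB.mp hb).2.1] at h2
        exact c.PQ h2)
    rw [Nat.card_zpowers, ho, c.toBR.baer hw.1 hw.2] at this
    have := c.m4
    omega
  have ai : a⁻¹ = a := inv_eq_of_mul_eq_one_right aa
  constructor
  · have e2 : d * a * (u * x) = u * x * (d * a) := by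
      rw [← e, ← ey]
      calc y⁻¹ * d * y * (y⁻¹ * u * y) = y⁻¹ * (d * u) * y := by group
        _ = _ := by rw [bu]; group
    have e3 : d * a * (u * x) = u * (d * x) * a := by
      calc d * a * (u * x) = d * (a * u) * x := by group
        _ = (d * u) * (a * x) := by rw [c.au ha, ai]; group
        _ = _ := by rw [bu, zc ha (mem_zpowers x)]; group
    have := e3.symm.trans e2
    rw [← mul_assoc (u * x), mul_left_inj, mul_assoc, mul_right_inj] at this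
    exact this
  · by_cases a1 : a = 1
    · exact Or.inl (by rw [e, a1, mul_one])
    · exact Or.inr (by rw [e, c.toCX.tiv ((c.hA a).mp ha) ⟨aa, a1⟩])

end CY

end Cfsg.Agent.Ov
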