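import Cfsg.Agent.Ov.T4

set_option autoImplicit false

namespace Cfsg.Agent.Ov
open Subgroup

variable {G X : Type*} [Group G] [MulAction G X]

theorem cz (g x : G) (i : ℤ) : g⁻¹ * x ^ i * g = (g⁻¹ * x * g) ^ i := by
  have := conj_zpow (i := i) (a := g⁻¹) (b := x)
  simpa using this.symm

theorem tt2 [Finite G] (hG : commutator G = ⊤) (S : Sylow 2 G) {C : Type*} [Group C]
    (f : (S : Subgroup G) →* C) (Z : Subgroup C) (hc : ∀ a b, f a * f b = f b * f a)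
    (β : (S : Subgroup G)) (hcyc : ∀ s, ∃ k : ℤ, (f β ^ k)⁻¹ * f s ∈ Z) {b : G} (hb : Iv b)
    (hbS : b ∈ S) (hN : ∀ (g : G) (hg : g⁻¹ * b * g ∈ (S : Subgroup G)), f ⟨_, hg⟩ ∉ Z) : False := by
  refine tt hG S ((Z.comap f).map (S : Subgroup G).subtype) ?_ β.2 ?_ hb hbS ?_
  · rintro s hs _ ⟨n, hn, rfl⟩
    refine ⟨⟨s, hs⟩ * n * ⟨s, hs⟩⁻¹, ?_, rfl⟩
    show f _ ∈ Z
    rw [map_mul, map_mul, hc _ n, map_inv, mul_inv_cancel_right]
    exact hn
  · intro s hs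
    obtain ⟨k, hk⟩ := hcyc ⟨s, hs⟩
    refine ⟨k, (β ^ k)⁻¹ * ⟨s, hs⟩, ?_, by simp⟩
    show f _ ∈ Z
    rw [map_mul, map_inv, map_zpow]
    exact hk
  · rintro g hg ⟨n, hn, e⟩
    apply hN g hg
    have : n = ⟨_, hg⟩ := Subtype.ext e
    rw [← this]; exact hn

namespace CY
variable {O : Finset X} {m : ℕ} {S : Subgroup G} {h u : G} {P Q P' Q' : X} {x β : G}
  (c : CY O m S h u P Q P' Q' x β)
include c

theorem Bc {b b' : G} (hb : b ∈ BB S P Q P' Q') (hb' : b' ∈ BB S P Q P' Q') : b * b' = b' * b := by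
  obtain ⟨k, rfl⟩ := c.hB b hb
  obtain ⟨l, rfl⟩ := c.hB b' hb'
  group

theorem bA {b a : G} (bx : b * x = x * b) (ha : a ∈ zpowers x) : b * a = a * b := by
  obtain ⟨i, rfl⟩ := ha
  exact (Commute.zpow_right bx i)

theorem bT {b t : G} (hb : b ∈ BB S P Q P' Q') (bx : b * x = x * b) (ht : t ∈ c.T) :
    b * t = t * b := by
  rcases c.mem_T.mp ht with ha | ⟨a, ha, rfl⟩
  · exact c.bA bx ha
  · rw [← mul_assoc, c.toCX.Bu hb, mul_assoc, c.bA bx ha, mul_assoc]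

theorem bEv {b s : G} (hb : b ∈ BB S P Q P' Q') (bx : b * x = x * b) (hs : s ∈ S)
    (he : Ev u x s) : b * s = s * b := by
  obtain ⟨d, hd, t, ht, rfl⟩ := c.evdec hs he
  rw [← mul_assoc, c.Bc hb hd, mul_assoc, c.bT hb bx ht, mul_assoc]

variable [Finite G]

theorem ucj {y a : G} (hy : y ∈ S) (ey : y⁻¹ * u * y = u * x) (ha : a ∈ zpowers x) :
    ∃ s ∈ S, s⁻¹ * u * s = u * a := by
  rcases dich ha with ⟨d, hd, rfl⟩ | ⟨d, hd, e⟩
  · exact ⟨d, c.AS hd, by rw [← c.ua hd, mul_assoc]⟩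
  · have he : x⁻¹ * d ∈ zpowers x := mul_mem (inv_mem (mem_zpowers x)) hd
    refine ⟨y * (x⁻¹ * d), mul_mem hy (c.AS he), ?_⟩
    calc (y * (x⁻¹ * d))⁻¹ * u * (y * (x⁻¹ * d))
        = (x⁻¹ * d)⁻¹ * (y⁻¹ * u * y) * (x⁻¹ * d) := by group
      _ = ((x⁻¹ * d)⁻¹ * u) * d := by rw [ey]; group
      _ = _ := by rw [← c.ua he, eq_inv_mul_of_mul_eq e]; group

theorem hsq {y b : G} (ey : y⁻¹ * u * y = u * x) (hb : b ∈ BB S P Q P' Q') (hi : Iv b)
    (bx : b * x = x * b) (by' : y⁻¹ * b * y = b * h) : Sq x h := by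
  classical
  have hx := mem_zpowers x
  by_cases xx : x * x = 1
  swap
  · obtain ⟨j, hj⟩ := ex_iv c.p2 (c.AS (mul_mem hx hx)) xx
    refine ⟨x ^ j, pow_mem hx j, ?_⟩
    rw [← c.toCX.tiv ((c.hA _).mp (pow_mem (mul_mem hx hx) j)) hj, ← pow_two, ← pow_two, ← pow_mul,
      ← pow_mul, mul_comm]
  exfalso
  have x1 : x ≠ 1 := fun e => c.nsq ⟨1, one_mem _, by rw [e, one_mul]⟩
  obtain rfl : x = h := c.toCX.tiv ((c.hA _).mp hx) ⟨xx, x1⟩
  have hA2 : ∀ a ∈ zpowers x, a = 1 ∨ a = x := fun a ha => by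
    by_cases a1 : a = 1
    · exact Or.inl a1
    · refine Or.inr (c.toCX.tiv ((c.hA _).mp ha) ⟨?_, a1⟩)
      obtain ⟨i, rfl⟩ := ha
      simp only
      rw [← (Commute.refl x).mul_zpow, xx, one_zpow]
  have hT : ∀ k, k ∈ c.T ↔ k ∈ ({1, x, u, u * x} : Finset G) := fun k => by
    simp only [Finset.mem_insert, Finset.mem_singleton, c.mem_T]
    constructor
    · rintro (ha | ⟨a, ha, rfl⟩)
      · rcases hA2 k ha with e | e <;> simp [e]
      · rcases hA2 a ha with e | e <;> simp [e]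
    · rintro (rfl | rfl | rfl | rfl)
      exacts [Or.inl (one_mem _), Or.inl hx, Or.inr ⟨1, one_mem _, (mul_one _).symm⟩,
        Or.inr ⟨x, hx, rfl⟩]
  have u1 := c.Hu.1.2
  have ux := c.ne
  have ux1 : u * x ≠ 1 := c.toCX.th.2.1.1.2
  have hc : Nat.card c.T = 4 := by
    rw [Nat.card_congr (Equiv.subtypeEquivRight hT), Nat.card_eq_fintype_card, Fintype.card_coe]
    rw [Finset.card_insert_of_notMem (by simp [x1.symm, u1.symm, ux1.symm]),
      Finset.card_insert_of_notMem (by simp [ux.symm, u1]),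
      Finset.card_insert_of_notMem (by simp [x1]), Finset.card_singleton]
  have PQ2 : P ≠ Q' := fun e => c.PQ (by have := c.toCX.uQ'; rw [← e, c.toCX.uP.1] at this; exact this.symm)
  have QQ2 : Q ≠ Q' := fun e => c.PQ (by have := c.toCX.uQ'; rw [← e, c.toCX.uP.2] at this; exact this)
  have mb := mem_BB.mp hb
  have hsub : ({P, Q, P', Q'} : Finset X) ⊆ F O b := by
    intro p hp
    simp only [Finset.mem_insert, Finset.mem_singleton] at hp
    rcases hp with rfl | rfl | rfl | rfl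
    exacts [mem_F.mpr ⟨c.toCX.PO, mb.2.1⟩, mem_F.mpr ⟨c.toCX.QO, mb.2.2.1⟩,
      mem_F.mpr ⟨c.toCX.P'O, mb.2.2.2.1⟩, mem_F.mpr ⟨c.toCX.Q'O, mb.2.2.2.2⟩]
  have h4 : ({P, Q, P', Q'} : Finset X).card = 4 := by
    rw [Finset.card_insert_of_notMem (by simp [c.PQ, c.toCX.PP', PQ2]),
      Finset.card_insert_of_notMem (by simp [c.toCX.QP', QQ2]),
      Finset.card_insert_of_notMem (by simp [c.PQ']), Finset.card_singleton]
  have := free_dvd c.T (F O b \ {P, Q, P', Q'}) (fun k hk p hp => by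
    rw [Finset.mem_sdiff] at hp ⊢
    refine ⟨mem_F.mpr ⟨c.inv k p (mem_F.mp hp.1).1, ?_⟩, fun hh => hp.2 ?_⟩
    · rw [← mul_smul, c.bT hb bx hk, mul_smul, (mem_F.mp hp.1).2]
    · have k1 := c.toCX.ssw (c.TS (inv_mem hk))
      have k2 := c.toBR.sw c.Fu c.PQ' (g := k⁻¹) (by
        have := (hT _).mp (inv_mem hk)
        simp only [Finset.mem_insert, Finset.mem_singleton] at this
        rcases this with e | e | e | e <;> rw [e]
        · simp
        · exact (c.cen u c.uS).symm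
        · rw [mul_assoc, ← c.cen u c.uS])
      have e0 : p = k⁻¹ • k • p := by simp
      simp only [Finset.mem_insert, Finset.mem_singleton] at hh ⊢
      rcases hh with e | e | e | e <;> rw [e] at e0 <;> rw [e0] <;> tauto) (fun k hk p hp e => by
    rw [Finset.mem_sdiff] at hp
    have hO := (mem_F.mp hp.1).1
    have np := hp.2
    simp only [Finset.mem_insert, Finset.mem_singleton, not_or] at np
    have := (hT _).mp hk
    simp only [Finset.mem_insert, Finset.mem_singleton] at this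
    rcases this with rfl | rfl | rfl | rfl
    · rfl
    · have := (c.Fh p).mp (mem_F.mpr ⟨hO, e⟩); tauto
    · have := (c.Fu p).mp (mem_F.mpr ⟨hO, e⟩); tauto
    · exfalso
      have h1 : y • p ∈ F O u := c.toBR.memc.mp (by rw [ey]; exact mem_F.mpr ⟨hO, e⟩)
      have h2 : b • y • p = y • p := by
        rcases (c.Fu _).mp h1 with e' | e' <;> rw [e']
        exacts [mb.2.2.2.1, mb.2.2.2.2]
      have h3 : (b * x) • p = p := by rw [← by', mul_smul, mul_smul, h2, inv_smul_smul]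
      rw [bx, mul_smul, (mem_F.mp hp.1).2] at h3
      have := (c.Fh p).mp (mem_F.mpr ⟨hO, h3⟩); tauto)
  rw [hc, Finset.card_sdiff_of_subset hsub, h4, c.toBR.baer hi (c.toCX.nHB hb)] at this
  have := c.m4
  have := c.m5
  omega

theorem evB {y d : G} (hy : y ∈ S) (yP : y • P = P) (ey : y⁻¹ * u * y = u * x)
    (hd : d ∈ BB S P Q P' Q') :
    ∃ d' ∈ BB S P Q P' Q', ∃ a ∈ zpowers x, y⁻¹ * d * y = d' * a := by
  have ny : ¬ Ev u x y := fun hh => c.nsq ((c.nev ey).mp hh)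
  have hS : y⁻¹ * d * y ∈ S := mul_mem (mul_mem (inv_mem hy) (mem_BB.mp hd).1) hy
  refine c.evdec0 hS (by rw [mul_smul, mul_smul, yP, (mem_BB.mp hd).2.1, inv_smul_eq_iff, yP]) ?_
  by_contra hn
  have h1 := c.oo hy hS ny hn
  have e1 : (y * (y⁻¹ * d * y))⁻¹ * u * (y * (y⁻¹ * d * y)) = u * x := by
    calc _ = y⁻¹ * (d⁻¹ * (u * d)) * y := by group
      _ = _ := by rw [← c.toCX.Bu hd, ← ey]; group
  exact c.nsq ((c.nev e1).mp h1)

theorem comm {y b : G} (hy : y ∈ S) (yP : y • P = P) (ey : y⁻¹ * u * y = u * x)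
    (hb : b ∈ BB S P Q P' Q') (hi : Iv b) (bx : b * x = x * b) (by' : y⁻¹ * b * y = b * h) :
    ∃ a ∈ zpowers x, y⁻¹ * β * y = β * a := by
  obtain ⟨β', hβ', a, ha, e⟩ := c.evB hy yP ey c.hβ
  by_cases e1 : β⁻¹ * β' = 1
  · exact ⟨a, ha, by rw [e, inv_mul_eq_one.mp e1]⟩
  exfalso
  have he := mul_mem (inv_mem c.hβ) hβ'
  obtain ⟨j, hj⟩ := ex_iv c.p2 (mem_BB.mp he).1 e1
  have ej : (β⁻¹ * β') ^ j = b := c.toCX.Binv (pow_mem he j) hb hj hi (c.Bc (pow_mem he j) hb)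
  have hp : ∀ n : ℕ, ∃ a' ∈ zpowers x, y⁻¹ * β ^ n * y = β' ^ n * a' := fun n => by
    induction n with
    | zero => exact ⟨1, one_mem _, by simp⟩
    | succ n ih =>
      obtain ⟨a', ha', e'⟩ := ih
      refine ⟨β'⁻¹ * a' * β' * a, mul_mem (c.Anorm (mem_BB.mp hβ').1 ha') ha, ?_⟩
      calc y⁻¹ * β ^ (n + 1) * y = (y⁻¹ * β ^ n * y) * (y⁻¹ * β * y) := by group
        _ = _ := by rw [e', e]; group
  obtain ⟨_, ⟨i, rfl⟩, e2⟩ := hp j
  have e3 : β' ^ j = β ^ j * b := by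
    have hcm : Commute β (β⁻¹ * β') := c.Bc c.hβ he
    rw [← ej, ← hcm.mul_pow, mul_inv_cancel_left]
  have hd := pow_mem c.hβ j
  generalize β ^ j = d at e2 e3 hd
  rw [e3] at e2
  simp only at e2
  have ny : ¬ Ev u x y := fun hh => c.nsq ((c.nev ey).mp hh)
  obtain ⟨c0, hc0, _, ⟨k, rfl⟩, e4⟩ := c.evdec0 (mul_mem hy hy) (by rw [mul_smul, yP, yP])
    (c.oo hy hy ny ny)
  simp only at e4
  have hxi := zpow_mem_zpowers x i
  have hxk := zpow_mem_zpowers x k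
  have du := c.toCX.Bu hd
  have bu := c.toCX.Bu hb
  have hρ := c.Anorm (mem_BB.mp hd).1 (mem_zpowers x)
  have r1 : d⁻¹ * x * d = x ^ (1 - 2 * i) := by
    have h1 : (d * b * x ^ i)⁻¹ * (u * x) * (d * b * x ^ i) = u * x := by
      rw [← e2, ← ey]
      calc _ = y⁻¹ * (d⁻¹ * (u * d)) * y := by group
        _ = _ := by rw [← du]; group
    have h2 : (d * b * x ^ i)⁻¹ * (u * x) * (d * b * x ^ i)
        = u * (x ^ i * (d⁻¹ * x * d) * x ^ i) := by
      calc _ = (x ^ i)⁻¹ * b⁻¹ * d⁻¹ * (u * d) * ((d⁻¹ * x * d) * b) * x ^ i := by group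
        _ = (x ^ i)⁻¹ * b⁻¹ * (u * b) * (d⁻¹ * x * d) * x ^ i := by
          rw [← du, ← c.bA bx hρ]; group
        _ = ((x ^ i)⁻¹ * u) * (d⁻¹ * x * d) * x ^ i := by rw [← bu]; group
        _ = _ := by rw [← c.ua hxi]; group
    have h3 := mul_left_cancel (h2.symm.trans h1)
    calc d⁻¹ * x * d = (x ^ i)⁻¹ * (x ^ i * (d⁻¹ * x * d) * x ^ i) * (x ^ i)⁻¹ := by group
      _ = _ := by rw [h3]; group
  have r2 : y⁻¹ * x * y = x ^ (2 * k - 1) := by
    have h1 : (y * y)⁻¹ * u * (y * y) = u * (x * (y⁻¹ * x * y)) := by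
      calc _ = y⁻¹ * (y⁻¹ * u * y) * y := by group
        _ = (y⁻¹ * u * y) * (y⁻¹ * x * y) := by rw [ey]; nth_rewrite 2 [← ey]; group
        _ = _ := by rw [ey]; group
    have h2 : (y * y)⁻¹ * u * (y * y) = u * (x ^ k * x ^ k) := by
      rw [e4]
      calc _ = (x ^ k)⁻¹ * (c0⁻¹ * (u * c0)) * x ^ k := by group
        _ = ((x ^ k)⁻¹ * u) * x ^ k := by rw [← c.toCX.Bu hc0]; group
        _ = _ := by rw [← c.ua hxk]; group
    have h3 := mul_left_cancel (h1.symm.trans h2)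
    calc y⁻¹ * x * y = x⁻¹ * (x * (y⁻¹ * x * y)) := by group
      _ = _ := by rw [h3]; group
  have h1 : (y * y)⁻¹ * d * (y * y) = d * (h * x ^ (2 * k * i)) := by
    calc _ = y⁻¹ * (y⁻¹ * d * y) * y := by group
      _ = (y⁻¹ * d * y) * (y⁻¹ * b * y) * (y⁻¹ * x ^ i * y) := by nth_rewrite 1 [e2]; group
      _ = d * (b * x ^ i) * b * h * (x ^ (2 * k - 1)) ^ i := by rw [e2, by', cz, r2]; group
      _ = d * (x ^ i * h) * (x ^ (2 * k - 1)) ^ i := by
        rw [c.bA bx hxi, mul_assoc d, mul_assoc (x ^ i), hi.1]; group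
      _ = _ := by rw [c.cen _ (c.AS hxi)]; group
  have h2 : (y * y)⁻¹ * d * (y * y) = d * x ^ (2 * k * i) := by
    rw [e4]
    calc _ = (x ^ k)⁻¹ * (c0⁻¹ * (d * c0)) * x ^ k := by group
      _ = d * (d⁻¹ * x ^ k * d)⁻¹ * x ^ k := by rw [c.Bc hd hc0]; group
      _ = _ := by rw [cz, r1]; group
  have := mul_left_cancel (h1.symm.trans h2)
  exact c.Hh.1.2 (by simpa using this)

end CY

end Cfsg.Agent.Ov
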