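import Cfsg.Agent.Ov.T5
import Cfsg.Agent.Ov.C
import Cfsg.Agent.Ov.D

set_option autoImplicit false

namespace Cfsg.Agent.Ov
open Subgroup

section
variable {G X : Type*} [Group G] [MulAction G X] [Finite G] [IsSimpleGroup G]

namespace CY
variable {O : Finset X} {m : ℕ} {S : Sylow 2 G} {h u : G} {P Q P' Q' : X} {x β : G}
  (c : CY O m (S : Subgroup G) h u P Q P' Q' x β) (hG : ¬ IsMulCommutative G)
include c hG

theorem case2a {y b : G} (hy : y ∈ (S : Subgroup G)) (ey : y⁻¹ * u * y = u * x)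
    (hb : b ∈ BB (S : Subgroup G) P Q P' Q') (hi : Iv b) (bx : b * x = x * b)
    (by' : y⁻¹ * b * y = b) : False := by
  have ny : ¬ Ev u x y := fun hh => c.nsq ((c.nev ey).mp hh)
  have mb := mem_BB.mp hb
  have bc : ∀ s ∈ (S : Subgroup G), b * s = s * b := fun s hs => by
    by_cases he : Ev u x s
    · exact c.bEv hb bx hs he
    · have h1 := c.bEv hb bx (mul_mem hs hy) (c.oo hs hy he ny)
      calc b * s = b * (s * y) * y⁻¹ := by group
        _ = s * (y * (y⁻¹ * b * y) * y⁻¹) := by rw [h1, by']; group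
        _ = _ := by group
  have vc : ∀ v ∈ (S : Subgroup G), Hm O v → v ≠ h → ∃ s ∈ (S : Subgroup G), s⁻¹ * u * s = v :=
    fun v hv hH hne => by
      obtain ⟨a, ha, rfl⟩ := (c.Hm_cases hH hv).resolve_left hne
      exact c.ucj hy ey ha
  obtain ⟨g, hg, hne⟩ := zstar hG S c.Hh.1 c.hS
  obtain ⟨s, hs, e⟩ := vc _ hg (c.toBR.hcj c.Hh g) hne
  have e1 : (s * g⁻¹)⁻¹ * u * (s * g⁻¹) = h := by
    calc _ = g * (s⁻¹ * u * s) * g⁻¹ := by group
      _ = h := by rw [e]; group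
  generalize s * g⁻¹ = g1 at e1
  obtain ⟨c0, hc0, hD⟩ := syl_cent S c.cen
    (((S : Subgroup G) ⊓ centralizer {u}).map (MulAut.conj g1⁻¹).toMonoidHom)
    ((S.2.to_inf_left).map _) (by
      rintro _ ⟨d, hd, rfl⟩
      have h1 : d * u = u * d := mem_centralizer_singleton_iff.mp hd.2
      simp only [MulEquiv.coe_toMonoidHom, MulAut.conj_apply, inv_inv]
      rw [← e1]
      calc _ = g1⁻¹ * (d * u) * g1 := by group
        _ = _ := by rw [h1]; group)
  have hD' : ∀ d ∈ (S : Subgroup G), d * u = u * d → (g1 * c0)⁻¹ * d * (g1 * c0) ∈ (S : Subgroup G) :=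
    fun d hd hc => by
      have := hD _ ⟨d, ⟨hd, mem_centralizer_singleton_iff.mpr hc⟩, rfl⟩
      simp only [MulEquiv.coe_toMonoidHom, MulAut.conj_apply, inv_inv] at this
      rw [show (g1 * c0)⁻¹ * d * (g1 * c0) = c0⁻¹ * (g1⁻¹ * d * g1) * c0 by group]
      exact this
  have e2 : (g1 * c0)⁻¹ * u * (g1 * c0) = h := by
    calc _ = c0⁻¹ * (g1⁻¹ * u * g1) * c0 := by group
      _ = h := by rw [e1, mul_assoc, ← hc0]; group
  generalize g1 * c0 = g2 at hD' e2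
  obtain ⟨s2, hs2, e3⟩ := vc _ (hD' h c.hS (c.cen u c.uS).symm) (c.toBR.hcj c.Hh g2) (fun e' => c.ne (by
    calc u = g2 * (g2⁻¹ * u * g2) * g2⁻¹ := by group
      _ = g2 * (g2⁻¹ * h * g2) * g2⁻¹ := by rw [e2, e']
      _ = h := by group))
  have e4 : (g2 * s2⁻¹)⁻¹ * u * (g2 * s2⁻¹) = h := by
    calc _ = s2 * (g2⁻¹ * u * g2) * s2⁻¹ := by group
      _ = h := by rw [e2, c.cen s2 hs2]; group
  have e5 : (g2 * s2⁻¹)⁻¹ * h * (g2 * s2⁻¹) = u := by
    calc _ = s2 * (g2⁻¹ * h * g2) * s2⁻¹ := by group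
      _ = u := by rw [← e3]; group
  have e6 : (g2 * s2⁻¹)⁻¹ * b * (g2 * s2⁻¹) ∈ (S : Subgroup G) := by
    rw [show (g2 * s2⁻¹)⁻¹ * b * (g2 * s2⁻¹) = s2 * (g2⁻¹ * b * g2) * s2⁻¹ by group]
    exact mul_mem (mul_mem hs2 (hD' b mb.1 (c.toCX.Bu hb))) (inv_mem hs2)
  generalize g2 * s2⁻¹ = g3 at e4 e5 e6
  have fx : ∀ p, (p ∈ F O h ∨ p ∈ F O u) → (g3⁻¹ * b * g3) • p = p := fun p hp => by
    have h1 : b • g3 • p = g3 • p := by
      rcases hp with hp | hp
      · rw [← e4] at hp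
        rcases (c.Fu _).mp (c.toBR.memc.mp hp) with e' | e' <;> rw [e']
        exacts [mb.2.2.2.1, mb.2.2.2.2]
      · rw [← e5] at hp
        rcases (c.Fh _).mp (c.toBR.memc.mp hp) with e' | e' <;> rw [e']
        exacts [mb.2.1, mb.2.2.1]
    rw [mul_smul, mul_smul, h1, inv_smul_smul]
  have hb3 : g3⁻¹ * b * g3 ∈ BB (S : Subgroup G) P Q P' Q' := mem_BB.mpr ⟨e6,
    fx _ (Or.inl ((c.Fh _).mpr (Or.inl rfl))), fx _ (Or.inl ((c.Fh _).mpr (Or.inr rfl))),
    fx _ (Or.inr ((c.Fu _).mpr (Or.inl rfl))), fx _ (Or.inr ((c.Fu _).mpr (Or.inr rfl)))⟩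
  have e7 : g3⁻¹ * b * g3 = b := c.toCX.Binv hb3 hb (hi.cj g3) hi (c.Bc hb3 hb)
  have key : ∃ g4 : G, g4⁻¹ * b * g4 = b * h := by
    obtain ⟨k, hk, hne⟩ := zstar hG S hi mb.1
    have hv := c.toBR.bb hi (c.toCX.nHB hb) (hi.cj k) (fun hh => c.toCX.nHB hb (c.toBR.hcj' hh))
      hne.symm (bc _ hk)
    have e8 : k⁻¹ * b * k = b * (b * (k⁻¹ * b * k)) := by rw [← mul_assoc b b, hi.1, one_mul]
    by_cases e9 : b * (k⁻¹ * b * k) = h
    · exact ⟨k, by rw [e8, e9]⟩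
    · obtain ⟨s3, hs3, e10⟩ := vc _ (mul_mem mb.1 hk) hv e9
      refine ⟨k * s3⁻¹ * g3, ?_⟩
      calc _ = g3⁻¹ * (s3 * (k⁻¹ * b * k) * s3⁻¹) * g3 := by group
        _ = g3⁻¹ * ((s3 * b) * (s3⁻¹ * u * s3) * s3⁻¹) * g3 := by rw [e8, ← e10]; group
        _ = (g3⁻¹ * b * g3) * (g3⁻¹ * u * g3) := by rw [← bc s3 hs3]; group
        _ = _ := by rw [e7, e4]
  obtain ⟨g4, e8⟩ := key
  obtain ⟨n, hn, e9⟩ := S.conj_eq_normalizer_conj_of_mem_centralizer b g4
    (mem_centralizer_iff.mpr fun s hs => (bc s hs).symm)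
    (mem_centralizer_iff.mpr fun s hs => by
      rw [e8, ← mul_assoc, ← bc s hs, mul_assoc, c.cen s hs, mul_assoc])
  rw [e8] at e9
  have hn' := mem_normalizer_iff.mp (inv_mem hn)
  have hn2 := mem_normalizer_iff.mp hn
  have nh : n⁻¹ * h * n = h := by
    by_contra hne
    obtain ⟨s3, hs3, e10⟩ := vc _ (by simpa using (hn' h).mp c.hS) (c.toBR.hcj c.Hh n) hne
    have hs4 : s3⁻¹ * y * s3 ∈ (S : Subgroup G) := mul_mem (mul_mem (inv_mem hs3) hy) hs3
    have h1 := c.cen _ ((hn2 _).mp hs4)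
    have h2 : y⁻¹ * u * y = u := by
      calc y⁻¹ * u * y = y⁻¹ * s3 * (s3⁻¹ * u * s3) * s3⁻¹ * y := by group
        _ = y⁻¹ * s3 * n⁻¹ * (h * (n * (s3⁻¹ * y * s3) * n⁻¹)) * n * s3⁻¹ := by rw [e10]; group
        _ = s3 * (n⁻¹ * h * n) * s3⁻¹ := by rw [← h1]; group
        _ = u := by rw [← e10]; group
    rw [h2] at ey
    exact c.nsq ⟨1, one_mem _, by simpa using ey.symm⟩
  obtain ⟨a, o, ho, e10⟩ := Nat.exists_eq_two_pow_mul_odd (orderOf_pos n).ne'
  have hp : IsPGroup 2 (zpowers (n ^ o)) := by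
    refine IsPGroup.of_card (n := a) ?_
    rw [Nat.card_zpowers, orderOf_pow_of_dvd ho.pos.ne' (by rw [e10]; exact Dvd.intro_left _ rfl), e10,
      Nat.mul_div_cancel _ ho.pos]
  have hS : n ^ o ∈ (S : Subgroup G) := by
    have h1 : n ^ o ∈ zpowers (n ^ o) ⊓ normalizer (S : Set G) := ⟨mem_zpowers _, pow_mem hn o⟩
    rw [hp.inf_normalizer_sylow S] at h1
    exact h1.2
  obtain ⟨i, rfl⟩ := ho
  have hit : ∀ i : ℕ, (n ^ (2 * i + 1))⁻¹ * b * n ^ (2 * i + 1) = b * h := fun i => by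
    induction i with
    | zero => simpa using e9.symm
    | succ i ih =>
      calc _ = n⁻¹ * (n⁻¹ * ((n ^ (2 * i + 1))⁻¹ * b * n ^ (2 * i + 1)) * n) * n := by group
        _ = n⁻¹ * ((n⁻¹ * b * n) * (n⁻¹ * h * n)) * n := by rw [ih]; group
        _ = _ := by rw [← e9, nh, mul_assoc b, c.toCX.hh, mul_one, ← e9]
  have := hit i
  rw [mul_assoc, bc _ hS, inv_mul_cancel_left] at this
  exact c.Hh.1.2 (by simpa using this)

theorem fin {w : G} (hw : Iv w) (hn : ¬ Hm O w) (hwS : w ∈ (S : Subgroup G)) : False := by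
  haveI : (c.T.subgroupOf (S : Subgroup G)).Normal := ⟨fun n hn s => by
    rw [mem_subgroupOf] at hn ⊢
    simpa using c.Tnorm (inv_mem s.2) hn⟩
  let f := QuotientGroup.mk' (c.T.subgroupOf (S : Subgroup G))
  have f1 : ∀ s, f s = 1 ↔ s.1 ∈ c.T := fun s => (QuotientGroup.eq_one_iff s).trans mem_subgroupOf
  have fe : ∀ s s' : (S : Subgroup G), f s = f s' ↔ s.1⁻¹ * s'.1 ∈ c.T := fun s s' =>
    QuotientGroup.eq.trans mem_subgroupOf
  let β' : (S : Subgroup G) := ⟨β, (mem_BB.mp c.hβ).1⟩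
  have fEv : ∀ s : (S : Subgroup G), Ev u x s.1 → ∃ k : ℕ, f s = f β' ^ k := fun s he => by
    obtain ⟨b, hb, t, ht, e⟩ := c.evdec s.2 he
    obtain ⟨k, rfl⟩ := c.hB b hb
    refine ⟨k, ?_⟩
    rw [← map_pow, eq_comm, fe]
    simpa [β', e] using ht
  have nT : ∀ (g : G) (hg : g⁻¹ * w * g ∈ (S : Subgroup G)), f ⟨_, hg⟩ ≠ 1 := fun g hg e =>
    hn (c.toBR.hcj' (c.Tiv ((f1 _).mp e) (hw.cj g)))
  have cyc : ∀ γ : (S : Subgroup G), (∀ s, ∃ k : ℤ, f s = f γ ^ k) → False := fun γ hγ =>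
    tt2 (perf hG) S f ⊥ (fun a b => by
        obtain ⟨k, hk⟩ := hγ a
        obtain ⟨l, hl⟩ := hγ b
        rw [hk, hl]; group) γ (fun s => by
        obtain ⟨k, hk⟩ := hγ s
        exact ⟨k, by rw [hk]; simp⟩) hw hwS (fun g hg e => nT g hg (mem_bot.mp e))
  by_cases hall : ∀ s ∈ (S : Subgroup G), Ev u x s
  · exact cyc β' fun s => by
      obtain ⟨k, hk⟩ := fEv s (hall s s.2)
      exact ⟨k, by rw [hk, zpow_natCast]⟩
  push Not at hall
  obtain ⟨s0, hs0, hn0⟩ := hall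
  obtain ⟨y, hy, yP, ey⟩ := c.exy hs0 hn0
  have ny : ¬ Ev u x y := fun hh => c.nsq ((c.nev ey).mp hh)
  let y' : (S : Subgroup G) := ⟨y, hy⟩
  have fs : ∀ s : (S : Subgroup G), ∃ k : ℕ, f s = f β' ^ k ∨ f s = f β' ^ k * (f y')⁻¹ := fun s => by
    by_cases he : Ev u x s.1
    · obtain ⟨k, hk⟩ := fEv s he
      exact ⟨k, Or.inl hk⟩
    · obtain ⟨k, hk⟩ := fEv (s * y') (c.oo s.2 hy he ny)
      exact ⟨k, Or.inr (by rw [← hk, map_mul, mul_inv_cancel_right])⟩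
  have cyy : f β' ∈ zpowers (f y') → False := fun ⟨l, hl⟩ => cyc y' fun s => by
    simp only at hl
    obtain ⟨k, hk | hk⟩ := fs s
    · exact ⟨l * k, by rw [hk, ← hl]; group⟩
    · exact ⟨l * k - 1, by rw [hk, ← hl]; group⟩
  by_cases β1 : β = 1
  · exact cyy (by rw [(f1 β').mpr (by simp [β', β1])]; exact one_mem _)
  obtain ⟨j, hi⟩ := ex_iv c.p2 β'.2 β1
  have hb := pow_mem c.hβ j
  simp only [β'] at hi
  obtain ⟨bx, by' | by'⟩ := c.bcent hy yP ey hb hi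
  · exact c.case2a hG hy ey hb hi bx by'
  obtain ⟨a, ha, ea⟩ := c.comm hy yP ey hb hi bx by'
  have cm : Commute (f β') (f y') := by
    have : f β' = f (y'⁻¹ * β' * y') := by
      rw [fe]
      simpa [β', y', ea] using c.mem_T.mpr (Or.inl ha)
    rw [map_mul, map_mul, map_inv] at this
    calc f β' * f y' = f y' * ((f y')⁻¹ * f β' * f y') := by group
      _ = _ := by rw [← this]
  have cm' : ∀ s s', Commute (f s) (f s') := fun s s' => by
    have g1 : ∀ s, Commute (f s) (f β') ∧ Commute (f s) (f y') := fun s => by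
      obtain ⟨k, hk | hk⟩ := fs s <;> rw [hk]
      · exact ⟨(Commute.refl _).pow_left k, cm.pow_left k⟩
      · exact ⟨((Commute.refl _).pow_left k).mul_left cm.symm.inv_left,
          (cm.pow_left k).mul_left (Commute.refl _).inv_left⟩
    obtain ⟨k, hk | hk⟩ := fs s' <;> rw [hk]
    · exact (g1 s).1.pow_right k
    · exact ((g1 s).1.pow_right k).mul_right (g1 s).2.inv_right
  obtain ⟨k, hk⟩ := fEv (y' * y') (c.oo hy hy ny ny)
  rw [map_mul] at hk
  rcases Nat.even_or_odd' k with ⟨l, rfl | rfl⟩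
  swap
  · apply cyy
    obtain ⟨e, he⟩ := (IsPGroup.iff_orderOf.mp c.p2) β'
    have h1 : β' ∈ zpowers (β' ^ (2 * l + 1)) := mem_zpowers_pow_iff.mpr (by
      rw [he]; exact Nat.Coprime.pow_right _ (by simp))
    obtain ⟨r, hr⟩ := h1
    simp only at hr
    refine ⟨2 * r, ?_⟩
    simp only
    rw [zpow_mul, zpow_two, hk, ← map_pow, ← map_zpow, hr]
  have fin2 : ∀ z : (S : Subgroup G), f z * f z = 1 → (∃ r : ℤ, f y' = f β' ^ r * f z) →
      (∀ v : (S : Subgroup G), Iv v.1 → f v ≠ f z) → False := fun z hz ⟨r, hr⟩ hno =>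
    tt2 (perf hG) S f (zpowers (f z)) cm' β' (fun s => by
      obtain ⟨k, hk | hk⟩ := fs s
      · exact ⟨k, by rw [hk]; simp⟩
      · refine ⟨k - r, ?_⟩
        have : (f β' ^ ((k : ℤ) - r))⁻¹ * f s = (f z)⁻¹ := by
          rw [hk, hr, ((cm' β' z).zpow_left r).eq]
          have := ((cm' β' z).zpow_left r).inv_right.eq
          calc _ = f β' ^ r * (f β' ^ r)⁻¹ * (f z)⁻¹ := by group
            _ = _ := by group
        rw [this]; exact inv_mem (mem_zpowers _)) hw hwS (fun g hg ⟨i, hi⟩ => by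
      simp only at hi
      rcases Int.even_or_odd' i with ⟨i, rfl | rfl⟩
      · rw [zpow_mul, zpow_two, hz, one_zpow] at hi
        exact nT g hg hi.symm
      · rw [zpow_add, zpow_mul, zpow_two, hz, one_zpow, one_mul, zpow_one] at hi
        exact hno _ (hw.cj g) hi.symm)
  have z0 : f ((β' ^ l)⁻¹ * y') * f ((β' ^ l)⁻¹ * y') = 1 := by
    rw [map_mul, map_inv, map_pow]
    calc _ = (f β' ^ l)⁻¹ * (f y' * (f β' ^ l)⁻¹) * f y' := by group
      _ = (f β' ^ l)⁻¹ * (f β' ^ l)⁻¹ * (f y' * f y') := by rw [← (cm.pow_left l).inv_left.eq]; group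
      _ = 1 := by rw [hk]; group
  refine fin2 _ z0 ⟨l, by rw [map_mul, map_inv, map_pow]; group⟩ fun v hv e => ?_
  let b' : (S : Subgroup G) := β' ^ j
  have hyv : f y' = f β' ^ (l : ℤ) * f v := by rw [e, map_mul, map_inv, map_pow]; group
  have bb' : b' * b' = 1 := Subtype.ext hi.1
  have vv : v * v = 1 := Subtype.ext hv.1
  refine fin2 (v * b') ?_ ⟨l - j, ?_⟩ fun v' hv' e' => ?_
  · rw [map_mul]
    calc _ = f v * (f b' * f v) * f b' := by group
      _ = f (v * v) * f (b' * b') := by rw [(cm' b' v).eq, map_mul, map_mul]; group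
      _ = 1 := by rw [vv, bb', map_one, one_mul]
  · rw [hyv, map_mul, (cm' v b').eq, map_pow]; group
  · have nv : ¬ Ev u x v.1 := fun he => by
      obtain ⟨r, hr⟩ := fEv v he
      have h1 : f (β' ^ (l + r)) = f y' := by rw [hyv, hr, map_pow]; group
      rw [fe] at h1
      have h2 := c.bT hb bx h1
      have h3 := c.Bc hb (pow_mem c.hβ (l + r))
      have h4 : β ^ j * y = y * β ^ j := by
        calc β ^ j * y = (β ^ j * β ^ (l + r)) * ((β ^ (l + r))⁻¹ * y) := by group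
          _ = β ^ (l + r) * (β ^ j * ((β ^ (l + r))⁻¹ * y)) := by rw [h3]; group
          _ = _ := by
            have h5 : β ^ j * ((β ^ (l + r))⁻¹ * y) = ((β ^ (l + r))⁻¹ * y) * β ^ j := by simpa [β', y'] using h2
            rw [h5]; group
      rw [mul_assoc, h4, inv_mul_cancel_left] at by'
      exact c.Hh.1.2 (by simpa using by')
    have hτ : (v.1 * β ^ j)⁻¹ * v'.1 ∈ c.T := (fe _ _).mp e'.symm
    obtain ⟨d, hd, hdd⟩ := c.hsq ey hb hi bx by'
    generalize β ^ j = b at hτ hb hi bx by'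
    have vb : v.1⁻¹ * b * v.1 = b * h := by
      have h1 := c.bEv hb bx (mul_mem v.2 hy) (c.oo v.2 hy nv ny)
      have h2 : y * b * y⁻¹ = b * h := by
        calc y * b * y⁻¹ = y * (b * h) * h⁻¹ * y⁻¹ := by group
          _ = b * (y * h⁻¹ * y⁻¹) := by rw [← by']; group
          _ = _ := by rw [c.Hh.1.inv, c.cen y hy]; group
      calc v.1⁻¹ * b * v.1 = v.1⁻¹ * (b * (v.1 * y)) * y⁻¹ := by group
        _ = y * b * y⁻¹ := by rw [h1]; group
        _ = _ := h2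
    obtain ⟨a0, ha0, e0⟩ := c.tau1 v.2
    have ns : ¬ Sq x a0 := fun hh => nv ((c.nev e0).mpr hh)
    have vi := hv.inv
    have r0 : v.1⁻¹ * a0 * v.1 = a0⁻¹ := by
      have h1 : u = u * (a0 * (v.1⁻¹ * a0 * v.1)) := by
        calc u = (v.1 * v.1)⁻¹ * u * (v.1 * v.1) := by rw [hv.1]; group
          _ = v.1⁻¹ * (v.1⁻¹ * u * v.1) * v.1 := by group
          _ = (v.1⁻¹ * u * v.1) * (v.1⁻¹ * a0 * v.1) := by rw [e0]; nth_rewrite 2 [← e0]; group
          _ = _ := by rw [e0]; group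
      exact eq_inv_of_mul_eq_one_right (left_eq_mul.mp h1)
    have rA : ∀ a ∈ zpowers x, v.1⁻¹ * a * v.1 = a⁻¹ := by
      obtain ⟨n, rfl⟩ := mem_powers_iff_mem_zpowers.mpr ha0
      rcases Nat.even_or_odd' n with ⟨i, rfl | rfl⟩
      · exact absurd ⟨x ^ i, npow_mem_zpowers x i, by simp only; group⟩ ns
      · obtain ⟨e, he⟩ := (IsPGroup.iff_orderOf.mp c.p2) ⟨x, c.AS (mem_zpowers x)⟩
        rw [← Subgroup.orderOf_coe] at he
        simp only at he r0
        have h1 : x ∈ zpowers (x ^ (2 * i + 1)) := mem_zpowers_pow_iff.mpr (by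
          rw [he]; exact Nat.Coprime.pow_right _ (by simp))
        intro a ha
        obtain ⟨r, rfl⟩ := zpowers_le.mpr h1 ha
        simp only
        rw [cz, r0]; group
    generalize hτ' : (v.1 * b)⁻¹ * v'.1 = τ at hτ
    have e1 : v'.1 = v.1 * b * τ := by rw [← hτ']; group
    have e2 : h * ((v.1⁻¹ * τ * v.1) * τ) = 1 := by
      have h1 := hv'.1
      have h2 := c.bT hb bx (c.Tnorm v.2 hτ)
      rw [e1] at h1
      calc h * ((v.1⁻¹ * τ * v.1) * τ) = (h * b) * (b * (v.1⁻¹ * τ * v.1)) * τ := by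
            rw [mul_assoc h b, ← mul_assoc b b, hi.1]; group
        _ = (v.1⁻¹ * b * v.1) * (v.1⁻¹ * τ * v.1) * b * τ := by
            rw [h2, vb, c.cen b (mem_BB.mp hb).1]; group
        _ = v.1⁻¹ * b * τ * (v.1 * b * τ) := by group
        _ = 1 := by rw [vi, h1]
    rcases c.mem_T.mp hτ with ha | ⟨a, ha, rfl⟩
    · rw [rA τ ha, inv_mul_cancel, mul_one] at e2
      exact c.Hh.1.2 e2
    · apply ns
      refine ⟨d * a, mul_mem hd ha, ?_⟩
      have h1 : (v.1⁻¹ * (u * a) * v.1) * (u * a) = a * a0⁻¹ * a := by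
        calc _ = (v.1⁻¹ * u * v.1) * (v.1⁻¹ * a * v.1) * u * a := by group
          _ = u * (a0 * a⁻¹) * u * a := by rw [e0, rA a ha]; group
          _ = _ := by rw [c.ua (mul_mem ha0 (inv_mem ha)), mul_assoc _ u u, c.toCX.uu]; group
      rw [h1, hdd] at e2
      obtain ⟨i1, rfl⟩ := ha
      obtain ⟨i2, rfl⟩ := hd
      obtain ⟨i3, rfl⟩ := ha0
      simp only at e2 ⊢
      calc x ^ i3 = x ^ i3 * (x ^ i2 * x ^ i2 * (x ^ i1 * (x ^ i3)⁻¹ * x ^ i1)) := by rw [e2, mul_one]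
        _ = _ := by group

end CY

theorem BR.fin {O : Finset X} {m : ℕ} (hb : BR G O m) (hG : ¬ IsMulCommutative G) {w : G}
    (hw : Iv w) : Hm O w := by
  by_contra hn
  have hp : IsPGroup 2 (zpowers w) := IsPGroup.of_card (n := 1) (by rw [Nat.card_zpowers, hw.ord]; rfl)
  obtain ⟨S, hS⟩ := hp.exists_le_sylow
  have hwS : w ∈ (S : Subgroup G) := hS (mem_zpowers w)
  have ex : ∃ t ∈ (S : Subgroup G), Hm O t := by
    haveI : Nontrivial (S : Subgroup G) := ⟨⟨⟨w, hwS⟩, 1, fun e => hw.2 (congrArg Subtype.val e)⟩⟩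
    haveI := S.2.center_nontrivial
    obtain ⟨z, hz⟩ := exists_ne (1 : center (S : Subgroup G))
    obtain ⟨j, hj⟩ := ex_iv S.2 z.1.2 (fun e => hz (Subtype.ext (Subtype.ext e)))
    have hzS := pow_mem z.1.2 j
    by_cases hH : Hm O ((z.1 : G) ^ j)
    · exact ⟨_, hzS, hH⟩
    · obtain ⟨g, hg, hne⟩ := zstar hG S hj hzS
      exact ⟨_, mul_mem hzS hg, hb.bb hj hH (hj.cj g) (fun hh => hH (hb.hcj' hh)) hne.symm
        (congrArg Subtype.val (mem_center_iff.mp (pow_mem z.2 j) ⟨_, hg⟩)).symm⟩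
  obtain ⟨t, htS, ht⟩ := ex
  obtain ⟨h, hS', Hh, cen⟩ := hb.cenH S.2 ht htS
  obtain ⟨g, hg, hne⟩ := zstar hG S Hh.1 hS'
  have Hu := hb.hcj Hh g
  classical
  obtain ⟨P, Q, PQ, e⟩ := Finset.card_eq_two.mp Hh.2
  obtain ⟨P', Q', PQ', e'⟩ := Finset.card_eq_two.mp Hu.2
  have c : CX O m (S : Subgroup G) h (g⁻¹ * h * g) P Q P' Q' :=
    { hb with
      p2 := S.2, hS := hS', uS := hg, Hh := Hh, Hu := Hu, cen := cen, ne := hne
      Fh := fun p => by rw [e]; simp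
      PQ := PQ
      Fu := fun p => by rw [e']; simp
      PQ' := PQ' }
  obtain ⟨x, hx⟩ := c.cyc
  obtain ⟨β, hβ, hB⟩ := c.Bcyc
  exact CY.fin (S := S) { c with hA := hx, hβ := hβ, hB := hB } hG hw hn hwS

end

theorem OV.nb {G L P : Type*} [Membership P L] [Fintype P] [Fintype L]
    [Configuration.ProjectivePlane P L] [Group G] [MulAction G P] [MulAction G L] {O : Finset P}
    (h : OV G L O) [Finite G] [IsSimpleGroup G] (hG : ¬ IsMulCommutative G)
    (hn : Configuration.ProjectivePlane.order P L % 4 = 1) (t : G) (ht : Iv t) :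
    (F O t).card = 2 := by
  classical
  have hp : ∀ φ : G →* ℤˣ, φ = 1 := fun φ => MonoidHom.ext fun g =>
    H11.map_eq_one_of_mem_commutator φ (by rw [perf hG]; trivial)
  rcases h.a1 hp ht with e | e | ⟨m, e1, e2, e3, -⟩
  · exact e.1
  · omega
  refine (BR.fin (O := O) (m := m) ⟨h.inv, e2, e3, fun s hs => ?_, fun s s' hs hs' => h.a0 hs.1 hs' hs.2,
    fun s s' hs hs' hne => ?_, fun b b' i1 i2 hne hc k1 k2 k3 => h.a3 i1 i2 hne hc k1 k2 k3 e3,
    fun b a a' ib r1 r2 r3 k p q r pq pr qr h1 h2 h3 h4 h5 h6 => h.a4 ib r1 r2 r3 k e3 ?_⟩ hG ht).2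
  · rcases h.a1 hp hs with e | e | ⟨m', e1', -, -, e4⟩
    · exact Or.inl e.1
    · omega
    · rw [e4, Nat.pow_left_injective (by norm_num : (2 : ℕ) ≠ 0) (e1'.symm.trans e1)]
      exact Or.inr rfl
  · obtain ⟨C, hC⟩ := h.cen2 hs.1 hs.2
    obtain ⟨C', hC'⟩ := h.cen2 hs'.1 hs'.2
    exact h.a2 hne hC hC'
  · have : ({p, q, r} : Finset P) ⊆ F O a ∩ F O a' := by
      intro x hx
      simp only [Finset.mem_insert, Finset.mem_singleton] at hx
      rcases hx with rfl | rfl | rfl <;> exact Finset.mem_inter.mpr ⟨‹_›, ‹_›⟩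
    have h := Finset.card_le_card this
    rw [Finset.card_eq_three.mpr ⟨p, q, r, pq, pr, qr, rfl⟩] at h
    convert h

end Cfsg.Agent.Ov
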